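import Cfsg.Agent.Chars.Induced.Ito
import Cfsg.Agent.Chars.Induced.Gallagher
import Mathlib.GroupTheory.NoncommCoprod
import Mathlib.Algebra.GCDMonoid.Nat

/-!
Degree divisibility from linear characters of normal subgroups moved by every Sylow subgroup.
-/

set_option autoImplicit false
set_option linter.style.haveILetI false
set_option linter.unusedSectionVars false

namespace CfsgLib.Palfy

open Cfsg CfsgLib.Chars CfsgLib.Chars.Induced

variable {G : Type*} [Group G] [Finite G] {p : ℕ}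

/-- A subgroup of index prime to `p` contains a Sylow `p`-subgroup. -/
theorem exists_sylow_le_of_index [Fact p.Prime] (T : Subgroup G) (h : ¬ p ∣ T.index) :
    ∃ X : Sylow p G, (X : Subgroup G) ≤ T := by
  obtain ⟨Q⟩ : Nonempty (Sylow p T) := inferInstance
  have hcard : Nat.card ((Q : Subgroup T).map T.subtype) = p ^ (Nat.card G).factorization p := by
    rw [Subgroup.card_map_of_injective T.subtype_injective, Q.card_eq_multiplicity,
      ← T.card_mul_index, Nat.factorization_mul Nat.card_pos.ne' Subgroup.index_ne_zero_of_finite,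
      Finsupp.add_apply, Nat.factorization_eq_zero_of_not_dvd h, add_zero]
  exact ⟨Sylow.ofCard _ hcard, Subgroup.map_subtype_le _⟩

/-- An irreducible character over a given one of a normal subgroup, its degree divisible by the
index of the inertia group and by the degree. -/
theorem exists_over [Fintype G] {N : Subgroup G} [N.Normal] [Fintype N] (θ : IrrCharacter N) :
    ∃ χ : IrrCharacter G, mult (fun n : N => (χ : G → ℂ) n) θ ≠ 0 := by
  obtain ⟨χ, hχ⟩ := exists_mult_ne_zero (isCharacter_indFun N (isCharacter_coe θ)) (fun h0 => by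
    have h1 := congrFun h0 1
    rw [indFun_one_apply, Pi.zero_apply, mul_eq_zero] at h1
    rcases h1 with h1 | h1
    · exact Subgroup.index_ne_zero_of_finite (Nat.cast_eq_zero.1 h1)
    · exact map_one_ne_zero θ h1)
  exact ⟨χ, by rwa [mult_indFun_irr] at hχ⟩

/-- Degree of a character over another. -/
theorem charDegree_eq_clifford [Fintype G] {N : Subgroup G} [N.Normal] [Fintype N]
    (χ : IrrCharacter G) (θ : IrrCharacter N) (h : mult (fun n : N => (χ : G → ℂ) n) θ ≠ 0) :
    charDegree (χ : G → ℂ) = mult (fun n : N => (χ : G → ℂ) n) θ *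
      (inertia N (θ : N → ℂ)).index * charDegree (θ : N → ℂ) := by
  apply Nat.cast_injective (R := ℂ)
  push_cast
  rw [coe_charDegree, coe_charDegree, clifford_one χ θ h]

/-- Inertia of a linear character, elementwise. -/
theorem apply_conj_of_mem_inertia {N : Subgroup G} [hN : N.Normal] [Fintype N] (μ : N →* ℂˣ) {x : G}
    (h : x ∈ inertia N (linChar μ : N → ℂ)) (n : N) :
    μ ⟨x * n * x⁻¹, hN.conj_mem n n.2 x⟩ = μ n := by
  have h1 := mem_inertia_iff_forall.1 h n ⟨x * n * x⁻¹, hN.conj_mem n n.2 x⟩ rfl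
  exact Units.ext (by simpa [linChar_apply] using h1)

/-- The prime divides the index of the inertia group of a linear character moved by all Sylow
subgroups. -/
theorem dvd_index_of_moved [Fact p.Prime] {N : Subgroup G} [hN : N.Normal] [Fintype N]
    (μ : N →* ℂˣ) (h : ∀ X : Sylow p G, ∃ x ∈ (X : Subgroup G), ∃ n : N,
      μ ⟨x * n * x⁻¹, hN.conj_mem n n.2 x⟩ ≠ μ n) :
    p ∣ (inertia N (linChar μ : N → ℂ)).index := by
  by_contra hd
  obtain ⟨X, hX⟩ := exists_sylow_le_of_index _ hd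
  obtain ⟨x, hx, n, hn⟩ := h X
  exact hn (apply_conj_of_mem_inertia μ (hX hx) n)

/-- Two primes with moved linear characters of one normal subgroup. -/
theorem exists_pr_degree {r : ℕ} [Fact p.Prime] [Fact r.Prime] (hpr : p ≠ r) (N : Subgroup G)
    [hN : N.Normal] (μ : N →* ℂˣ)
    (hp : ∀ X : Sylow p G, ∃ x ∈ (X : Subgroup G), ∃ n : N,
      μ ⟨x * n * x⁻¹, hN.conj_mem n n.2 x⟩ ≠ μ n)
    (hr : ∀ X : Sylow r G, ∃ x ∈ (X : Subgroup G), ∃ n : N,
      μ ⟨x * n * x⁻¹, hN.conj_mem n n.2 x⟩ ≠ μ n) :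
    ∃ χ : IrrCharacter G, p * r ∣ charDegree (χ : G → ℂ) := by
  classical
  letI := Fintype.ofFinite G
  letI := Fintype.ofFinite N
  obtain ⟨χ, hχ⟩ := exists_over (N := N) (linChar μ)
  refine ⟨χ, ?_⟩
  rw [charDegree_eq_clifford χ _ hχ]
  exact Dvd.dvd.mul_right (Dvd.dvd.mul_left (Nat.Coprime.mul_dvd_of_dvd_of_dvd
    ((Nat.coprime_primes Fact.out Fact.out).2 hpr) (dvd_index_of_moved μ hp)
    (dvd_index_of_moved μ hr)) _) _

/-- Two primes with moved linear characters of two disjoint normal subgroups. -/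
theorem exists_pr_degree_two {r : ℕ} [Fact p.Prime] [Fact r.Prime] (hpr : p ≠ r)
    (A B : Subgroup G) [hA : A.Normal] [hB : B.Normal] (hdis : Disjoint A B) (μ : A →* ℂˣ)
    (ν : B →* ℂˣ)
    (hp : ∀ X : Sylow p G, ∃ x ∈ (X : Subgroup G), ∃ n : A,
      μ ⟨x * n * x⁻¹, hA.conj_mem n n.2 x⟩ ≠ μ n)
    (hr : ∀ X : Sylow r G, ∃ x ∈ (X : Subgroup G), ∃ n : B,
      ν ⟨x * n * x⁻¹, hB.conj_mem n n.2 x⟩ ≠ ν n) :
    ∃ χ : IrrCharacter G, p * r ∣ charDegree (χ : G → ℂ) := by
  classical
  have hcom : ∀ (a : A) (b : B), Commute (A.subtype a) (B.subtype b) := fun a b =>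
    Subgroup.commute_of_normal_of_disjoint A B hA hB hdis _ _ a.2 b.2
  let f : A × B →* G := MonoidHom.noncommCoprod A.subtype B.subtype hcom
  have hrange : f.range = A ⊔ B := by
    rw [MonoidHom.noncommCoprod_range, Subgroup.range_subtype, Subgroup.range_subtype]
  have hinj : Function.Injective f := by
    rw [injective_iff_map_eq_one]
    rintro ⟨a, b⟩ hab
    have hab' : (a : G) * b = 1 := hab
    have ha : (a : G) ∈ A ⊓ B := ⟨a.2, by
      rw [eq_inv_of_mul_eq_one_left hab']; exact B.inv_mem b.2⟩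
    rw [hdis.eq_bot, Subgroup.mem_bot] at ha
    rw [ha, one_mul] at hab'
    exact Prod.ext (Subtype.ext ha) (Subtype.ext hab')
  haveI hD : f.range.Normal := hrange ▸ inferInstance
  let e : A × B ≃* f.range := MulEquiv.ofBijective f.rangeRestrict
    ⟨fun u v h => hinj (congrArg Subtype.val h), f.rangeRestrict_surjective⟩
  let w : f.range →* ℂˣ := (μ.coprod ν).comp e.symm.toMonoidHom
  have hw : ∀ (u : A × B) (d : f.range), (d : G) = f u → w d = μ u.1 * ν u.2 := by
    intro u d hd
    have : d = e u := Subtype.ext hd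
    subst this
    simp [w, MonoidHom.coprod_apply]
  refine exists_pr_degree hpr f.range w (fun X => ?_) (fun X => ?_)
  · obtain ⟨x, hx, n, hn⟩ := hp X
    refine ⟨x, hx, ⟨f (n, 1), ⟨_, rfl⟩⟩, fun h => hn ?_⟩
    rw [hw (⟨x * n * x⁻¹, hA.conj_mem n n.2 x⟩, 1) _ (by simp [f]), hw (n, 1) _ rfl] at h
    simpa using h
  · obtain ⟨x, hx, n, hn⟩ := hr X
    refine ⟨x, hx, ⟨f (1, n), ⟨_, rfl⟩⟩, fun h => hn ?_⟩
    rw [hw (1, ⟨x * n * x⁻¹, hB.conj_mem n n.2 x⟩) _ (by simp [f]), hw (1, n) _ rfl] at h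
    simpa using h

end CfsgLib.Palfy
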