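import Cfsg.Agent.Palfy.Data
import Cfsg.Agent.Chars.Basic.Kernel
import Cfsg.Agent.Chars.Induced.Extension
import Cfsg.Agent.Chars.Induced.Relative
import Cfsg.Agent.Chars.Basic.ClassSum
import Mathlib.GroupTheory.SchurZassenhaus
import Mathlib.GroupTheory.FiniteAbelian.Duality

/-!
A normal Sylow subgroup whose commutators lie in a central minimal normal subgroup: invariant
extendible characters over the nontrivial linear characters of the commutators.
-/

set_option autoImplicit false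
set_option linter.style.haveILetI false
set_option linter.unusedSectionVars false

namespace CfsgLib.Palfy

open Cfsg CfsgLib.Chars CfsgLib.Chars.Induced
open scoped commutatorElement

variable {G : Type*} [Group G] [Finite G]

/-- A normal Sylow `q`-subgroup `Q` with commutator subgroup `N` in its centre. -/
structure IsTwoCore (q : ℕ) (N Q : Subgroup G) : Prop where
  prime : q.Prime
  qNormal : Q.Normal
  nNormal : N.Normal
  isP : IsPGroup q Q
  idx : ¬ q ∣ Q.index
  le : N ≤ Q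
  central : ∀ n ∈ N, ∀ a ∈ Q, n * a = a * n
  comm_mem : ∀ a ∈ Q, ∀ b ∈ Q, ⁅a, b⁆ ∈ N
  gen : N ≤ ⁅Q, Q⁆

variable {q : ℕ} {N Q : Subgroup G}

/-- The radical of a linear character of `N` in `Q`. -/
def radical (hQ : IsTwoCore q N Q) (lam : N →* ℂˣ) : Subgroup G where
  carrier := {z | z ∈ Q ∧ ∀ a ∈ Q, ∀ n : N, (n : G) = ⁅z, a⁆ → lam n = 1}
  one_mem' := ⟨one_mem Q, fun a _ n hn => by
    rw [commutatorElement_one_left] at hn
    rw [show n = 1 from Subtype.ext hn, map_one]⟩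
  mul_mem' {z w} hz hw := ⟨mul_mem hz.1 hw.1, fun a ha n hn => by
    have h1 : ⁅z * w, a⁆ = ⁅w, a⁆ * ⁅z, a⁆ := by
      rw [show ⁅z * w, a⁆ = z * ⁅w, a⁆ * z⁻¹ * ⁅z, a⁆ by simp only [commutatorElement_def]; group,
        ← hQ.central _ (hQ.comm_mem _ hw.1 _ ha) _ hz.1, mul_inv_cancel_right]
    rw [show n = ⟨⁅w, a⁆, hQ.comm_mem _ hw.1 _ ha⟩ * ⟨⁅z, a⁆, hQ.comm_mem _ hz.1 _ ha⟩ from
      Subtype.ext (hn.trans h1), map_mul, hw.2 a ha _ rfl, hz.2 a ha _ rfl, one_mul]⟩
  inv_mem' {z} hz := ⟨inv_mem hz.1, fun a ha n hn => by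
    have h1 : ⁅z⁻¹, a⁆ = ⁅z, a⁆⁻¹ := by
      rw [show ⁅z⁻¹, a⁆ = z⁻¹ * ⁅z, a⁆⁻¹ * z by simp only [commutatorElement_def]; group,
        ← hQ.central _ (inv_mem (hQ.comm_mem _ hz.1 _ ha)) _ (inv_mem hz.1), inv_mul_cancel_right]
    rw [show n = (⟨⁅z, a⁆, hQ.comm_mem _ hz.1 _ ha⟩ : N)⁻¹ from Subtype.ext (hn.trans h1), map_inv,
      hz.2 a ha _ rfl, inv_one]⟩

theorem le_radical (hQ : IsTwoCore q N Q) (lam : N →* ℂˣ) : N ≤ radical hQ lam := fun z hz =>
  ⟨hQ.le hz, fun a ha n hn => by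
    rw [commutatorElement_eq_one_iff_mul_comm.2 (hQ.central z hz a ha)] at hn
    rw [show n = 1 from Subtype.ext hn, map_one]⟩

theorem radical_le (hQ : IsTwoCore q N Q) (lam : N →* ℂˣ) : radical hQ lam ≤ Q := fun _ hz => hz.1

theorem q_coprime_of_not_dvd {n : ℕ} (hq : q.Prime) (h : ¬ q ∣ n) (m : ℕ) :
    Nat.Coprime n (q ^ m) :=
  Nat.Coprime.pow_right m (hq.coprime_iff_not_dvd.2 h).symm

/-- A linear character of `N` extends to the radical. -/
theorem exists_radical_ext (hQ : IsTwoCore q N Q) (lam : N →* ℂˣ) :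
    ∃ μ : radical hQ lam →* ℂˣ, ∀ n : N, μ ⟨n, le_radical hQ lam n.2⟩ = lam n := by
  classical
  letI := Fintype.ofFinite G
  haveI := hQ.nNormal
  set Z := radical hQ lam with hZ
  letI := Fintype.ofFinite Z
  letI := Fintype.ofFinite (N.subgroupOf Z)
  let e : N.subgroupOf Z ≃* N := Subgroup.subgroupOfEquivOfLe (le_radical hQ lam)
  let l' : N.subgroupOf Z →* ℂˣ := lam.comp e.toMonoidHom
  obtain ⟨χ, hχ⟩ := exists_over (N := N.subgroupOf Z) (linChar l')
  have hinv : ∀ z : Z, conjFun (N.subgroupOf Z) z (linChar l' : N.subgroupOf Z → ℂ) = linChar l' := by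
    intro z
    funext a
    rw [conjFun_apply]
    refine congrArg (linChar l' : N.subgroupOf Z → ℂ) (Subtype.ext (Subtype.ext ?_))
    have ha : ((a : Z) : G) ∈ N := a.2
    have hz : ((z : Z) : G) ∈ Q := z.2.1
    simp [mul_assoc, hQ.central _ ha _ hz]
  have hres := restrict_eq_of_invariant χ (linChar l') hinv hχ
  have hcomm : commutator Z ≤ charKer (χ : Z → ℂ) := by
    rw [commutator_def, Subgroup.commutator_le]
    intro a _ b _
    have hmem : ((⁅a, b⁆ : Z) : G) ∈ N := by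
      rw [← Subgroup.coe_subtype, map_commutatorElement]
      exact hQ.comm_mem _ a.2.1 _ b.2.1
    let c : N.subgroupOf Z := ⟨⁅a, b⁆, Subgroup.mem_subgroupOf.2 hmem⟩
    have hc : l' c = 1 := a.2.2 b b.2.1 (e c) (by
      show ((⁅a, b⁆ : Z) : G) = _
      rw [← Subgroup.coe_subtype, map_commutatorElement])
    rw [mem_charKer_iff (isCharacter_coe χ)]
    have h1 := congrFun hres c
    have h2 := congrFun hres 1
    simp only [Pi.smul_apply, smul_eq_mul, linChar_apply, hc, map_one, OneMemClass.coe_one] at h1 h2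
    exact h1.trans h2.symm
  obtain ⟨μ, hμ⟩ := exists_linChar_eq χ ((commutator_le_charKer_iff χ).1 hcomm)
  refine ⟨μ, fun n => Units.ext ?_⟩
  have h1 := congrFun hres (e.symm n)
  have h2 := congrFun hres 1
  simp only [Pi.smul_apply, smul_eq_mul, linChar_apply, OneMemClass.coe_one, l', MonoidHom.comp_apply,
    MulEquiv.coe_toMonoidHom, MulEquiv.apply_symm_apply, map_one, Units.val_one, mul_one] at h1 h2
  rw [← hμ] at h1 h2
  simp only [linChar_apply, map_one, Units.val_one] at h1 h2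
  rw [← h2, one_mul] at h1
  exact h1

/-- An irreducible character of `Q` over an extension to the radical: its degree is a multiple of
`q`, it is a multiple of the extension on the radical and vanishes elsewhere. -/
theorem exists_phi (hQ : IsTwoCore q N Q) {lam : N →* ℂˣ} (hlam : lam ≠ 1)
    (μ : radical hQ lam →* ℂˣ) (hμ : ∀ n : N, μ ⟨n, le_radical hQ lam n.2⟩ = lam n) :
    ∃ φ : IrrCharacter Q, q ∣ charDegree (φ : Q → ℂ) ∧
      (∀ z : radical hQ lam, (φ : Q → ℂ) ⟨z, radical_le hQ lam z.2⟩ = (φ : Q → ℂ) 1 * μ z) ∧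
      ∀ a : Q, (a : G) ∉ radical hQ lam → (φ : Q → ℂ) a = 0 := by
  classical
  haveI := Fact.mk hQ.prime
  haveI := hQ.qNormal
  haveI := hQ.nNormal
  letI := Fintype.ofFinite G
  letI := Fintype.ofFinite Q
  haveI hZn : ((radical hQ lam).subgroupOf Q).Normal := ⟨fun z hz a => by
    rw [Subgroup.mem_subgroupOf] at hz ⊢
    have h1 : ((a : Q) : G) * (z : G) * (a : G)⁻¹ = ⁅(a : G), (z : G)⁆ * z := by
      simp only [commutatorElement_def]; group
    show (a : G) * (z : G) * (a : G)⁻¹ ∈ (radical hQ lam)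
    rw [h1]
    exact mul_mem (le_radical hQ lam (hQ.comm_mem _ a.2 _ z.2)) hz⟩
  letI := Fintype.ofFinite ((radical hQ lam).subgroupOf Q)
  let e : (radical hQ lam).subgroupOf Q ≃* (radical hQ lam) := Subgroup.subgroupOfEquivOfLe (radical_le hQ lam)
  let m : (radical hQ lam).subgroupOf Q →* ℂˣ := μ.comp e.toMonoidHom
  have hinv : ∀ a : Q, conjFun ((radical hQ lam).subgroupOf Q) a (linChar m : (radical hQ lam).subgroupOf Q → ℂ) = linChar m := by
    intro a
    funext z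
    rw [conjFun_apply]
    simp only [linChar_apply, m, MonoidHom.comp_apply, MulEquiv.coe_toMonoidHom]
    congr 1
    have hzZ : ((z : Q) : G) ∈ (radical hQ lam) := Subgroup.mem_subgroupOf.1 z.2
    have ha' : (a : G)⁻¹ ∈ Q := inv_mem a.2
    have hc := hQ.comm_mem _ ha' _ ((z : Q).2)
    have h1 : e ⟨a⁻¹ * (z : Q) * a, by simpa using hZn.conj_mem _ z.2 a⁻¹⟩ =
        (⟨_, le_radical hQ lam hc⟩ : (radical hQ lam)) * e z := by
      apply Subtype.ext
      show (a : G)⁻¹ * ((z : Q) : G) * (a : G) = ⁅(a : G)⁻¹, ((z : Q) : G)⁆ * ((z : Q) : G)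
      simp only [commutatorElement_def]; group
    rw [h1, map_mul, hμ ⟨_, hc⟩]
    have h2 : lam ⟨⁅(a : G)⁻¹, ((z : Q) : G)⁆, hc⟩ = 1 := by
      have h3 := hzZ.2 _ ha' ⟨⁅((z : Q) : G), (a : G)⁻¹⁆, hQ.comm_mem _ (z : Q).2 _ ha'⟩ rfl
      rw [show (⟨⁅(a : G)⁻¹, ((z : Q) : G)⁆, hc⟩ : N) =
        (⟨⁅((z : Q) : G), (a : G)⁻¹⁆, hQ.comm_mem _ (z : Q).2 _ ha'⟩ : N)⁻¹ from
          Subtype.ext (commutatorElement_inv _ _).symm, map_inv, h3, inv_one]
    rw [h2, one_mul]
  obtain ⟨φ, hφ⟩ := exists_over (N := (radical hQ lam).subgroupOf Q) (linChar m)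
  have hres := restrict_eq_of_invariant φ (linChar m) hinv hφ
  have hres' : ∀ z : (radical hQ lam), (φ : Q → ℂ) ⟨z, radical_le hQ lam z.2⟩ = (φ : Q → ℂ) 1 * μ z := by
    intro z
    have h1 := congrFun hres (e.symm z)
    have h2 := congrFun hres 1
    simp only [Pi.smul_apply, smul_eq_mul, linChar_apply, OneMemClass.coe_one, m, MonoidHom.comp_apply,
      MulEquiv.coe_toMonoidHom, MulEquiv.apply_symm_apply, map_one, Units.val_one, mul_one] at h1 h2
    rw [h2]
    exact h1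
  refine ⟨φ, ?_, hres', ?_⟩
  · -- the degree is a power of `q` and not one
    obtain ⟨k, hk⟩ := hQ.isP.exists_card_eq
    obtain ⟨j, -, hj⟩ := (Nat.dvd_prime_pow hQ.prime).1 (hk ▸ charDegree_dvd_card φ)
    rcases j with _ | j
    · exfalso
      obtain ⟨l, hl⟩ := exists_linChar_eq φ (by rw [← coe_charDegree, hj]; simp)
      apply hlam
      refine MonoidHom.ext fun n => ?_
      rw [MonoidHom.one_apply]
      have hker : ⁅Q, Q⁆ ≤ ((l.ker).map Q.subtype) := by
        have h : (commutator Q).map Q.subtype = ⁅Q, Q⁆ := by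
          rw [commutator_def, Subgroup.map_commutator, ← MonoidHom.range_eq_map, Subgroup.range_subtype]
        rw [← h]
        exact Subgroup.map_mono (Abelianization.commutator_subset_ker l)
      obtain ⟨a, ha, hae⟩ := hker (hQ.gen n.2)
      have h1 := hres' ⟨n, le_radical hQ lam n.2⟩
      rw [hμ, ← hl, linChar_apply, linChar_apply, map_one, Units.val_one, one_mul,
        show (⟨(n : G), _⟩ : Q) = a from Subtype.ext hae.symm, MonoidHom.mem_ker.1 ha] at h1
      exact Units.ext h1.symm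
    · rw [hj]; exact dvd_pow_self q (by omega)
  · intro a ha
    obtain ⟨b, hb, n, hn, hne⟩ : ∃ b ∈ Q, ∃ n : N, (n : G) = ⁅(a : G), b⁆ ∧ lam n ≠ 1 := by
      by_contra h
      push Not at h
      exact ha ⟨a.2, h⟩
    -- conjugation multiplies the value by a nontrivial scalar
    let b' : Q := ⟨b, hb⟩
    let c : Q := ⟨n, hQ.le n.2⟩
    have hcc : c ∈ Subgroup.center Q := Subgroup.mem_center_iff.2 fun g =>
      Subtype.ext (hQ.central _ n.2 _ g.2).symm
    have h1 : b' * a * b'⁻¹ = c⁻¹ * a := by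
      apply Subtype.ext
      show b * (a : G) * b⁻¹ = (n : G)⁻¹ * a
      rw [hn]; simp only [commutatorElement_def]; group
    have h2 := isClassFunction_coe φ a b'
    rw [h1, map_mul_of_mem_center φ (inv_mem hcc)] at h2
    have h3 : (φ : Q → ℂ) c⁻¹ = (φ : Q → ℂ) 1 * (lam n⁻¹ : ℂˣ) := by
      rw [← hμ n⁻¹]
      exact hres' ⟨((n⁻¹ : N) : G), le_radical hQ lam (n⁻¹).2⟩
    rw [h3, mul_div_assoc, mul_comm ((φ : Q → ℂ) 1), div_mul_cancel₀ _ (map_one_ne_zero φ),
      mul_left_eq_self₀] at h2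
    refine h2.resolve_left fun h4 => hne ?_
    have h5 : lam n⁻¹ = 1 := Units.ext h4
    simpa using h5

/-- Nontrivial linear characters of the commutators have extendible characters above them, and so
Sylow data. -/
theorem two_data [Group.IsSolvable G] (hQ : IsTwoCore q N Q) [hN : N.Normal] [Fintype N]
    {π : ℕ} [Fact π.Prime] (lam : N →* ℂˣ) (hlam : lam ≠ 1)
    (hadj : ∀ χ : IrrCharacter G, q ∣ charDegree (χ : G → ℂ) → ¬ π ∣ charDegree (χ : G → ℂ)) :
    ∃ X : Sylow π G, (X : Subgroup G) ≤ inertia N (linChar lam : N → ℂ) ∧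
      (∀ t ∈ inertia N (linChar lam : N → ℂ), ∀ x ∈ (X : Subgroup G),
        t * x * t⁻¹ ∈ (X : Subgroup G) ⊔ Q) ∧
      ∀ a ∈ (X : Subgroup G), ∀ b ∈ (X : Subgroup G), ⁅a, b⁆ ∈ Q := by
  classical
  haveI := Fact.mk hQ.prime
  haveI := hQ.qNormal
  letI := Fintype.ofFinite G
  letI := Fintype.ofFinite Q
  set T := inertia N (linChar lam : N → ℂ) with hT
  set Z := radical hQ lam with hZ
  obtain ⟨k, hk⟩ := hQ.isP.exists_card_eq
  have hco : Nat.Coprime (Nat.card Q) Q.index := by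
    rw [hk]; exact (q_coprime_of_not_dvd hQ.prime hQ.idx k).symm
  obtain ⟨L, hL⟩ := Subgroup.exists_right_complement'_of_coprime hco
  let L0 : Subgroup G := L ⊓ T
  letI := Fintype.ofFinite L0
  obtain ⟨μ0, hμ0⟩ := exists_radical_ext hQ lam
  -- elements of the inertia group normalize the radical
  have hlamT : ∀ t ∈ T, ∀ n : N, lam ⟨t * n * t⁻¹, hN.conj_mem n n.2 t⟩ = lam n :=
    fun t ht n => apply_conj_of_mem_inertia lam ht n
  have hZT : ∀ t ∈ T, ∀ z ∈ Z, t * z * t⁻¹ ∈ Z := by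
    intro t ht z hz
    refine ⟨hQ.qNormal.conj_mem z hz.1 t, fun a ha n hn => ?_⟩
    have ha' : t⁻¹ * a * t ∈ Q := by simpa using hQ.qNormal.conj_mem a ha t⁻¹
    have hm : (n : G) = t * ⁅z, t⁻¹ * a * t⁆ * t⁻¹ := by
      rw [hn, conjugate_commutatorElement, show t * (t⁻¹ * a * t) * t⁻¹ = a by group]
    have := hlamT t ht ⟨_, hQ.comm_mem _ hz.1 _ ha'⟩
    rw [hz.2 _ ha' ⟨_, hQ.comm_mem _ hz.1 _ ha'⟩ rfl] at this
    rwa [show n = ⟨t * ⁅z, t⁻¹ * a * t⁆ * t⁻¹, hN.conj_mem _ (hQ.comm_mem _ hz.1 _ ha') t⟩ from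
      Subtype.ext hm]
  let cj : L0 → Z →* Z := fun l =>
    { toFun := fun z => ⟨(l : G) * z * (l : G)⁻¹, hZT _ l.2.2 _ z.2⟩
      map_one' := Subtype.ext (by simp)
      map_mul' := fun z w => Subtype.ext (by simp [mul_assoc]) }
  obtain ⟨a, ha⟩ : ∃ a : ℕ, (lam ^ Nat.card L0) ^ a = lam := by
    suffices h : (Nat.card L0).Coprime (orderOf lam) from exists_pow_eq_self_of_coprime h
    have h1 : orderOf lam ∣ q ^ k := by
      refine dvd_trans ?_ (hk ▸ Subgroup.card_dvd_of_le hQ.le)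
      refine orderOf_dvd_of_pow_eq_one (MonoidHom.ext fun n => ?_)
      rw [MonoidHom.pow_apply, ← map_pow, pow_card_eq_one', map_one, MonoidHom.one_apply]
    have h2 : ¬ q ∣ Nat.card L0 := fun h => hQ.idx (by
      have := h.trans (Subgroup.card_dvd_of_le (inf_le_left : L0 ≤ L))
      rwa [← hL.symm.index_eq_card] at this)
    exact (q_coprime_of_not_dvd hQ.prime h2 k).coprime_dvd_right h1
  let μ : Z →* ℂˣ := (∏ l : L0, μ0.comp (cj l)) ^ a
  have hμN : ∀ n : N, μ ⟨n, le_radical hQ lam n.2⟩ = lam n := by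
    intro n
    have h1 : ∀ l : L0, μ0.comp (cj l) ⟨n, le_radical hQ lam n.2⟩ = lam n := by
      intro l
      rw [MonoidHom.comp_apply, ← hlamT _ l.2.2 n]
      exact (congrArg μ0 (Subtype.ext rfl)).trans
        (hμ0 ⟨(l : G) * n * (l : G)⁻¹, hN.conj_mem n n.2 _⟩)
    conv_rhs => rw [← ha]
    simp only [μ, MonoidHom.pow_apply, MonoidHom.finsetProd_apply, h1, Finset.prod_const,
      Finset.card_univ, Nat.card_eq_fintype_card]
  have hμinv : ∀ l : L0, ∀ z : Z, μ (cj l z) = μ z := by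
    intro l z
    simp only [μ, MonoidHom.pow_apply, MonoidHom.finsetProd_apply, MonoidHom.comp_apply]
    congr 1
    refine Fintype.prod_equiv (Equiv.mulRight l) _ _ fun l' => congrArg μ0 (Subtype.ext ?_)
    show (l' : G) * ((l : G) * z * (l : G)⁻¹) * (l' : G)⁻¹ =
      ((l' * l : L0) : G) * z * ((l' * l : L0) : G)⁻¹
    simp [mul_assoc]
  obtain ⟨φ, hφq, hφZ, hφ0⟩ := exists_phi hQ hlam μ hμN
  -- the inertia group
  have hQT : Q ≤ T := by
    intro g hg
    rw [hT, mem_inertia_iff_forall]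
    intro n m hm
    rw [← hQ.central _ n.2 _ hg, mul_inv_cancel_right] at hm
    rw [show m = n from Subtype.ext hm]
  have hTeq : T = inertia Q (φ : Q → ℂ) := by
    refine le_antisymm (fun t ht => ?_) fun t ht => ?_
    · obtain ⟨⟨a', l⟩, hal⟩ := (hL.existsUnique t).exists
      have hal' : (a' : G) * (l : G) = t := hal
      have hlT : (l : G) ∈ T := by
        rw [show (l : G) = (a' : G)⁻¹ * t by rw [← hal']; group]
        exact mul_mem (inv_mem (hQT a'.2)) ht
      rw [← hal']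
      refine mul_mem (le_inertia (isClassFunction_coe φ) a'.2) (mem_inertia_iff_forall.2 ?_)
      intro n m hm
      by_cases hnZ : (n : G) ∈ Z
      · have e1 := hφZ ⟨n, hnZ⟩
        have e2 := hφZ (cj ⟨l, l.2, hlT⟩ ⟨n, hnZ⟩)
        rw [hμinv, ← e1] at e2
        refine (congrArg (φ : Q → ℂ) ?_).trans (e2.trans (congrArg (φ : Q → ℂ) (Subtype.ext rfl)))
        exact Subtype.ext hm
      · rw [hφ0 n hnZ, hφ0 m fun hmZ => hnZ ?_]
        have := hZT _ (inv_mem hlT) _ hmZ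
        rwa [hm, inv_inv, show (l : G)⁻¹ * ((l : G) * n * (l : G)⁻¹) * (l : G) = n by group] at this
    · rw [hT, mem_inertia_iff_forall]
      intro n m hm
      have h1 := mem_inertia_iff_forall.1 ht ⟨n, hQ.le n.2⟩ ⟨m, hQ.le m.2⟩ hm
      have e1 := hφZ ⟨n, le_radical hQ lam n.2⟩
      have e2 := hφZ ⟨m, le_radical hQ lam m.2⟩
      rw [hμN] at e1 e2
      simp only [linChar_apply]
      exact mul_left_cancel₀ (map_one_ne_zero φ) (e2.symm.trans (h1.trans e1))
  -- extension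
  letI := Fintype.ofFinite T
  letI := Fintype.ofFinite (Q.subgroupOf T)
  let e : Q.subgroupOf T ≃* Q := Subgroup.subgroupOfEquivOfLe hQT
  let φ' : IrrCharacter (Q.subgroupOf T) :=
    ⟨fun x => (φ : Q → ℂ) (e x), isIrrCharacter_comp φ.2 e.toMonoidHom e.surjective⟩
  have hinv : ∀ t : T, conjFun (Q.subgroupOf T) t (φ' : Q.subgroupOf T → ℂ) = φ' := by
    intro t
    funext x
    show conjFun (Q.subgroupOf T) t (φ' : Q.subgroupOf T → ℂ) x = (φ : Q → ℂ) (e x)
    have hx := congrFun (mem_inertia.1 (hTeq.le t.2)) (e x)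
    rw [conjFun_apply] at hx ⊢
    exact (congrArg (φ : Q → ℂ) (Subtype.ext rfl)).trans hx
  have hidx : ¬ q ∣ (Q.subgroupOf T).index := fun h => hQ.idx
    (h.trans (Subgroup.relIndex_dvd_index_of_normal Q T))
  have hcard : Nat.card (Q.subgroupOf T) = q ^ k := by rw [← hk]; exact Nat.card_congr e.toEquiv
  obtain ⟨j, -, hj⟩ := (Nat.dvd_prime_pow hQ.prime).1 (hcard ▸ charDegree_dvd_card φ')
  obtain ⟨i, -, hi⟩ := (Nat.dvd_prime_pow hQ.prime).1
    (hcard ▸ detOrder_dvd_card (isCharacter_coe φ'))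
  obtain ⟨θ, hθ, -⟩ := exists_canonical_extension φ' hinv (d := q ^ j)
    (by rw [← hj, coe_charDegree])
    (by rw [hi, ← pow_add]; exact q_coprime_of_not_dvd hQ.prime hidx _)
  obtain ⟨X, hX, hXn, hXc⟩ := sylow_data Q φ T hTeq hQT θ (fun m => by
    have := hθ (e.symm m)
    simp only [φ', MulEquiv.apply_symm_apply] at this
    exact this) (Dvd.dvd.mul_left hφq _) hadj
  exact ⟨X, hX, hXn, hXc⟩

/-- A `π`-subgroup fixing all extensions to the radical acts trivially on it modulo `N`. -/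
theorem radical_centralized [Group.IsSolvable G] (hQ : IsTwoCore q N Q) {π : ℕ} [Fact π.Prime]
    {lam : N →* ℂˣ} (hlam : lam ≠ 1) (K : Subgroup G) [hK : K.Normal]
    (hKgen : ∀ X : Sylow π G, K ≤ (X : Subgroup G) ⊔ Q)
    (hadj : ∀ χ : IrrCharacter G, q ∣ charDegree (χ : G → ℂ) → ¬ π ∣ charDegree (χ : G → ℂ))
    {x z : G} (hx : x ∈ K) (hz : z ∈ radical hQ lam) (hxz : x * z * x⁻¹ ∈ radical hQ lam) :
    ⁅x, z⁆ ∈ N := by
  classical
  haveI := Fact.mk hQ.prime
  haveI := hQ.qNormal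
  haveI := hQ.nNormal
  letI := Fintype.ofFinite G
  letI := Fintype.ofFinite Q
  set Z := radical hQ lam with hZ
  -- every extension takes equal values
  have hfix : ∀ μ : Z →* ℂˣ, (∀ n : N, μ ⟨n, le_radical hQ lam n.2⟩ = lam n) →
      μ ⟨x * z * x⁻¹, hxz⟩ = μ ⟨z, hz⟩ := by
    intro μ hμ
    obtain ⟨φ, hφq, hφZ, -⟩ := exists_phi hQ hlam μ hμ
    obtain ⟨χ, hχ⟩ := exists_over (N := Q) φ
    have hdeg := charDegree_eq_clifford χ φ hχ
    have hidx : ¬ π ∣ (inertia Q (φ : Q → ℂ)).index := fun h =>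
      hadj χ (hdeg ▸ Dvd.dvd.mul_left hφq _) (hdeg ▸ Dvd.dvd.mul_right (Dvd.dvd.mul_left h _) _)
    obtain ⟨X, hX⟩ := exists_sylow_le_of_index _ hidx
    have hxT : x ∈ inertia Q (φ : Q → ℂ) :=
      sup_le hX (le_inertia (isClassFunction_coe φ)) (hKgen X hx)
    have h1 := mem_inertia_iff_forall.1 hxT ⟨z, hz.1⟩ ⟨x * z * x⁻¹, hxz.1⟩ rfl
    have e1 := hφZ ⟨z, hz⟩
    have e2 := hφZ ⟨x * z * x⁻¹, hxz⟩
    exact Units.ext (mul_left_cancel₀ (map_one_ne_zero φ) (e2.symm.trans (h1.trans e1)))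
  obtain ⟨μ0, hμ0⟩ := exists_radical_ext hQ lam
  by_contra hne
  -- separate in the abelian quotient
  have hnorm : (N.subgroupOf Z).Normal := inferInstance
  haveI : IsMulCommutative (Z ⧸ N.subgroupOf Z) := ⟨⟨fun a b => by
    induction a using QuotientGroup.induction_on with
    | _ a =>
      induction b using QuotientGroup.induction_on with
      | _ b =>
        rw [← QuotientGroup.mk_mul, ← QuotientGroup.mk_mul, QuotientGroup.eq,
          Subgroup.mem_subgroupOf]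
        have := hQ.comm_mem _ (inv_mem b.2.1) _ (inv_mem a.2.1)
        simpa [commutatorElement_def, mul_assoc] using this⟩⟩
  letI : CommGroup (Z ⧸ N.subgroupOf Z) :=
    { (inferInstance : Group (Z ⧸ N.subgroupOf Z)) with mul_comm := mul_comm' }
  let c : Z := ⟨x * z * x⁻¹, hxz⟩ * (⟨z, hz⟩ : Z)⁻¹
  have hc : (c : Z ⧸ N.subgroupOf Z) ≠ 1 := fun h => hne (by
    rw [QuotientGroup.eq_one_iff, Subgroup.mem_subgroupOf] at h
    simpa [c, commutatorElement_def, mul_assoc] using h)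
  haveI : Finite (Z ⧸ N.subgroupOf Z) := Quotient.finite _
  obtain ⟨ν, hν⟩ := CommGroup.exists_apply_ne_one_of_hasEnoughRootsOfUnity (Z ⧸ N.subgroupOf Z) ℂ hc
  have h2 := hfix (μ0 * ν.comp (QuotientGroup.mk' _)) fun n => by
    rw [MonoidHom.mul_apply, hμ0, MonoidHom.comp_apply, QuotientGroup.mk'_apply,
      (QuotientGroup.eq_one_iff (⟨(n : G), le_radical hQ lam n.2⟩ : radical hQ lam)).2
        (Subgroup.mem_subgroupOf.2 n.2), map_one, mul_one]
  rw [MonoidHom.mul_apply, MonoidHom.mul_apply, hfix μ0 hμ0, mul_right_inj] at h2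
  apply hν
  simp only [MonoidHom.comp_apply, QuotientGroup.mk'_apply] at h2
  simp [c, h2]

end CfsgLib.Palfy
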