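import Cfsg.Agent.Solvable.MinNormal
import Mathlib.GroupTheory.Transfer

/-!
Commuting Sylow subgroups when the abelianization is a `p`-group; a counting contradiction.
-/

set_option autoImplicit false
set_option linter.style.haveILetI false
set_option linter.unusedSectionVars false

namespace CfsgLib.Palfy

universe u

/-- If a Sylow `p`-subgroup commutes with a Sylow `r`-subgroup and only `p` divides the order of the
abelianization, then `r` does not divide the order. -/
theorem not_dvd_of_commuting {p r : ℕ} [Fact p.Prime] [Fact r.Prime] (hpr : p ≠ r) {H : Type u}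
    [Group H] [Finite H] [Group.IsSolvable H] (P : Sylow p H) (R : Sylow r H)
    (hc : ∀ x ∈ (P : Subgroup H), ∀ y ∈ (R : Subgroup H), Commute x y)
    (hab : ∀ ℓ : ℕ, ℓ.Prime → ℓ ∣ (commutator H).index → ℓ = p) : ¬ r ∣ Nat.card H := by
  classical
  suffices key : ∀ (n : ℕ) (H : Type u) [Group H] [Finite H] [Group.IsSolvable H], Nat.card H = n →
      ∀ (P : Sylow p H) (R : Sylow r H),
        (∀ x ∈ (P : Subgroup H), ∀ y ∈ (R : Subgroup H), Commute x y) →
        (∀ ℓ : ℕ, ℓ.Prime → ℓ ∣ (commutator H).index → ℓ = p) → ¬ r ∣ Nat.card H from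
    key _ H rfl P R hc hab
  clear hab hc P R
  intro n
  induction n using Nat.strong_induction_on with
  | _ n ih =>
  intro H _ _ _ hn P R hc hab hr
  have hnt : Nontrivial H := by
    rw [← Finite.one_lt_card_iff_nontrivial]
    exact (Fact.out : r.Prime).one_lt.trans_le (Nat.le_of_dvd Nat.card_pos hr)
  obtain ⟨N, -, hNn, hNne, hmin⟩ := Solvable.exists_minimal_normal_le (⊤ : Subgroup H) top_ne_bot
  haveI := hNn
  obtain ⟨hNab, q, hq, hexp, k, hk, hNcard⟩ :=
    Solvable.minimal_normal_elementary N inferInstance hNne hmin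
  have hmk := QuotientGroup.mk'_surjective N
  have hquot : ¬ r ∣ Nat.card (H ⧸ N) := by
    refine ih _ ?_ (H ⧸ N) rfl (P.mapSurjective hmk) (R.mapSurjective hmk) ?_ ?_
    · rw [← hn, ← N.index_mul_card, ← Subgroup.index_eq_card]
      exact lt_mul_of_one_lt_right (Nat.pos_of_ne_zero Subgroup.index_ne_zero_of_finite)
        ((Subgroup.one_lt_card_iff_ne_bot N).2 hNne)
    · rintro _ ⟨x, hx, rfl⟩ _ ⟨y, hy, rfl⟩
      exact (hc x hx y hy).map _
    · intro ℓ hℓ hd
      refine hab ℓ hℓ (hd.trans ?_)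
      have h1 : (commutator (H ⧸ N)) = (commutator H).map (QuotientGroup.mk' N) := by
        rw [commutator_def, commutator_def, Subgroup.map_commutator,
          Subgroup.map_top_of_surjective _ hmk]
      rw [h1]
      exact Subgroup.index_map_dvd _ hmk
  -- so the minimal normal subgroup is the Sylow subgroup
  have hqr : q = r := by
    rw [Nat.card_congr Subgroup.groupEquivQuotientProdSubgroup, Nat.card_prod] at hr
    · rcases (Fact.out : r.Prime).dvd_mul.1 hr with h | h
      · exact absurd h hquot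
      · rw [hNcard] at h
        exact ((Nat.prime_dvd_prime_iff_eq Fact.out hq).1 ((Fact.out : r.Prime).dvd_of_dvd_pow h)).symm
  subst hqr
  have hNR : N = (R : Subgroup H) := by
    have hNp : IsPGroup q N := IsPGroup.of_card hNcard
    have hle : N ≤ (R : Subgroup H) :=
      le_sup_left.trans (R.3 (hNp.to_sup_of_normal_left R.2) le_sup_right).le
    refine le_antisymm hle ?_
    intro y hy
    rw [← QuotientGroup.eq_one_iff]
    obtain ⟨j, hj⟩ := IsPGroup.iff_orderOf.1 R.2 ⟨y, hy⟩
    rw [← Subgroup.orderOf_coe] at hj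
    have h1 : orderOf (y : H ⧸ N) ∣ q ^ j := by
      rw [← hj]; exact orderOf_map_dvd (QuotientGroup.mk' N) y
    have h2 : orderOf (y : H ⧸ N) ∣ Nat.card (H ⧸ N) := orderOf_dvd_natCard _
    have h3 : Nat.Coprime (q ^ j) (Nat.card (H ⧸ N)) :=
      Nat.Coprime.pow_left j ((Fact.out : q.Prime).coprime_iff_not_dvd.2 hquot)
    exact orderOf_eq_one_iff.1 (Nat.eq_one_of_dvd_coprimes h3 h1 h2)
  -- it is central
  set C := Subgroup.centralizer (N : Set H) with hC
  haveI : C.Normal := by rw [hC]; infer_instance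
  have hPC : (P : Subgroup H) ≤ C := fun x hx => Subgroup.mem_centralizer_iff.2
    fun y hy => ((hc x hx y (hNR ▸ hy)).eq).symm
  have hCtop : C = ⊤ := by
    by_contra hne
    haveI : Nontrivial (H ⧸ C) := QuotientGroup.nontrivial_iff.2 hne
    have hlt : commutator (H ⧸ C) < ⊤ := Group.IsSolvable.commutator_lt_top_of_nontrivial _
    obtain ⟨ℓ, hℓ, hℓd⟩ := Nat.exists_prime_and_dvd (mt Subgroup.index_eq_one.1 hlt.ne)
    have hℓC : ℓ ∣ C.index := by
      rw [Subgroup.index_eq_card C]
      exact hℓd.trans (Subgroup.index_dvd_card _)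
    have hℓH : ℓ = p := by
      refine hab ℓ hℓ (hℓd.trans ?_)
      have h1 : (commutator (H ⧸ C)) = (commutator H).map (QuotientGroup.mk' C) := by
        rw [commutator_def, commutator_def, Subgroup.map_commutator,
          Subgroup.map_top_of_surjective _ (QuotientGroup.mk'_surjective C)]
      rw [h1]
      exact Subgroup.index_map_dvd _ (QuotientGroup.mk'_surjective C)
    subst hℓH
    exact P.not_dvd_index (hℓC.trans (Subgroup.index_dvd_of_le hPC))
  -- transfer
  have hP : Subgroup.normalizer ((R : Subgroup H) : Set H) ≤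
      Subgroup.centralizer ((R : Subgroup H) : Set H) := by
    rw [← hNR, ← hC, hCtop]
    exact le_top
  haveI : IsMulCommutative (R : Subgroup H) := hNR ▸ hNab
  have hker : commutator H ≤ (MonoidHom.transferSylow R hP).ker := by
    rw [commutator_def, Subgroup.commutator_le]
    intro a _ b _
    rw [MonoidHom.mem_ker, map_commutatorElement, commutatorElement_eq_one_iff_mul_comm]
    exact IsMulCommutative.is_comm.comm _ _
  have hidx : (MonoidHom.transferSylow R hP).ker.index = Nat.card (R : Subgroup H) :=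
    (MonoidHom.ker_transferSylow_isComplement' R hP).symm.index_eq_card
  have hqd : q ∣ (commutator H).index := by
    refine dvd_trans ?_ (Subgroup.index_dvd_of_le hker)
    rw [hidx, ← hNR, hNcard]
    exact dvd_pow_self q hk.ne'
  exact hpr (hab q Fact.out hqd).symm

/-- Two geometric sums with the same value. -/
theorem geom_false {q n a b d u : ℕ} (hq : q.Prime) (hn : 1 < n) (hbu : b < u) (hud : u ≤ d)
    (ha : 1 ≤ a) (h1 : n * (q ^ u - 1) = q ^ d - 1) (h2 : n * (q ^ b - 1) = q ^ a - 1) : False := by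
  have hb : b ≠ 0 := by
    rintro rfl
    have h3 : 2 ≤ q ^ a := hq.two_le.trans (Nat.le_self_pow (by omega) q)
    simp at h2
    omega
  have hpos : ∀ k : ℕ, 1 ≤ q ^ k := fun k => Nat.one_le_pow _ _ hq.pos
  have hab : b < a := by
    by_contra hle
    have h3 := Nat.pow_le_pow_right hq.pos (not_lt.1 hle)
    have h4 : 2 ≤ q ^ b := hq.two_le.trans (Nat.le_self_pow hb q)
    have h5 : 2 * (q ^ b - 1) ≤ n * (q ^ b - 1) := Nat.mul_le_mul_right _ hn
    omega
  have e1 : (n : ℤ) * ((q : ℤ) ^ u - 1) = (q : ℤ) ^ d - 1 := by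
    have := congrArg (Nat.cast : ℕ → ℤ) h1
    push_cast [hpos u, hpos d] at this
    exact this
  have e2 : (n : ℤ) * ((q : ℤ) ^ b - 1) = (q : ℤ) ^ a - 1 := by
    have := congrArg (Nat.cast : ℕ → ℤ) h2
    push_cast [hpos b, hpos a] at this
    exact this
  obtain ⟨c, hc⟩ : ∃ c, d = u + c := ⟨d - u, by omega⟩
  obtain ⟨f, hf⟩ : ∃ f, u = b + 1 + f := ⟨u - b - 1, by omega⟩
  obtain ⟨g, hg⟩ : ∃ g, a = b + 1 + g := ⟨a - b - 1, by omega⟩
  subst hc hf hg
  -- compare modulo `q ^ (b + 1)`
  have h6 : (q : ℤ) ^ (b + 1) ∣ (q : ℤ) ^ b := by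
    refine ⟨(q : ℤ) ^ g - n * q ^ f * ((q : ℤ) ^ b - 1) +
      (q : ℤ) ^ (f + c) * ((q : ℤ) ^ b - 1), ?_⟩
    simp only [pow_add, pow_one] at e1 e2 ⊢
    linear_combination ((q : ℤ) ^ b - 1) * e1 + e2
  have h7 : q ^ (b + 1) ∣ q ^ b := by exact_mod_cast h6
  have := (Nat.pow_dvd_pow_iff_le_right hq.one_lt).1 h7
  omega

end CfsgLib.Palfy
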