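import Cfsg.Agent.Palfy.Lines
import Cfsg.Agent.PGroup.Commutator

/-!
Normal `ℓ`-subgroups all of whose normal abelian subgroups are cyclic and central: coprime
automorphisms centralizing a maximal elementary abelian subgroup.
-/

set_option autoImplicit false
set_option linter.unusedSectionVars false
set_option linter.style.haveILetI false

namespace CfsgLib.Palfy

open scoped commutatorElement

variable {H : Type*} [Group H] [Finite H] {ℓ : ℕ} [Fact ℓ.Prime]

/-- An abelian `ℓ`-subgroup with one subgroup of order `ℓ` is cyclic. -/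
theorem exists_generator {A : Subgroup H} (hc : ∀ a ∈ A, ∀ b ∈ A, a * b = b * a)
    (hA : IsPGroup ℓ A)
    (h : ∀ z ∈ A, ∀ a ∈ A, z ^ ℓ = 1 → a ^ ℓ = 1 → z ≠ 1 → a ∈ Subgroup.zpowers z) :
    ∃ g, A = Subgroup.zpowers g := by
  classical
  haveI := Fintype.ofFinite A
  obtain ⟨g, -, hg⟩ := Finset.exists_max_image (Finset.univ : Finset A) (fun a => orderOf (a : H))
    Finset.univ_nonempty
  refine ⟨g, le_antisymm ?_ (Subgroup.zpowers_le.2 g.2)⟩
  have hord : ∀ a ∈ A, ∃ k, orderOf a = ℓ ^ k := fun a ha => by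
    obtain ⟨k, hk⟩ := IsPGroup.iff_orderOf.1 hA ⟨a, ha⟩
    exact ⟨k, by rwa [← Subgroup.orderOf_coe] at hk⟩
  obtain ⟨k, hk⟩ := hord g g.2
  -- induction on the order
  suffices key : ∀ m, ∀ a ∈ A, a ^ ℓ ^ m = 1 → a ∈ Subgroup.zpowers (g : H) by
    intro a ha
    obtain ⟨m, hm⟩ := hord a ha
    exact key m a ha (hm ▸ pow_orderOf_eq_one a)
  intro m
  induction m with
  | zero => intro a _ h; rw [pow_zero, pow_one] at h; rw [h]; exact one_mem _
  | succ m ih =>
    intro a ha h1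
    rcases Nat.eq_zero_or_pos k with rfl | hk0
    · have := hg ⟨a, ha⟩ (Finset.mem_univ _)
      obtain ⟨j, hj⟩ := hord a ha
      simp only at this
      rw [hj, hk, pow_zero] at this
      have hj1 : ℓ ^ j = 1 := le_antisymm this (Nat.one_le_pow _ _ (Fact.out : ℓ.Prime).pos)
      rw [orderOf_eq_one_iff.1 (hj.trans hj1)]
      exact one_mem _
    obtain ⟨i, hi⟩ := Subgroup.mem_zpowers_iff.1
      (ih (a ^ ℓ) (pow_mem ha _) (by rwa [← pow_mul, ← pow_succ']))
    -- the exponent is a multiple of the prime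
    have hak : a ^ ℓ ^ k = 1 := by
      obtain ⟨j, hj⟩ := hord a ha
      have := hg ⟨a, ha⟩ (Finset.mem_univ _)
      simp only at this
      rw [hj, hk, Nat.pow_le_pow_iff_right (Fact.out : ℓ.Prime).one_lt] at this
      exact orderOf_dvd_iff_pow_eq_one.1 (hj ▸ Nat.pow_dvd_pow _ this)
    have hdvd : (ℓ : ℤ) ∣ i := by
      have h2 : (g : H) ^ (i * (ℓ ^ (k - 1) : ℕ)) = 1 := by
        rw [zpow_mul, hi, zpow_natCast, ← pow_mul, ← pow_succ', Nat.sub_add_cancel hk0]
        exact hak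
      rw [← orderOf_dvd_iff_zpow_eq_one, hk] at h2
      rw [← Nat.sub_add_cancel hk0, pow_succ'] at h2
      push_cast at h2
      rw [mul_comm i] at h2
      rw [mul_comm (ℓ : ℤ)] at h2
      exact Int.dvd_of_mul_dvd_mul_left (pow_ne_zero _ (by exact_mod_cast (Fact.out : ℓ.Prime).ne_zero)) h2
    obtain ⟨j, rfl⟩ := hdvd
    set b := a * ((g : H) ^ j)⁻¹ with hb
    have hgA : (g : H) ^ j ∈ A := zpow_mem g.2 j
    have hbA : b ∈ A := mul_mem ha (inv_mem hgA)
    have hbl : b ^ ℓ = 1 := by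
      rw [hb, (Commute.inv_right (hc a ha _ hgA)).mul_pow, inv_pow, ← hi, mul_inv_eq_one,
        ← zpow_natCast, ← zpow_mul, mul_comm]
    have hz : ((g : H) ^ ℓ ^ (k - 1)) ^ ℓ = 1 := by
      rw [← pow_mul, ← pow_succ, Nat.sub_add_cancel hk0, ← hk, pow_orderOf_eq_one]
    have hz1 : (g : H) ^ ℓ ^ (k - 1) ≠ 1 := by
      intro h0
      have := orderOf_dvd_of_pow_eq_one h0
      rw [hk, Nat.pow_dvd_pow_iff_le_right (Fact.out : ℓ.Prime).one_lt] at this
      omega
    have hbg : b ∈ Subgroup.zpowers (g : H) :=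
      (Subgroup.zpowers_le.2 (pow_mem (Subgroup.mem_zpowers _) _))
        (h _ (pow_mem g.2 _) b hbA hz hbl hz1)
    have := mul_mem hbg (zpow_mem (Subgroup.mem_zpowers (g : H)) j)
    rwa [hb, inv_mul_cancel_right] at this

/-- The centre of a subgroup, inside the group. -/
def zOf (U : Subgroup H) : Subgroup H := U ⊓ Subgroup.centralizer (U : Set H)

theorem mem_zOf {U : Subgroup H} {z : H} : z ∈ zOf U ↔ z ∈ U ∧ ∀ u ∈ U, u * z = z * u := by
  simp [zOf, Subgroup.mem_centralizer_iff]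

theorem commute_zOf {U : Subgroup H} {z u : H} (hz : z ∈ zOf U) (hu : u ∈ U) : Commute z u :=
  ((mem_zOf.1 hz).2 u hu).symm

theorem zOf_normal {U : Subgroup H} [U.Normal] : (zOf U).Normal := by
  unfold zOf; infer_instance

/-- A normal `ℓ`-subgroup all of whose normal abelian subgroups are cyclic and central. -/
structure IsTight (ℓ : ℕ) (U : Subgroup H) : Prop where
  normal : U.Normal
  isP : IsPGroup ℓ U
  central : ∀ A : Subgroup H, A.Normal → A ≤ U → (∀ a ∈ A, ∀ b ∈ A, a * b = b * a) →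
    A ≤ zOf U ∧ ∃ g, A = Subgroup.zpowers g

variable {U : Subgroup H} (hU : IsTight ℓ U)

include hU

theorem IsTight.zOf_cyclic : ∃ g, zOf U = Subgroup.zpowers g := by
  haveI := hU.normal
  exact (hU.central _ zOf_normal inf_le_left fun a ha b hb => commute_zOf ha hb.1).2

/-- The class is at most two. -/
theorem IsTight.class_two {a b : H} (ha : a ∈ U) (hb : b ∈ U) : ⁅a, b⁆ ∈ zOf U := by
  haveI := hU.normal
  haveI : Group.IsNilpotent U := hU.isP.isNilpotent
  let L : ℕ → Subgroup H := fun n => Nat.rec U (fun _ K => ⁅K, U⁆) n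
  have hLs : ∀ n, L (n + 1) = ⁅L n, U⁆ := fun _ => rfl
  have hLn : ∀ n, (L n).Normal := fun n => by
    induction n with
    | zero => exact hU.normal
    | succ n ih => haveI := ih; rw [hLs]; infer_instance
  have hLU : ∀ n, L n ≤ U := fun n => by
    induction n with
    | zero => exact le_rfl
    | succ n ih => haveI := hLn n; rw [hLs]; exact (Subgroup.commutator_le_right _ _)
  have hLl : ∀ n, L n = ((Subgroup.lowerCentralSeries (⊤ : Subgroup U) n)).map U.subtype := fun n => by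
    induction n with
    | zero =>
      rw [Subgroup.lowerCentralSeries_zero, ← MonoidHom.range_eq_map, Subgroup.range_subtype]
      rfl
    | succ n ih =>
      rw [hLs, ih, Subgroup.lowerCentralSeries_succ, Subgroup.map_commutator, ← MonoidHom.range_eq_map,
        Subgroup.range_subtype]
  obtain ⟨c, hc⟩ : ∃ c, L c ≤ zOf U := by
    obtain ⟨c, hc⟩ := Subgroup.nilpotent_iff_lowerCentralSeries.1
      (inferInstance : Group.IsNilpotent U)
    exact ⟨c, by rw [hLl, hc, Subgroup.map_bot]; exact bot_le⟩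
  -- descend to the first commutator
  have hstep : ∀ n, L (n + 1 + 1) ≤ zOf U → L (n + 1) ≤ zOf U := by
    intro n hn
    haveI := hLn (n + 1)
    have hD : L (n + 1) ≤ ⁅U, U⁆ := by
      rw [hLs]; exact Subgroup.commutator_mono (hLU n) le_rfl
    have h0 : ⁅⁅L (n + 1), U⁆, U⁆ = ⊥ := by
      rw [Subgroup.commutator_eq_bot_iff_le_centralizer]
      exact fun x hx => (hn (hLs (n + 1) ▸ hx)).2
    have h1 : ⁅⁅U, U⁆, L (n + 1)⁆ = ⊥ := by
      refine Subgroup.commutator_commutator_eq_bot_of_rotate ?_ h0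
      rw [Subgroup.commutator_comm U (L (n + 1))]
      exact h0
    refine (hU.central (L (n + 1)) (hLn (n + 1)) (hLU (n + 1)) fun a ha b hb => ?_).1
    have h2 := Subgroup.commutator_eq_bot_iff_le_centralizer.1 h1 (hD ha)
    exact ((Subgroup.mem_centralizer_iff.1 h2) b hb).symm
  have hone : ∀ n, L (n + 1) ≤ zOf U → L 1 ≤ zOf U := fun n => by
    induction n with
    | zero => exact id
    | succ n ih => exact fun h => ih (hstep n h)
  have := hLn c
  have h0 : L (c + 1) ≤ L c := by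
    rw [hLs, Subgroup.commutator_le]
    intro x hx y _
    show x * y * x⁻¹ * y⁻¹ ∈ L c
    rw [mul_assoc x, mul_assoc x]
    exact mul_mem hx (this.conj_mem _ (inv_mem hx) y)
  have h1 : L 1 ≤ zOf U := hone c (h0.trans hc)
  exact h1 (Subgroup.commutator_mem_commutator ha hb)

theorem IsTight.comm_left {a b : H} (ha : a ∈ U) (hb : b ∈ U) : Commute ⁅a, b⁆ a :=
  commute_zOf (hU.class_two ha hb) ha

theorem IsTight.comm_right {a b : H} (ha : a ∈ U) (hb : b ∈ U) : Commute ⁅a, b⁆ b :=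
  commute_zOf (hU.class_two ha hb) hb

/-- `ℓ`-th powers are central. -/
theorem IsTight.power_mem {a : H} (ha : a ∈ U) : a ^ ℓ ∈ zOf U := by
  classical
  haveI := hU.normal
  have hex : ∃ e, ∀ u ∈ U, u ^ ℓ ^ e ∈ zOf U := by
    obtain ⟨k, hk⟩ := hU.isP.exists_card_eq
    refine ⟨k, fun u hu => ?_⟩
    rw [show u ^ ℓ ^ k = 1 from congrArg Subtype.val
      (hk ▸ pow_card_eq_one' : (⟨u, hu⟩ : U) ^ ℓ ^ k = 1)]
    exact one_mem _
  have hspec := Nat.find_spec hex
  by_cases he : Nat.find hex ≤ 1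
  · rcases Nat.le_one_iff_eq_zero_or_eq_one.1 he with h | h <;> rw [h] at hspec
    · exact _root_.pow_mem (by simpa using hspec a ha) _
    · simpa using hspec a ha
  exfalso
  obtain ⟨e, he2⟩ : ∃ e, Nat.find hex = e + 2 := ⟨Nat.find hex - 2, by omega⟩
  rw [he2] at hspec
  -- the powers generate an abelian normal subgroup
  set A := Subgroup.closure {x | ∃ u ∈ U, x = u ^ ℓ ^ (e + 1)}
  have hAn : A.Normal := ⟨fun x hx g => by
    have hle : A ≤ A.comap (MulAut.conj g).toMonoidHom := by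
      rw [Subgroup.closure_le]
      rintro y ⟨u, hu, rfl⟩
      show g * u ^ ℓ ^ (e + 1) * g⁻¹ ∈ A
      rw [← conj_pow]
      exact Subgroup.subset_closure ⟨_, hU.normal.conj_mem u hu g, rfl⟩
    exact hle hx⟩
  have hAU : A ≤ U := by
    rw [Subgroup.closure_le]; rintro y ⟨u, hu, rfl⟩; exact _root_.pow_mem hu _
  have hgen : ∀ u ∈ U, ∀ v ∈ U,
      u ^ ℓ ^ (e + 1) * v ^ ℓ ^ (e + 1) = v ^ ℓ ^ (e + 1) * u ^ ℓ ^ (e + 1) := by
    intro u hu v hv
    rw [← commutatorElement_eq_one_iff_mul_comm,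
      PGroup.commutatorElement_pow_left (hU.comm_left hu (_root_.pow_mem hv _)),
      PGroup.commutatorElement_pow_right (hU.comm_right hu hv), ← pow_mul, ← pow_add,
      show e + 1 + (e + 1) = e + 2 + e by omega, pow_add, pow_mul,
      ← PGroup.commutatorElement_pow_left (hU.comm_left hu hv),
      commutatorElement_eq_one_iff_mul_comm.2 (commute_zOf (hspec u hu) hv), one_pow]
  have hAc : ∀ x ∈ A, ∀ y ∈ A, x * y = y * x := by
    haveI : IsMulCommutative A := Subgroup.isMulCommutative_closure (by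
      rintro x ⟨u, hu, rfl⟩ y ⟨v, hv, rfl⟩; exact hgen u hu v hv)
    exact fun x hx y hy => congrArg Subtype.val (IsMulCommutative.is_comm.comm (⟨x, hx⟩ : A) ⟨y, hy⟩)
  exact Nat.find_min hex (show e + 1 < Nat.find hex by omega) fun u hu =>
    (hU.central A hAn hAU hAc).1 (Subgroup.subset_closure ⟨u, hu, rfl⟩)

theorem IsTight.commutator_pow {a b : H} (ha : a ∈ U) (hb : b ∈ U) : ⁅a, b⁆ ^ ℓ = 1 := by
  rw [← PGroup.commutatorElement_pow_left (hU.comm_left ha hb),
    commutatorElement_eq_one_iff_mul_comm]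
  exact commute_zOf (hU.power_mem ha) hb

omit hU in
/-- A maximal elementary abelian subgroup of `U` containing a given central element of order `ℓ`. -/
def IsMaxElem (ℓ : ℕ) (U E : Subgroup H) : Prop :=
  E ≤ U ∧ IsElem ℓ E ∧ (∀ z ∈ zOf U, z ^ ℓ = 1 → z ∈ E) ∧
    ∀ c ∈ U, c ^ ℓ = 1 → (∀ e ∈ E, Commute c e) → c ∈ E

omit hU in
theorem exists_maxElem : ∃ E : Subgroup H, IsMaxElem ℓ U E := by
  classical
  let S : Set (Subgroup H) := {E | E ≤ U ∧ IsElem ℓ E}
  obtain ⟨E, hE⟩ := S.toFinite.exists_maximal ⟨⊥, bot_le, fun a ha b hb => by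
    rw [Subgroup.mem_bot.1 ha, Subgroup.mem_bot.1 hb], fun a ha => by
    rw [Subgroup.mem_bot.1 ha, one_pow]⟩
  obtain ⟨hEU, hEe⟩ := hE.prop
  have key : ∀ c ∈ U, c ^ ℓ = 1 → (∀ e ∈ E, Commute c e) → c ∈ E := by
    intro c hc hcl hce
    have hmem : E ⊔ Subgroup.zpowers c ∈ S := by
      refine ⟨sup_le hEU (Subgroup.zpowers_le.2 hc), ?_⟩
      rw [Subgroup.zpowers_eq_closure, ← Subgroup.closure_eq E, ← Subgroup.closure_union]
      haveI : IsMulCommutative (Subgroup.closure ((E : Set H) ∪ {c})) :=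
        Subgroup.isMulCommutative_closure (by
          rintro x (hx | rfl) y (hy | rfl)
          · exact hEe.1 x hx y hy
          · exact ((hce x hx).symm).eq
          · exact (hce y hy).eq
          · rfl)
      have hcomm : ∀ x ∈ Subgroup.closure ((E : Set H) ∪ {c}),
          ∀ y ∈ Subgroup.closure ((E : Set H) ∪ {c}), x * y = y * x := fun x hx y hy =>
        congrArg Subtype.val (IsMulCommutative.is_comm.comm
          (⟨x, hx⟩ : Subgroup.closure ((E : Set H) ∪ {c})) ⟨y, hy⟩)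
      refine ⟨hcomm, fun x hx => ?_⟩
      induction hx using Subgroup.closure_induction with
      | mem x hx =>
        rcases hx with hx | rfl
        exacts [hEe.2 x hx, hcl]
      | one => exact one_pow _
      | mul x y hx hy ihx ihy => rw [Commute.mul_pow (hcomm x hx y hy), ihx, ihy, one_mul]
      | inv x _ ih => rw [inv_pow, ih, inv_one]
    exact hE.le_of_ge hmem le_sup_left (Subgroup.mem_sup_right (Subgroup.mem_zpowers c))
  exact ⟨E, hEU, hEe, fun z hz hzl => key z hz.1 hzl fun e he => commute_zOf hz (hEU he), key⟩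

/-- An element of `U` commuting with `E` whose `ℓ`-th power is that of a central element. -/
theorem IsTight.mem_sup {E : Subgroup H} (hE : IsMaxElem ℓ U E) {c w : H} (hc : c ∈ U)
    (hce : ∀ e ∈ E, Commute c e) (hw : w ∈ zOf U) (hcw : c ^ ℓ = w ^ ℓ) : c ∈ E ⊔ zOf U := by
  have hwc : Commute w c := commute_zOf hw hc
  have h1 : c * w⁻¹ ∈ E := by
    refine hE.2.2.2 _ (mul_mem hc (inv_mem hw.1)) ?_ fun e he =>
      (hce e he).mul_left (commute_zOf (inv_mem hw) (hE.1 he))
    rw [hwc.symm.inv_right.mul_pow, inv_pow, hcw, mul_inv_cancel]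
  have := mul_mem (Subgroup.mem_sup_left (T := zOf U) h1) (Subgroup.mem_sup_right (S := E) hw)
  rwa [inv_mul_cancel_right] at this

omit hU in
/-- The exceptional situation. -/
def IsExc (ℓ : ℕ) (U : Subgroup H) : Prop := ℓ = 2 ∧ Nat.card (zOf U) = 2

/-- Powers of products up to powers of central elements, outside the exceptional situation. -/
theorem IsTight.mul_pow (hexc : ¬ IsExc ℓ U) {a b : H} (ha : a ∈ U) (hb : b ∈ U) :
    ∃ w ∈ zOf U, (a * b) ^ ℓ = a ^ ℓ * b ^ ℓ * w ^ ℓ := by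
  rcases (Fact.out : ℓ.Prime).eq_two_or_odd' with h2 | hodd
  · subst h2
    obtain ⟨g, hg⟩ := hU.zOf_cyclic
    have hcard : Nat.card (zOf U) ≠ 2 := fun h => hexc ⟨rfl, h⟩
    -- involutions of the centre are squares
    have hz := hU.class_two ha hb
    obtain ⟨k, hk⟩ := Subgroup.mem_zpowers_iff.1 (hg ▸ hz)
    have hsq := hU.commutator_pow ha hb
    have hw : ∃ w ∈ zOf U, w ^ 2 = ⁅a, b⁆ := by
      by_cases hk2 : (2 : ℤ) ∣ k
      · obtain ⟨m, rfl⟩ := hk2
        refine ⟨g ^ m, hg.symm ▸ zpow_mem (Subgroup.mem_zpowers g) m, ?_⟩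
        rw [← hk, ← zpow_natCast, ← zpow_mul, mul_comm]
        rfl
      refine ⟨1, one_mem _, ?_⟩
      rw [← hk, one_pow, eq_comm]
      rw [← hk, ← zpow_natCast, ← zpow_mul, ← orderOf_dvd_iff_zpow_eq_one] at hsq
      obtain ⟨j, hj⟩ := IsPGroup.iff_orderOf.1 (hU.isP.to_le (inf_le_left : zOf U ≤ U))
        ⟨g, show g ∈ zOf U by rw [hg]; exact Subgroup.mem_zpowers g⟩
      rw [← Subgroup.orderOf_coe] at hj
      simp only at hj
      rcases j with _ | _ | j
      · rw [show g = 1 from orderOf_eq_one_iff.1 (by simpa using hj), one_zpow]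
      · exfalso; apply hcard; rw [hg, Nat.card_zpowers, hj]; rfl
      · exfalso
        rw [hj] at hsq
        apply hk2
        have h4 : (4 : ℤ) ∣ k * 2 := by
          refine Dvd.dvd.trans ?_ hsq
          exact ⟨(2 : ℤ) ^ j, by push_cast; ring⟩
        omega
    obtain ⟨w, hw, hw2⟩ := hw
    refine ⟨w⁻¹, inv_mem hw, ?_⟩
    have h := PGroup.mul_pow_mul_commutatorElement (hU.comm_left ha hb) (hU.comm_right ha hb) 2
    rw [show Nat.choose 2 2 = 1 from rfl, pow_one] at h
    rw [inv_pow, hw2, eq_mul_inv_iff_mul_eq, h]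
  · refine ⟨1, one_mem _, ?_⟩
    rw [one_pow, mul_one, PGroup.mul_pow_of_odd (hU.comm_left ha hb) (hU.comm_right ha hb) hodd
      (hU.commutator_pow ha hb)]

omit hU in
/-- An element whose displacement under `x` is fixed by `x` is itself fixed. -/
theorem commute_of_displacement {x t c : H} {π k : ℕ} (hπ : π.Prime) (hπl : π ≠ ℓ)
    (hx : x ^ π = 1) (hck : c ^ ℓ ^ k = 1) (hxc : Commute x c) (htc : x * t * x⁻¹ = t * c) :
    Commute x t := by
  have hn : ∀ n : ℕ, x ^ n * t * (x ^ n)⁻¹ = t * c ^ n := fun n => by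
    induction n with
    | zero => simp
    | succ n ih =>
      calc x ^ (n + 1) * t * (x ^ (n + 1))⁻¹ = x * (x ^ n * t * (x ^ n)⁻¹) * x⁻¹ := by
            rw [pow_succ']; group
        _ = x * t * x⁻¹ * (x * c ^ n * x⁻¹) := by rw [ih]; group
        _ = t * c ^ (n + 1) := by
            rw [htc, (hxc.pow_right n).eq, mul_inv_cancel_right, mul_assoc, ← pow_succ']
  have h1 := hn π
  rw [hx, one_mul, inv_one, mul_one, left_eq_mul] at h1
  have hco : Nat.Coprime π (ℓ ^ k) :=
    Nat.Coprime.pow_right k ((Nat.coprime_primes hπ (Fact.out : ℓ.Prime)).2 hπl)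
  have hc1 : c = 1 := by
    have := pow_gcd_eq_one.2 ⟨h1, hck⟩
    rwa [hco, pow_one] at this
  rw [hc1, mul_one, mul_inv_eq_iff_eq_mul] at htc
  exact htc

/-- Coprime automorphisms fixing `E` and the centre, displacing the centralizer of `E` inside
`E Z`, fix `U`. -/
theorem IsTight.commute_all {E : Subgroup H} (hE : IsMaxElem ℓ U E) {x : H} {π : ℕ}
    (hπ : π.Prime) (hπl : π ≠ ℓ) (hx : x ^ π = 1) (hxE : ∀ e ∈ E, Commute x e)
    (hxZ : ∀ z ∈ zOf U, Commute x z)
    (hstep : ∀ t ∈ U, (∀ e ∈ E, Commute t e) → t⁻¹ * (x * t * x⁻¹) ∈ E ⊔ zOf U) :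
    ∀ u ∈ U, Commute x u := by
  haveI := hU.normal
  have hsup : ∀ a ∈ E ⊔ zOf U, Commute x a := by
    have hle : E ⊔ zOf U ≤ Subgroup.centralizer {x} := sup_le
      (fun e he => Subgroup.mem_centralizer_singleton_iff.2 (hxE e he).eq.symm)
      (fun z hz => Subgroup.mem_centralizer_singleton_iff.2 (hxZ z hz).eq.symm)
    exact fun a ha => (Subgroup.mem_centralizer_singleton_iff.1 (hle ha)).symm
  have hpk : ∀ c ∈ U, ∃ k, c ^ ℓ ^ k = 1 := fun c hc => by
    obtain ⟨k, hk⟩ := hU.isP ⟨c, hc⟩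
    exact ⟨k, by simpa using congrArg Subtype.val hk⟩
  have hmem : ∀ t ∈ U, t⁻¹ * (x * t * x⁻¹) ∈ U := fun t ht =>
    mul_mem (inv_mem ht) (hU.normal.conj_mem t ht x)
  have hT : ∀ t ∈ U, (∀ e ∈ E, Commute t e) → Commute x t := by
    intro t ht hte
    obtain ⟨k, hk⟩ := hpk _ (hmem t ht)
    exact commute_of_displacement hπ hπl hx hk (hsup _ (hstep t ht hte))
      (mul_inv_cancel_left _ _).symm
  intro u hu
  obtain ⟨k, hk⟩ := hpk _ (hmem u hu)
  refine commute_of_displacement hπ hπl hx hk (hT _ (hmem u hu) fun e he => ?_)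
    (mul_inv_cancel_left _ _).symm
  -- the displacement commutes with `E`
  have he' : x * e * x⁻¹ = e := by rw [(hxE e he).eq, mul_inv_cancel_right]
  have h1 : ⁅x * u * x⁻¹, e⁆ = ⁅u, e⁆ := by
    conv_lhs => rw [← he']
    rw [← conjugate_commutatorElement, (hxZ _ (hU.class_two hu (hE.1 he))).eq, mul_inv_cancel_right]
  have h2 : ⁅u⁻¹ * (x * u * x⁻¹), e⁆ = u⁻¹ * (⁅x * u * x⁻¹, e⁆ * ⁅u, e⁆⁻¹) * u := by
    simp only [commutatorElement_def]; group
  rw [h1, mul_inv_cancel, mul_one, inv_mul_cancel] at h2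
  exact commutatorElement_eq_one_iff_mul_comm.1 h2

/-- Outside the exceptional situation. -/
theorem IsTight.centralizes (hexc : ¬ IsExc ℓ U) {E : Subgroup H} (hE : IsMaxElem ℓ U E) {x : H}
    {π : ℕ} (hπ : π.Prime) (hπl : π ≠ ℓ) (hx : x ^ π = 1) (hxE : ∀ e ∈ E, Commute x e)
    (hxZ : ∀ z ∈ zOf U, Commute x z) : ∀ u ∈ U, Commute x u := by
  haveI := hU.normal
  refine hU.commute_all hE hπ hπl hx hxE hxZ fun t ht hte => ?_
  have ht' : x * t * x⁻¹ ∈ U := hU.normal.conj_mem t ht x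
  obtain ⟨w, hw, hwe⟩ := hU.mul_pow hexc (inv_mem ht) ht'
  refine hU.mem_sup hE (mul_mem (inv_mem ht) ht') (fun e he => (hte e he).inv_left.mul_left ?_) hw ?_
  · have he' : x * e * x⁻¹ = e := by rw [(hxE e he).eq, mul_inv_cancel_right]
    rw [← he']
    exact (hte e he).map (MulAut.conj x).toMonoidHom
  · rw [hwe, inv_pow, conj_pow, (hxZ _ (hU.power_mem ht)).eq, mul_inv_cancel_right, inv_mul_cancel,
      one_mul]

/-- Outside the exceptional situation a small maximal elementary subgroup forces commutativity. -/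
theorem IsTight.comm_of_small (hexc : ¬ IsExc ℓ U) {E : Subgroup H} (hE : IsMaxElem ℓ U E)
    (hsmall : E ≤ zOf U) : ∀ a ∈ U, ∀ b ∈ U, a * b = b * a := by
  obtain ⟨g, hg⟩ := hU.zOf_cyclic
  have hcomm : ∀ c ∈ U, ∀ e ∈ E, Commute c e := fun c hc e he => (commute_zOf (hsmall he) hc).symm
  have hmem : ∀ c ∈ U, (∃ w ∈ zOf U, c ^ ℓ = w ^ ℓ) → c ∈ zOf U := by
    rintro c hc ⟨w, hw, hcw⟩
    have := hU.mem_sup hE hc (hcomm c hc) hw hcw
    rwa [sup_eq_right.2 hsmall] at this
  intro a ha b hb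
  by_cases haZ : a ∈ zOf U
  · exact commute_zOf haZ hb
  -- the power of a non-central element generates the centre
  have hgen : Subgroup.zpowers (a ^ ℓ) = zOf U := by
    refine le_antisymm (Subgroup.zpowers_le.2 (hU.power_mem ha)) ?_
    obtain ⟨i, hi⟩ := Subgroup.mem_zpowers_iff.1 (hg ▸ hU.power_mem ha)
    have hgU : g ∈ U := (hg.symm ▸ Subgroup.mem_zpowers g : g ∈ zOf U).1
    have hndvd : ¬ (ℓ : ℤ) ∣ i := by
      rintro ⟨j, rfl⟩
      refine haZ (hmem a ha ⟨g ^ j, hg.symm ▸ zpow_mem (Subgroup.mem_zpowers g) j, ?_⟩)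
      rw [← hi, ← zpow_natCast, ← zpow_mul, mul_comm]
    obtain ⟨k, hk⟩ := IsPGroup.iff_orderOf.1 hU.isP ⟨g, hgU⟩
    rw [← Subgroup.orderOf_coe] at hk
    simp only at hk
    have hco : IsCoprime i (orderOf g : ℤ) := by
      rw [hk]; push_cast
      exact IsCoprime.pow_right ((Nat.prime_iff_prime_int.1 Fact.out).coprime_iff_not_dvd.2 hndvd).symm
    obtain ⟨u, v, huv⟩ := hco
    rw [hg, Subgroup.zpowers_le]
    refine Subgroup.mem_zpowers_iff.2 ⟨u, ?_⟩
    rw [← hi, ← zpow_mul]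
    have h1 : g = g ^ (u * i + v * orderOf g) := by rw [huv, zpow_one]
    conv_rhs => rw [h1]
    rw [zpow_add, mul_comm i u, mul_comm v, zpow_mul g (orderOf g : ℤ), zpow_natCast,
      pow_orderOf_eq_one, one_zpow, mul_one]
  obtain ⟨i, hi⟩ := Subgroup.mem_zpowers_iff.1 (hgen ▸ hU.power_mem hb)
  obtain ⟨w, hw, hwe⟩ := hU.mul_pow hexc hb (zpow_mem ha (-i))
  have hc : b * a ^ (-i) ∈ zOf U := by
    refine hmem _ (mul_mem hb (zpow_mem ha _)) ⟨w, hw, ?_⟩
    rw [hwe, ← hi, ← zpow_natCast (a ^ (-i)), ← zpow_mul, ← zpow_natCast a ℓ, ← zpow_mul,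
      ← zpow_add, show (ℓ : ℤ) * i + -i * ℓ = 0 by ring, zpow_zero, one_mul]
  have hba : Commute b a := by
    have h1 : b = (b * a ^ (-i)) * a ^ i := by group
    rw [h1]
    exact (commute_zOf hc ha).mul_left ((Commute.refl a).zpow_left i)
  exact hba.symm.eq

end CfsgLib.Palfy
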