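import Cfsg.Agent.Palfy.CharData
import Cfsg.Agent.Chars.ItoMichler.Basic

/-!
Degrees over an extendible character, and Sylow subgroups of its inertia group.
-/

set_option autoImplicit false
set_option linter.style.haveILetI false
set_option linter.unusedSectionVars false

namespace CfsgLib.Palfy

open Cfsg CfsgLib.Chars CfsgLib.Chars.Induced
open scoped commutatorElement

variable {G : Type*} [Group G] [Finite G]

/-- Quotient characters give characters of the group. -/
theorem exists_lift_quotient {N : Subgroup G} [N.Normal] (β : IrrCharacter (G ⧸ N)) :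
    ∃ χ : IrrCharacter G, charDegree (χ : G → ℂ) = charDegree (β : G ⧸ N → ℂ) :=
  ⟨⟨_, isIrrCharacter_quotient_lift β⟩, by simp [charDegree]⟩

/-- The Sylow subgroups of the inertia group of an extendible character are normal and abelian
modulo the normal subgroup when no degree is divisible by the two primes. -/
theorem sylow_data [Group.IsSolvable G] {q π : ℕ} [Fact π.Prime] (M : Subgroup G) [M.Normal]
    [Fintype M] (φ : IrrCharacter M) (T : Subgroup G) (hT : T = inertia M (φ : M → ℂ))
    (hMT : M ≤ T) (θ : IrrCharacter T)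
    (hθ : ∀ m : M, (θ : T → ℂ) (Subgroup.inclusion hMT m) = (φ : M → ℂ) m)
    (hq : q ∣ T.index * charDegree (φ : M → ℂ))
    (hadj : ∀ χ : IrrCharacter G, q ∣ charDegree (χ : G → ℂ) → ¬ π ∣ charDegree (χ : G → ℂ)) :
    ∃ X : Sylow π G, (X : Subgroup G) ≤ T ∧
      (∀ t ∈ T, ∀ x ∈ (X : Subgroup G), t * x * t⁻¹ ∈ (X : Subgroup G) ⊔ M) ∧
      ∀ a ∈ (X : Subgroup G), ∀ b ∈ (X : Subgroup G), ⁅a, b⁆ ∈ M := by
  classical
  letI := Fintype.ofFinite G
  letI := Fintype.ofFinite T
  letI := Fintype.ofFinite (M.subgroupOf T)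
  set M' := M.subgroupOf T with hM'
  let e : M' ≃* M := Subgroup.subgroupOfEquivOfLe hMT
  let φ' : IrrCharacter M' :=
    ⟨fun a => (φ : M → ℂ) (e a), isIrrCharacter_comp φ.2 e.toMonoidHom e.surjective⟩
  have hθ' : ∀ a : M', (θ : T → ℂ) a = (φ' : M' → ℂ) a := fun a => by
    show (θ : T → ℂ) a = (φ : M → ℂ) (e a)
    rw [← hθ (e a)]; rfl
  have hθ1 : (θ : T → ℂ) 1 = charDegree (φ : M → ℂ) := by
    rw [coe_charDegree, ← hθ 1, map_one]
  -- the degrees over the extension
  have hdeg : ∀ β : IrrCharacter (T ⧸ M'),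
      ¬ π ∣ T.index * charDegree (φ : M → ℂ) * charDegree (β : T ⧸ M' → ℂ) := by
    intro β
    let ψ : IrrCharacter T := ⟨_, gallagher_isIrrCharacter θ φ' hθ' β⟩
    have hres : (fun n : M => (ψ : T → ℂ) (Subgroup.inclusion hMT n)) =
        (β : T ⧸ M' → ℂ) 1 • (φ : M → ℂ) := by
      funext n
      have h1 : ((Subgroup.inclusion hMT n : T) : T ⧸ M') = 1 :=
        (QuotientGroup.eq_one_iff _).2 (Subgroup.mem_subgroupOf.2 n.2)
      show (θ : T → ℂ) (Subgroup.inclusion hMT n) *
        (β : T ⧸ M' → ℂ) ((Subgroup.inclusion hMT n : T) : T ⧸ M') = _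
      rw [h1, hθ, Pi.smul_apply, smul_eq_mul, mul_comm]
    have hψ : mult (fun n : M => (ψ : T → ℂ) (Subgroup.inclusion hMT n)) φ ≠ 0 := by
      rw [hres]
      simp only [mult, Induced.classInner_smul_left, classInner_irr_self, mul_one, ← coe_charDegree β,
        Complex.natCast_re, Nat.floor_natCast]
      exact (charDegree_pos β).ne'
    let χ : IrrCharacter G := ⟨_, isIrrCharacter_indFun_inertia hT hMT ψ hψ⟩
    have hχ : charDegree (χ : G → ℂ) =
        T.index * charDegree (φ : M → ℂ) * charDegree (β : T ⧸ M' → ℂ) := by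
      apply Nat.cast_injective (R := ℂ)
      rw [coe_charDegree]
      show indFun T (ψ : T → ℂ) 1 = _
      rw [indFun_one_apply]
      show (T.index : ℂ) * ((θ : T → ℂ) 1 * (β : T ⧸ M' → ℂ) ((1 : T) : T ⧸ M')) = _
      rw [hθ1, QuotientGroup.mk_one, ← coe_charDegree β]
      push_cast
      ring
    rw [← hχ]
    exact hadj χ (hχ ▸ Dvd.dvd.mul_right hq _)
  have hone : IsIrrCharacter (T ⧸ M') (fun _ => (1 : ℂ)) := isIrrCharacter_one
  have hidx : ¬ π ∣ T.index := fun h => hdeg ⟨_, hone⟩ (Dvd.dvd.mul_right (Dvd.dvd.mul_right h _) _)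
  have hβ : ∀ β : IrrCharacter (T ⧸ M'), ¬ π ∣ charDegree (β : T ⧸ M' → ℂ) :=
    fun β h => hdeg β (Dvd.dvd.mul_left h _)
  obtain ⟨Pb, hPb⟩ := ItoMichler.normal_sylow (G := T ⧸ M') inferInstance hβ
  haveI := hPb
  have hab := ItoMichler.comm_of_normal_sylow (Pb : Subgroup (T ⧸ M')) Pb.2 hβ
  obtain ⟨X0⟩ : Nonempty (Sylow π T) := inferInstance
  have himg : (X0 : Subgroup T).map (QuotientGroup.mk' M') = (Pb : Subgroup (T ⧸ M')) := by
    letI := Sylow.unique_of_normal Pb hPb
    exact congrArg Sylow.toSubgroup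
      (Subsingleton.elim (X0.mapSurjective (QuotientGroup.mk'_surjective M')) Pb)
  have hcard : Nat.card ((X0 : Subgroup T).map T.subtype) = π ^ (Nat.card G).factorization π := by
    rw [Subgroup.card_map_of_injective T.subtype_injective, X0.card_eq_multiplicity,
      ← T.card_mul_index, Nat.factorization_mul Nat.card_pos.ne' Subgroup.index_ne_zero_of_finite,
      Finsupp.add_apply, Nat.factorization_eq_zero_of_not_dvd hidx, add_zero]
  refine ⟨Sylow.ofCard _ hcard, Subgroup.map_subtype_le _, ?_, ?_⟩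
  · rintro t ht _ ⟨x, hx, rfl⟩
    let t' : T := ⟨t, ht⟩
    have h1 : QuotientGroup.mk' M' (t' * x * t'⁻¹) ∈ (X0 : Subgroup T).map (QuotientGroup.mk' M') := by
      rw [himg, map_mul, map_mul, map_inv]
      exact hPb.conj_mem _ (himg ▸ Subgroup.mem_map_of_mem _ hx) _
    obtain ⟨y, hy, hye⟩ := h1
    have h2 : y⁻¹ * (t' * x * t'⁻¹) ∈ M' := QuotientGroup.eq.1 hye
    rw [hM', Subgroup.mem_subgroupOf] at h2
    have h3 : t * (x : G) * t⁻¹ = (y : G) * ((y⁻¹ * (t' * x * t'⁻¹) : T) : G) := by
      simp [t']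
    rw [Subgroup.coe_subtype, h3]
    exact Subgroup.mul_mem_sup ⟨y, hy, rfl⟩ h2
  · rintro _ ⟨a, ha, rfl⟩ _ ⟨b, hb, rfl⟩
    have h1 := hab _ (himg ▸ Subgroup.mem_map_of_mem _ ha) _ (himg ▸ Subgroup.mem_map_of_mem _ hb)
    rw [← commutatorElement_eq_one_iff_mul_comm, ← map_commutatorElement, QuotientGroup.mk'_apply,
      QuotientGroup.eq_one_iff, hM', Subgroup.mem_subgroupOf] at h1
    rwa [← map_commutatorElement]

/-- The action on linear characters of a normal subgroup. -/
noncomputable def dualRep (N : Subgroup G) [hN : N.Normal] : G →* MulAut (N →* ℂˣ) where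
  toFun g :=
    { toFun := fun f => f.comp (MulAut.conjNormal g⁻¹).toMonoidHom
      invFun := fun f => f.comp (MulAut.conjNormal g).toMonoidHom
      left_inv := fun f => MonoidHom.ext fun n => congrArg f (Subtype.ext (by simp [mul_assoc]))
      right_inv := fun f => MonoidHom.ext fun n => congrArg f (Subtype.ext (by simp [mul_assoc]))
      map_mul' := fun f f' => MonoidHom.ext fun n => rfl }
  map_one' := by
    refine MulEquiv.ext fun f => MonoidHom.ext fun n => ?_
    exact congrArg f (Subtype.ext (by simp))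
  map_mul' g h := by
    refine MulEquiv.ext fun f => MonoidHom.ext fun n => ?_
    exact congrArg f (Subtype.ext (by simp [mul_assoc]))

theorem dualRep_apply (N : Subgroup G) [hN : N.Normal] (g : G) (f : N →* ℂˣ) (n : N) :
    dualRep N g f n = f ⟨g⁻¹ * n * g, by simpa using hN.conj_mem n n.2 g⁻¹⟩ :=
  congrArg f (Subtype.ext (by simp))

/-- Fixed linear characters are those with the element in the inertia group. -/
theorem mem_inertia_iff_dualRep (N : Subgroup G) [hN : N.Normal] [Fintype N] (f : N →* ℂˣ) (g : G) :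
    g ∈ inertia N (linChar f : N → ℂ) ↔ dualRep N g f = f := by
  constructor
  · intro h
    have h' := apply_conj_of_mem_inertia f ((inertia N (linChar f : N → ℂ)).inv_mem h)
    refine MonoidHom.ext fun n => ?_
    rw [dualRep_apply]
    exact (congrArg f (Subtype.ext (by simp))).trans (h' n)
  · intro h
    rw [mem_inertia_iff_forall]
    intro n m hm
    have h1 := DFunLike.congr_fun h m
    rw [dualRep_apply] at h1
    simp only [linChar_apply]
    rw [← h1]
    exact congrArg (fun z => ((f z : ℂˣ) : ℂ)) (Subtype.ext (show g⁻¹ * (m : G) * g = (n : G) by rw [hm]; group))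

end CfsgLib.Palfy
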