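import Cfsg.Agent.Palfy.Cores
import Cfsg.Prelude.Def_Characters

/-!
Tight `2`-cores with centre of order two.
-/

set_option autoImplicit false
set_option linter.unusedSectionVars false
set_option linter.style.haveILetI false

namespace CfsgLib.Palfy

open scoped commutatorElement

variable {H : Type*} [Group H] [Finite H] {ℓ : ℕ} [Fact ℓ.Prime] {U E : Subgroup H}
  (hU : IsTight ℓ U) (hexc : IsExc ℓ U) (hE : IsMaxElem ℓ U E)

include hU hexc hE

theorem exc_two_torsion {z : H} (hz : z ∈ zOf U) : z ^ 2 = 1 := by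
  have h : (⟨z, hz⟩ : zOf U) ^ Nat.card (zOf U) = 1 := pow_card_eq_one'
  rw [hexc.2] at h
  exact congrArg Subtype.val h

theorem exc_z_le : zOf U ≤ E := fun z hz => by
  refine hE.2.2.1 z hz ?_
  rw [hexc.1]; exact exc_two_torsion hU hexc hE hz

theorem exc_unique {a b : H} (ha : a ∈ zOf U) (hb : b ∈ zOf U) (ha1 : a ≠ 1) (hb1 : b ≠ 1) :
    a = b := by
  by_contra hab
  have hinj : Function.Injective ![(1 : zOf U), ⟨a, ha⟩, ⟨b, hb⟩] := by
    intro i j h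
    fin_cases i <;> fin_cases j <;>
      simp_all [Subtype.ext_iff, eq_comm]
  have := Nat.card_le_card_of_injective _ hinj
  rw [hexc.2, Nat.card_fin] at this
  omega

theorem exc_sq {c : H} (hc : c ∈ U) (hce : ∀ e ∈ E, Commute c e) (hcE : c ∉ E) :
    c ^ 2 ∈ zOf U ∧ c ^ 2 ≠ 1 := by
  obtain ⟨rfl, -⟩ := id hexc
  exact ⟨hU.power_mem hc, fun h => hcE (hE.2.2.2 c hc h hce)⟩

/-- Two different non-trivial cosets of `E` in its centralizer do not commute. -/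
theorem exc_commutator {s t : H} (hs : s ∈ U) (ht : t ∈ U) (hse : ∀ e ∈ E, Commute s e)
    (hte : ∀ e ∈ E, Commute t e) (hsE : s ∉ E) (htE : t ∉ E) (hst : s⁻¹ * t ∉ E) :
    ⁅s, t⁆ ≠ 1 := by
  intro h
  have hc : Commute s⁻¹ t :=
    Commute.inv_left (show Commute s t from commutatorElement_eq_one_iff_mul_comm.1 h)
  obtain ⟨h1, h1'⟩ := exc_sq hU hexc hE hs hse hsE
  obtain ⟨h2, h2'⟩ := exc_sq hU hexc hE ht hte htE
  obtain ⟨-, h3⟩ := exc_sq hU hexc hE (mul_mem (inv_mem hs) ht)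
    (fun e he => (hse e he).inv_left.mul_left (hte e he)) hst
  apply h3
  rw [hc.mul_pow, inv_pow, exc_unique hU hexc hE h1 h2 h1' h2', inv_mul_cancel]

/-- There are at most three non-trivial cosets. -/
theorem exc_cosets {s t u : H} (hs : s ∈ U) (ht : t ∈ U) (hu : u ∈ U)
    (hse : ∀ e ∈ E, Commute s e) (hte : ∀ e ∈ E, Commute t e) (hue : ∀ e ∈ E, Commute u e)
    (hsE : s ∉ E) (htE : t ∉ E) (huE : u ∉ E) (hst : s⁻¹ * t ∉ E) :
    s⁻¹ * u ∈ E ∨ t⁻¹ * u ∈ E ∨ (s * t)⁻¹ * u ∈ E := by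
  by_contra hall
  push Not at hall
  obtain ⟨h1, h2, h3⟩ := hall
  have hst' : s * t ∉ E := by
    intro h
    apply hst
    have hs2 : s ^ 2 ∈ E := exc_z_le hU hexc hE (exc_sq hU hexc hE hs hse hsE).1
    have := mul_mem (inv_mem hs2) h
    rwa [show (s ^ 2)⁻¹ * (s * t) = s⁻¹ * t by group] at this
  have ha := exc_commutator hU hexc hE hs hu hse hue hsE huE h1
  have hb := exc_commutator hU hexc hE ht hu hte hue htE huE h2
  have hc := exc_commutator hU hexc hE (mul_mem hs ht) hu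
    (fun e he => (hse e he).mul_left (hte e he)) hue hst' huE h3
  apply hc
  have hz := hU.class_two ht hu
  have hprod : ⁅s * t, u⁆ = s * ⁅t, u⁆ * s⁻¹ * ⁅s, u⁆ := by simp only [commutatorElement_def]; group
  rw [hprod, ← (commute_zOf hz hs).eq, mul_inv_cancel_right,
    exc_unique hU hexc hE hz (hU.class_two hs hu) hb ha, ← pow_two]
  exact exc_two_torsion hU hexc hE (hU.class_two hs hu)

/-- The elements of `U` commuting with `E` whose coset is moved form a three-cycle. -/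
theorem exc_cycle {x t : H} {π : ℕ} (hπ : π.Prime) (hπ2 : π ≠ 2) (hx : x ^ π = 1)
    (hxE : ∀ e ∈ E, Commute x e) (ht : t ∈ U) (hte : ∀ e ∈ E, Commute t e)
    (hmove : t⁻¹ * (x * t * x⁻¹) ∉ E) :
    π = 3 ∧ t ∉ E ∧ x * t * x⁻¹ ∉ E ∧
      (t * (x * t * x⁻¹))⁻¹ * (x * (x * t * x⁻¹) * x⁻¹) ∈ E := by
  haveI := hU.normal
  have hfixE : ∀ e ∈ E, x * e * x⁻¹ = e := fun e he => by
    rw [(hxE e he).eq, mul_inv_cancel_right]
  have hconjE : ∀ a : H, x * a * x⁻¹ ∈ E → a ∈ E := fun a ha => by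
    have h : x * (x * a * x⁻¹) = (x * a * x⁻¹) * x := (hxE _ ha).eq
    have h2 : x * a * x⁻¹ = a := by
      have h3 : x * a * x⁻¹ = x⁻¹ * ((x * a * x⁻¹) * x) := by rw [← h]; group
      rw [h3]; group
    rwa [h2] at ha
  have htE : t ∉ E := fun h => hmove (by rw [hfixE t h, inv_mul_cancel]; exact one_mem E)
  set t1 := x * t * x⁻¹ with ht1
  have ht1U : t1 ∈ U := hU.normal.conj_mem t ht x
  have hcomm : ∀ a : H, (∀ e ∈ E, Commute a e) → ∀ e ∈ E, Commute (x * a * x⁻¹) e := by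
    intro a ha e he
    rw [← hfixE e he]
    exact (ha e he).map (MulAut.conj x).toMonoidHom
  have ht1E : t1 ∉ E := fun h => htE (hconjE t h)
  set t2 := x * t1 * x⁻¹ with ht2
  have ht2U : t2 ∈ U := hU.normal.conj_mem t1 ht1U x
  have ht2E : t2 ∉ E := fun h => ht1E (hconjE t1 h)
  -- the elements fixing the coset
  let P : ℕ → Prop := fun n => t⁻¹ * (x ^ n * t * (x ^ n)⁻¹) ∈ E
  have hPadd : ∀ a b, P a → P b → P (a + b) := by
    intro a b ha hb
    show t⁻¹ * (x ^ (a + b) * t * (x ^ (a + b))⁻¹) ∈ E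
    have he : x ^ a * (t⁻¹ * (x ^ b * t * (x ^ b)⁻¹)) * (x ^ a)⁻¹ =
        t⁻¹ * (x ^ b * t * (x ^ b)⁻¹) := by
      rw [((hxE _ hb).pow_left a).eq, mul_inv_cancel_right]
    have hkey : t⁻¹ * (x ^ (a + b) * t * (x ^ (a + b))⁻¹) = (t⁻¹ * (x ^ a * t * (x ^ a)⁻¹)) *
        (x ^ a * (t⁻¹ * (x ^ b * t * (x ^ b)⁻¹)) * (x ^ a)⁻¹) := by
      rw [pow_add]; group
    rw [hkey, he]
    exact mul_mem ha hb
  have hPmul : ∀ a, P a → ∀ k, P (a * k) := by
    intro a ha k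
    induction k with
    | zero => show t⁻¹ * (x ^ 0 * t * (x ^ 0)⁻¹) ∈ E; simp
    | succ k ih => exact hPadd _ _ ih ha
  have hP1 : ¬ P 1 := by
    show ¬ t⁻¹ * (x ^ 1 * t * (x ^ 1)⁻¹) ∈ E
    rw [pow_one]; exact hmove
  have hPcop : ∀ a, P a → ¬ a.Coprime π := by
    intro a ha hco
    obtain ⟨k, hk⟩ : ∃ k, a * k % π = 1 := by
      haveI := Fact.mk hπ
      have ha0 : (a : ZMod π) ≠ 0 := fun h => by
        rw [ZMod.natCast_eq_zero_iff] at h
        exact hπ.coprime_iff_not_dvd.1 hco.symm h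
      refine ⟨((a : ZMod π)⁻¹).val, ?_⟩
      have : ((a * ((a : ZMod π)⁻¹).val : ℕ) : ZMod π) = 1 := by
        push_cast; rw [ZMod.natCast_val, ZMod.cast_id, mul_inv_cancel₀ ha0]
      have h2 := congrArg ZMod.val this
      rwa [ZMod.val_natCast, ZMod.val_one] at h2
    apply hP1
    have h1 : x ^ (a * k) = x ^ 1 := by
      rw [pow_eq_pow_mod _ hx, hk]
    have h2 := hPmul a ha k
    show t⁻¹ * (x ^ 1 * t * (x ^ 1)⁻¹) ∈ E
    rw [← h1]; exact h2
  have hmove2 : t1⁻¹ * t2 ∉ E := by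
    intro h
    apply hmove
    refine hconjE _ ?_
    rwa [show x * (t⁻¹ * t1) * x⁻¹ = t1⁻¹ * t2 by rw [ht2, ht1]; group]
  rcases exc_cosets hU hexc hE ht ht1U ht2U hte (hcomm t hte) (hcomm t1 (hcomm t hte)) htE ht1E
    ht2E hmove with h | h | h
  · exfalso
    refine hPcop 2 ?_ ((Nat.coprime_primes Nat.prime_two hπ).2 hπ2.symm)
    show t⁻¹ * (x ^ 2 * t * (x ^ 2)⁻¹) ∈ E
    rwa [show x ^ 2 * t * (x ^ 2)⁻¹ = t2 by rw [ht2, ht1, pow_two]; group]
  · exact absurd h hmove2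
  refine ⟨?_, htE, ht1E, h⟩
  by_contra hπ3
  refine hPcop 3 ?_ ((Nat.coprime_primes Nat.prime_three hπ).2 (Ne.symm hπ3))
  show t⁻¹ * (x ^ 3 * t * (x ^ 3)⁻¹) ∈ E
  set e := (t * t1)⁻¹ * t2 with he
  have ht3 : x ^ 3 * t * (x ^ 3)⁻¹ = x * t2 * x⁻¹ := by rw [ht2, ht1, pow_succ, pow_two]; group
  have ht2' : t2 = t * t1 * e := by rw [he]; group
  have ht3' : x * t2 * x⁻¹ = t1 * t * t1 * e * e := by
    conv_lhs => rw [ht2']
    rw [show x * (t * t1 * e) * x⁻¹ = (x * t * x⁻¹) * (x * t1 * x⁻¹) * (x * e * x⁻¹) by group,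
      ← ht1, ← ht2, hfixE e h, ht2']
    group
  have hzE := exc_z_le hU hexc hE
  have hc1 : t⁻¹ * (t1 * t * t1) = ⁅t⁻¹, t1⁆ * t1 ^ 2 := by
    simp only [commutatorElement_def]; group
  rw [ht3, ht3', show t⁻¹ * (t1 * t * t1 * e * e) = t⁻¹ * (t1 * t * t1) * e * e by group, hc1]
  exact mul_mem (mul_mem (mul_mem (hzE (hU.class_two (inv_mem ht) ht1U))
    (hzE (exc_sq hU hexc hE ht1U (hcomm t hte) ht1E).1)) h) h

/-- Elements of prime order other than `3` fixing `E` fix `U`. -/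
theorem exc_centralizes {x : H} {π : ℕ} (hπ : π.Prime) (hπ2 : π ≠ 2) (hπ3 : π ≠ 3)
    (hx : x ^ π = 1) (hxE : ∀ e ∈ E, Commute x e) : ∀ u ∈ U, Commute x u := by
  refine hU.commute_all hE hπ (by rw [hexc.1]; exact hπ2) hx hxE
    (fun z hz => hxE z (exc_z_le hU hexc hE hz)) fun t ht hte => ?_
  by_contra h
  exact hπ3 (exc_cycle hU hexc hE hπ hπ2 hx hxE ht hte fun h' => h (Subgroup.mem_sup_left h')).1

/-- A linear character fixed by an element that moves `U` is trivial. -/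
theorem exc_fixed_linear (hsmall : E ≤ zOf U) {x : H} {π : ℕ} (hπ : π.Prime) (hπ2 : π ≠ 2)
    (hx : x ^ π = 1) (hxE : ∀ e ∈ E, Commute x e) (hxU : ¬ ∀ u ∈ U, Commute x u)
    (hne : ∃ a ∈ U, ∃ b ∈ U, a * b ≠ b * a)
    (μ : U →* ℂˣ) (hfix : ∀ (u : U) (v : U), (v : H) = x * u * x⁻¹ → μ v = μ u) : μ = 1 := by
  haveI := hU.normal
  obtain ⟨t, ht, hte, hmove⟩ : ∃ t ∈ U, (∀ e ∈ E, Commute t e) ∧ t⁻¹ * (x * t * x⁻¹) ∉ E := by
    by_contra h
    push Not at h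
    exact hxU (hU.commute_all hE hπ (by rw [hexc.1]; exact hπ2) hx hxE
      (fun z hz => hxE z (exc_z_le hU hexc hE hz))
      fun t ht hte => Subgroup.mem_sup_left (h t ht hte))
  obtain ⟨-, htE, ht1E, he⟩ := exc_cycle hU hexc hE hπ hπ2 hx hxE ht hte hmove
  have hcommU : ∀ a ∈ U, ∀ e ∈ E, Commute a e := fun a ha e he => (commute_zOf (hsmall he) ha).symm
  have hEμ : ∀ (e : U), (e : H) ∈ E → μ e = 1 := by
    intro e he'
    obtain ⟨a, ha, b, hb, hab⟩ := hne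
    rcases eq_or_ne (e : H) 1 with h1 | h1
    · rw [show e = 1 from Subtype.ext h1, map_one]
    have h2 : (e : H) = ⁅a, b⁆ := exc_unique hU hexc hE (hsmall he') (hU.class_two ha hb) h1
      fun h => hab (commutatorElement_eq_one_iff_mul_comm.1 h)
    have h3 : e = ⁅(⟨a, ha⟩ : U), (⟨b, hb⟩ : U)⁆ :=
      Subtype.ext (h2.trans (map_commutatorElement U.subtype (⟨a, ha⟩ : U) ⟨b, hb⟩).symm)
    rw [h3, map_commutatorElement, commutatorElement_eq_one_iff_mul_comm, mul_comm]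
  let T : U := ⟨t, ht⟩
  let T1 : U := ⟨x * t * x⁻¹, hU.normal.conj_mem t ht x⟩
  let T2 : U := ⟨x * (x * t * x⁻¹) * x⁻¹, hU.normal.conj_mem _ T1.2 x⟩
  have h1 : μ T1 = μ T := hfix T T1 rfl
  have h2 : μ T2 = μ T := (hfix T1 T2 rfl).trans h1
  have hT : μ T = 1 := by
    have h3 : μ ((T * T1)⁻¹ * T2) = 1 := hEμ _ he
    rw [map_mul, map_inv, map_mul, h1, h2, inv_mul_eq_one] at h3
    exact mul_eq_left.1 h3
  refine MonoidHom.ext fun u => ?_
  rw [MonoidHom.one_apply]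
  by_cases huE : (u : H) ∈ E
  · exact hEμ u huE
  rcases exc_cosets hU hexc hE ht T1.2 u.2 hte (hcommU _ T1.2) (hcommU _ u.2) htE ht1E huE hmove
    with h | h | h
  · have := hEμ (T⁻¹ * u) h
    rwa [map_mul, map_inv, hT, inv_one, one_mul] at this
  · have := hEμ (T1⁻¹ * u) h
    rwa [map_mul, map_inv, h1, hT, inv_one, one_mul] at this
  · have := hEμ ((T * T1)⁻¹ * u) h
    rwa [map_mul, map_inv, map_mul, h1, hT, one_mul, inv_one, one_mul] at this

end CfsgLib.Palfy
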