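import Cfsg.Agent.PGroup.Commutator
import Mathlib

/-!
Coprime action of an elementary abelian group on an abelian group: norms over hyperplanes.
-/

set_option autoImplicit false
set_option linter.style.haveILetI false
set_option linter.unusedSectionVars false

namespace CfsgLib.Palfy

variable {H V : Type*} [Group H] [Finite H] [CommGroup V] [MulDistribMulAction H V]

/-- The norm over a finite subgroup. -/
noncomputable def orbitNorm (B : Subgroup H) (v : V) : V :=
  letI : Fintype B := Fintype.ofFinite B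
  ∏ b : B, (b : H) • v

theorem orbitNorm_mul (B : Subgroup H) (v w : V) :
    orbitNorm B (v * w) = orbitNorm B v * orbitNorm B w := by
  simp [orbitNorm, smul_mul', Finset.prod_mul_distrib]

theorem orbitNorm_inv (B : Subgroup H) (v : V) : orbitNorm B v⁻¹ = (orbitNorm B v)⁻¹ := by
  refine eq_inv_of_mul_eq_one_left ?_
  rw [← orbitNorm_mul, inv_mul_cancel]
  simp [orbitNorm]

theorem orbitNorm_one (B : Subgroup H) : orbitNorm B (1 : V) = 1 := by simp [orbitNorm]

theorem orbitNorm_pow (B : Subgroup H) (v : V) (n : ℕ) :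
    orbitNorm B (v ^ n) = orbitNorm B v ^ n := by
  induction n with
  | zero => simp [orbitNorm_one]
  | succ n ih => rw [pow_succ, orbitNorm_mul, ih, pow_succ]

theorem orbitNorm_of_fixed {B : Subgroup H} {v : V} (h : ∀ b ∈ B, b • v = v) :
    orbitNorm B v = v ^ Nat.card B := by
  letI : Fintype B := Fintype.ofFinite B
  simp [orbitNorm, h, Nat.card_eq_fintype_card]

theorem smul_orbitNorm {B : Subgroup H} {b : H} (hb : b ∈ B) (v : V) :
    b • orbitNorm B v = orbitNorm B v := by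
  letI : Fintype B := Fintype.ofFinite B
  simp only [orbitNorm, Finset.smul_prod']
  exact Fintype.prod_equiv (Equiv.mulLeft ⟨b, hb⟩) _ _ (fun c => by simp [mul_smul])

/-- Conjugation moves norms. -/
theorem smul_orbitNorm_conj {B B' : Subgroup H} {x : H} (h : ∀ b, b ∈ B ↔ x * b * x⁻¹ ∈ B')
    (v : V) : x • orbitNorm B v = orbitNorm B' (x • v) := by
  letI : Fintype B := Fintype.ofFinite B
  letI : Fintype B' := Fintype.ofFinite B'
  simp only [orbitNorm, Finset.smul_prod']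
  refine Fintype.prod_equiv (ι := B) (κ := B')
    { toFun := fun b => (⟨x * (b : H) * x⁻¹, (h b).1 b.2⟩ : B')
      invFun := fun c => ⟨x⁻¹ * (c : H) * x, (h _).2 (by
        have : x * (x⁻¹ * (c : H) * x) * x⁻¹ = c := by group
        rw [this]; exact c.2)⟩
      left_inv := fun b => Subtype.ext (by show x⁻¹ * (x * (b : H) * x⁻¹) * x = b; group)
      right_inv := fun c => Subtype.ext (by show x * (x⁻¹ * (c : H) * x) * x⁻¹ = c; group) }
    _ _ (fun b => ?_)
  show x • (b : H) • v = (x * b * x⁻¹) • x • v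
  rw [← mul_smul, ← mul_smul, inv_mul_cancel_right]

theorem smul_orbitNorm_comm {B : Subgroup H} {x : H} (h : ∀ b ∈ B, Commute x b) (v : V) :
    x • orbitNorm B v = orbitNorm B (x • v) := by
  rw [orbitNorm, orbitNorm, Finset.smul_prod']
  refine Finset.prod_congr rfl fun b _ => ?_
  rw [← mul_smul, (h b b.2).eq, mul_smul]

variable (ℓ : ℕ) [Fact ℓ.Prime]

theorem eq_one_of_pow_card {B : Subgroup H} (hB : IsPGroup ℓ B)
    (hℓ : ∀ v : V, v ^ ℓ = 1 → v = 1) {v : V} (h : v ^ Nat.card B = 1) : v = 1 := by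
  obtain ⟨k, hk⟩ := hB.exists_card_eq
  rw [hk] at h
  clear hk
  induction k generalizing v with
  | zero => simpa using h
  | succ k ih => exact hℓ v (ih (by rwa [← pow_mul, ← pow_succ']))

/-- An elementary abelian subgroup. -/
def IsElem (A : Subgroup H) : Prop :=
  (∀ a ∈ A, ∀ b ∈ A, a * b = b * a) ∧ ∀ a ∈ A, a ^ ℓ = 1

/-- `B` is a hyperplane of `A`. -/
def IsHyper (B A : Subgroup H) : Prop :=
  B < A ∧ ∀ g ∈ A, g ∉ B → A ≤ B ⊔ Subgroup.zpowers g

variable {ℓ}

theorem IsElem.isPGroup {A : Subgroup H} (hA : IsElem ℓ A) : IsPGroup ℓ A :=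
  fun a => ⟨1, Subtype.ext (by simpa using hA.2 a a.2)⟩

theorem IsElem.mono {A B : Subgroup H} (hA : IsElem ℓ A) (h : B ≤ A) : IsElem ℓ B :=
  ⟨fun a ha b hb => hA.1 a (h ha) b (h hb), fun a ha => hA.2 a (h ha)⟩

theorem IsHyper.sup_eq {A B B' : Subgroup H} (hB : IsHyper B A) (hB' : IsHyper B' A)
    (hne : B ≠ B') : B ⊔ B' = A := by
  refine le_antisymm (sup_le hB.1.le hB'.1.le) ?_
  by_cases hle : B' ≤ B
  · have hlt : B' < B := lt_of_le_of_ne hle (Ne.symm hne)
    obtain ⟨g, hgB, hgB'⟩ := SetLike.exists_of_lt hlt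
    have h1 := hB'.2 g (hB.1.le hgB) hgB'
    exact absurd (h1.trans (sup_le hle ((Subgroup.zpowers_le).2 hgB))) (not_le_of_gt hB.1)
  · obtain ⟨g, hgB', hgB⟩ := SetLike.not_le_iff_exists.1 hle
    exact (hB.2 g (hB'.1.le hgB') hgB).trans
      (sup_le_sup_left ((Subgroup.zpowers_le).2 hgB') B)

theorem fixed_sup {B B' : Subgroup H} {v : V} (h : ∀ b ∈ B, b • v = v)
    (h' : ∀ b ∈ B', b • v = v) : ∀ b ∈ B ⊔ B', b • v = v := by
  have hle : B ⊔ B' ≤ MulAction.stabilizer H v :=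
    sup_le (fun b hb => MulAction.mem_stabilizer_iff.2 (h b hb))
      (fun b hb => MulAction.mem_stabilizer_iff.2 (h' b hb))
  exact fun b hb => MulAction.mem_stabilizer_iff.1 (hle hb)

/-- The norm over a hyperplane kills what another hyperplane fixes. -/
theorem orbitNorm_eq_one_of_fixed {A B B' : Subgroup H} (hA : IsElem ℓ A)
    (hfree : ∀ v : V, (∀ a ∈ A, a • v = v) → v = 1) (hB : IsHyper B A) (hB' : IsHyper B' A)
    (hne : B ≠ B') {v : V} (hv : ∀ b ∈ B', b • v = v) : orbitNorm B v = 1 := by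
  refine hfree _ ?_
  rw [← hB.sup_eq hB' hne]
  refine fixed_sup (fun b hb => smul_orbitNorm hb v) fun b hb => ?_
  rw [smul_orbitNorm_comm (fun c hc => hA.1 b (hB'.1.le hb) c (hB.1.le hc)), hv b hb]

/-- The product over the powers of one element of order dividing `ℓ`. -/
noncomputable def lineNorm (ℓ : ℕ) [Fact ℓ.Prime] (g : H) (v : V) : V :=
  haveI : NeZero ℓ := ⟨(Fact.out : ℓ.Prime).ne_zero⟩
  ∏ j : ZMod ℓ, g ^ j.val • v

omit [Finite H] [CommGroup V] [MulDistribMulAction H V] in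
theorem pow_zmod_val {g : H} (hg : g ^ ℓ = 1) (n : ℕ) : g ^ ((n : ZMod ℓ)).val = g ^ n := by
  rw [ZMod.val_natCast, eq_comm]
  exact pow_eq_pow_mod n hg

omit [Finite H] in
theorem smul_lineNorm {g : H} (hg : g ^ ℓ = 1) (v : V) : g • lineNorm ℓ g v = lineNorm ℓ g v := by
  haveI : NeZero ℓ := ⟨(Fact.out : ℓ.Prime).ne_zero⟩
  simp only [lineNorm, Finset.smul_prod']
  refine Fintype.prod_equiv (Equiv.addRight (1 : ZMod ℓ)) _ _ fun j => ?_
  rw [← mul_smul, ← pow_succ', Equiv.coe_addRight, ← pow_zmod_val hg (j.val + 1)]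
  congr 2
  simp

omit [Finite H] in
theorem smul_lineNorm_comm {g x : H} (h : Commute x g) (v : V) :
    x • lineNorm ℓ g v = lineNorm ℓ g (x • v) := by
  haveI : NeZero ℓ := ⟨(Fact.out : ℓ.Prime).ne_zero⟩
  simp only [lineNorm, Finset.smul_prod']
  refine Finset.prod_congr rfl fun j _ => ?_
  rw [← mul_smul, (h.pow_right _).eq, mul_smul]

omit [Finite H] in
/-- The identity behind the decomposition for two independent elements. -/
theorem exists_line {z e : H} (hzl : z ^ ℓ = 1) (hel : e ^ ℓ = 1) (hze : Commute z e)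
    (hℓ : ∀ v : V, v ^ ℓ = 1 → v = 1) {v : V} (hv : v ≠ 1) :
    ∃ y, (y = z ∨ ∃ i : ℕ, y = e * z ^ i) ∧ lineNorm ℓ y v ≠ 1 := by
  classical
  haveI : NeZero ℓ := ⟨(Fact.out : ℓ.Prime).ne_zero⟩
  by_contra hall
  push Not at hall
  have hz1 : lineNorm ℓ z v = 1 := hall z (Or.inl rfl)
  have hi1 : ∀ i : ZMod ℓ, lineNorm ℓ (e * z ^ i.val) v = 1 := fun i => hall _ (Or.inr ⟨_, rfl⟩)
  -- the product of all lines
  have key : lineNorm ℓ z v * ∏ i : ZMod ℓ, lineNorm ℓ (e * z ^ i.val) v =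
      v ^ ℓ * ∏ j : ZMod ℓ, e ^ j.val • lineNorm ℓ z v := by
    simp only [lineNorm, Finset.smul_prod']
    rw [Finset.prod_comm]
    let F : ZMod ℓ → V := fun j => ∏ i : ZMod ℓ, (e * z ^ i.val) ^ j.val • v
    let G : ZMod ℓ → V := fun j => ∏ i : ZMod ℓ, e ^ j.val • z ^ i.val • v
    show (∏ i : ZMod ℓ, z ^ i.val • v) * ∏ j, F j = v ^ ℓ * ∏ j, G j
    rw [← Finset.mul_prod_erase Finset.univ F (Finset.mem_univ 0),
      ← Finset.mul_prod_erase Finset.univ G (Finset.mem_univ 0)]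
    have hF : F 0 = v ^ ℓ := by simp [F, Finset.card_univ]
    have hG : G 0 = ∏ i : ZMod ℓ, z ^ i.val • v := by simp [G]
    rw [hF, hG, mul_left_comm]
    congr 2
    refine Finset.prod_congr rfl fun j hj => ?_
    have hj0 : j ≠ 0 := (Finset.mem_erase.1 hj).1
    refine Fintype.prod_equiv (Equiv.mulRight₀ j hj0) _ _ fun i => ?_
    rw [← mul_smul, (hze.symm.pow_right _).mul_pow, ← pow_mul, show Equiv.mulRight₀ j hj0 i = i * j from rfl,
      ← pow_zmod_val hzl (i.val * j.val)]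
    congr 3
    simp
  rw [hz1, Finset.prod_eq_one fun i _ => hi1 i] at key
  simp only [smul_one, Finset.prod_const_one, mul_one] at key
  exact hv (hℓ v key.symm)

/-- Some hyperplane norm of a nontrivial vector is nontrivial. -/
theorem exists_hyper {A : Subgroup H} (hA : IsElem ℓ A) (hℓ : ∀ v : V, v ^ ℓ = 1 → v = 1)
    (hfree : ∀ v : V, (∀ a ∈ A, a • v = v) → v = 1) {v : V} (hv : v ≠ 1) :
    ∃ B, IsHyper B A ∧ orbitNorm B v ≠ 1 := by
  classical
  let S : Set (Subgroup H) := {B | B ≤ A ∧ orbitNorm B v ≠ 1}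
  have hS : S.Nonempty := by
    refine ⟨⊥, bot_le, ?_⟩
    rw [orbitNorm_of_fixed (fun b hb => by rw [Subgroup.mem_bot.1 hb, one_smul]),
      Subgroup.card_bot, pow_one]
    exact hv
  obtain ⟨B, hB⟩ := S.toFinite.exists_maximal hS
  obtain ⟨hBA, hBv⟩ := hB.prop
  set w := orbitNorm B v with hw
  have hwB : ∀ b ∈ B, b • w = w := fun b hb => smul_orbitNorm hb v
  have hne : B ≠ A := fun h => hBv (hfree w (h ▸ hwB))
  refine ⟨B, ⟨⟨lt_of_le_of_ne hBA hne, fun g hg hgB => ?_⟩, hBv⟩⟩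
  by_contra hnle
  obtain ⟨e, he, heB⟩ := SetLike.not_le_iff_exists.1 hnle
  obtain ⟨y, hy, hyw⟩ := exists_line (hA.2 g hg) (hA.2 e he) (hA.1 g hg e he) hℓ hBv
  have hyA : y ∈ A := by
    rcases hy with rfl | ⟨i, rfl⟩
    exacts [hg, mul_mem he (pow_mem hg i)]
  have hyB : y ∉ B := by
    rcases hy with rfl | ⟨i, rfl⟩
    · exact hgB
    · intro h
      refine heB ?_
      have h2 : (e * g ^ i) * (g ^ i)⁻¹ ∈ B ⊔ Subgroup.zpowers g :=
        mul_mem (Subgroup.mem_sup_left h)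
          (inv_mem (Subgroup.mem_sup_right (pow_mem (Subgroup.mem_zpowers g) i)))
      rwa [mul_inv_cancel_right] at h2
  set K := B ⊔ Subgroup.zpowers y with hK
  have hKA : K ≤ A := sup_le hBA (Subgroup.zpowers_le.2 hyA)
  have hKfix : ∀ b ∈ K, b • lineNorm ℓ y w = lineNorm ℓ y w := by
    refine fixed_sup (fun b hb => ?_) fun b hb => ?_
    · rw [smul_lineNorm_comm (hA.1 b (hBA hb) y hyA), hwB b hb]
    · have hle : Subgroup.zpowers y ≤ MulAction.stabilizer H (lineNorm ℓ y w) :=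
        Subgroup.zpowers_le.2 (MulAction.mem_stabilizer_iff.2 (smul_lineNorm (hA.2 y hyA) w))
      exact MulAction.mem_stabilizer_iff.1 (hle hb)
  refine hyB (hB.le_of_ge ⟨hKA, fun hKv => ?_⟩ le_sup_left
    (Subgroup.mem_sup_right (Subgroup.mem_zpowers y)))
  -- the norm over the larger group would kill the line norm
  have h1 : orbitNorm K w = 1 := by
    have h2 : orbitNorm K w = orbitNorm B (orbitNorm K v) := by
      simp only [hw, orbitNorm, Finset.smul_prod']
      rw [Finset.prod_comm]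
      refine Finset.prod_congr rfl fun b _ => Finset.prod_congr rfl fun c _ => ?_
      rw [← mul_smul, ← mul_smul, hA.1 _ (hKA c.2) _ (hBA b.2)]
    rw [h2, hKv, orbitNorm_one]
  have h3 : orbitNorm K (lineNorm ℓ y w) = 1 := by
    haveI : NeZero ℓ := ⟨(Fact.out : ℓ.Prime).ne_zero⟩
    have h4 : orbitNorm K (lineNorm ℓ y w) = ∏ j : ZMod ℓ, y ^ j.val • orbitNorm K w := by
      simp only [lineNorm, orbitNorm, Finset.smul_prod']
      rw [Finset.prod_comm]
      refine Finset.prod_congr rfl fun j _ => Finset.prod_congr rfl fun c _ => ?_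
      rw [← mul_smul, ← mul_smul, hA.1 _ (hKA c.2) _ (pow_mem hyA _)]
    rw [h4, h1]
    simp
  rw [orbitNorm_of_fixed hKfix] at h3
  exact hyw (eq_one_of_pow_card ℓ (hA.mono hKA).isPGroup hℓ h3)

/-- A vector with all hyperplane norms trivial is trivial. -/
theorem eq_one_of_norms {A : Subgroup H} (hA : IsElem ℓ A) (hℓ : ∀ v : V, v ^ ℓ = 1 → v = 1)
    (hfree : ∀ v : V, (∀ a ∈ A, a • v = v) → v = 1) {v : V}
    (h : ∀ B, IsHyper B A → orbitNorm B v = 1) : v = 1 := by
  by_contra hv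
  obtain ⟨B, hB, hBv⟩ := exists_hyper hA hℓ hfree hv
  exact hBv (h B hB)

/-- With a faithful action two hyperplanes occur. -/
theorem exists_two_hyper [FaithfulSMul H V] [Nontrivial V] {A : Subgroup H} (hA : IsElem ℓ A)
    (hℓ : ∀ v : V, v ^ ℓ = 1 → v = 1) (hfree : ∀ v : V, (∀ a ∈ A, a • v = v) → v = 1)
    (hnc : ∀ g ∈ A, ¬ A ≤ Subgroup.zpowers g) :
    ∃ B B' : Subgroup H, IsHyper B A ∧ IsHyper B' A ∧ B ≠ B' ∧
      (∃ v : V, orbitNorm B v ≠ 1) ∧ ∃ v : V, orbitNorm B' v ≠ 1 := by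
  classical
  obtain ⟨v, hv⟩ := exists_ne (1 : V)
  obtain ⟨B, hB, hBv⟩ := exists_hyper hA hℓ hfree hv
  by_contra hall
  push Not at hall
  -- then the hyperplane acts trivially
  have hfix : ∀ b ∈ B, ∀ u : V, b • u = u := by
    intro b hb u
    have hzero : b • u / u = 1 := eq_one_of_norms hA hℓ hfree fun C hC => by
      rcases eq_or_ne C B with rfl | hne
      · rw [div_eq_mul_inv, orbitNorm_mul, orbitNorm_inv,
          ← smul_orbitNorm_comm (fun c hc => hA.1 b (hC.1.le hb) c (hC.1.le hc)),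
          smul_orbitNorm hb, mul_inv_cancel]
      · exact hall B C hB hC (Ne.symm hne) ⟨v, hBv⟩ _
    exact div_eq_one.1 hzero
  have hBbot : B = ⊥ := by
    rw [eq_bot_iff]
    intro b hb
    exact Subgroup.mem_bot.2 (eq_of_smul_eq_smul fun u : V => by rw [hfix b hb, one_smul])
  subst hBbot
  obtain ⟨g, hgA, hg⟩ := SetLike.exists_of_lt hB.1
  exact hnc g hgA (by simpa using hB.2 g hgA hg)

end CfsgLib.Palfy
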