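import Cfsg.Agent.Palfy.Exceptional
import Cfsg.Agent.Palfy.CharData
import Cfsg.Agent.Constrained.Fitting
import Cfsg.Agent.Eq.Def_Blocks

/-!
No solvable group has a faithful irreducible module in which every vector is fixed by a normal
Sylow subgroup of its stabilizer, of prime order, for two primes, and no degree divisible by both.
-/

set_option autoImplicit false
set_option linter.style.haveILetI false
set_option linter.unusedSectionVars false

namespace CfsgLib.Palfy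

open Cfsg
open scoped commutatorElement

variable {H V : Type*} [Group H] [Finite H] [CommGroup V] [Finite V] [MulDistribMulAction H V]

/-- Every nontrivial vector is fixed by a Sylow subgroup normalized by its stabilizer. -/
structure PrimeData (H V : Type*) [Group H] [CommGroup V] [MulDistribMulAction H V] (π : ℕ) :
    Prop where
  prime : π.Prime
  card : ∀ X : Sylow π H, Nat.card (X : Subgroup H) = π
  fix : ∀ v : V, v ≠ 1 → ∃ X : Sylow π H, (∀ x ∈ (X : Subgroup H), x • v = v) ∧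
    ∀ h : H, h • v = v → ∀ x ∈ (X : Subgroup H), h * x * h⁻¹ ∈ (X : Subgroup H)

/-- The hypotheses on the module. -/
structure ModuleData (H V : Type*) [Group H] [CommGroup V] [MulDistribMulAction H V] (p r s : ℕ) :
    Prop where
  hp : PrimeData H V p
  hr : PrimeData H V r
  hpr : p ≠ r
  hs : s.Prime
  exp : ∀ v : V, v ^ s = 1
  irr : ∀ W : Subgroup V, (∀ (h : H) (v : V), v ∈ W → h • v ∈ W) → W = ⊥ ∨ W = ⊤
  noadj : ∀ χ : IrrCharacter H, ¬ p * r ∣ charDegree (χ : H → ℂ)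
  hab : ∀ ℓ : ℕ, ℓ.Prime → ℓ ≠ p → ℓ ≠ r → ℓ ∣ (commutator H).index →
    ∀ A : Subgroup H, IsPGroup ℓ A → ∀ a ∈ A, ∀ b ∈ A, a * b = b * a

variable {π : ℕ}

theorem PrimeData.pow_eq_one (hd : PrimeData H V π) {X : Sylow π H} {x : H}
    (hx : x ∈ (X : Subgroup H)) : x ^ π = 1 := by
  have h : (⟨x, hx⟩ : (X : Subgroup H)) ^ Nat.card (X : Subgroup H) = 1 := pow_card_eq_one'
  rw [hd.card X] at h
  exact congrArg Subtype.val h

theorem PrimeData.uniq (hd : PrimeData H V π) {v : V} {X Y : Sylow π H}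
    (hX : ∀ h : H, h • v = v → ∀ x ∈ (X : Subgroup H), h * x * h⁻¹ ∈ (X : Subgroup H))
    (hY : ∀ y ∈ (Y : Subgroup H), y • v = v) : Y = X := by
  haveI := Fact.mk hd.prime
  have hn : (Y : Subgroup H) ≤ Subgroup.normalizer ((X : Subgroup H) : Set H) := by
    intro y hy
    rw [Subgroup.mem_normalizer_iff]
    refine fun a => ⟨hX y (hY y hy) a, fun ha => ?_⟩
    have hy' : y⁻¹ • v = v := by
      conv_lhs => rw [← hY y hy]
      rw [inv_smul_smul]
    simpa [mul_assoc] using hX y⁻¹ hy' _ ha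
  have hsup : IsPGroup π ↥((Y : Subgroup H) ⊔ (X : Subgroup H)) :=
    Y.2.to_sup_of_normal_right' X.2 hn
  exact Sylow.ext ((Y.3 hsup le_sup_left).symm.trans (X.3 hsup le_sup_right))

theorem PrimeData.exists_ne_one (hd : PrimeData H V π) (X : Sylow π H) :
    ∃ x ∈ (X : Subgroup H), x ≠ 1 := by
  haveI : Nontrivial (X : Subgroup H) := by
    rw [← Finite.one_lt_card_iff_nontrivial, hd.card X]; exact hd.prime.one_lt
  obtain ⟨x, hx⟩ := exists_ne (1 : (X : Subgroup H))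
  exact ⟨x, x.2, fun h => hx (Subtype.ext h)⟩

/-- The fixed points of a subgroup. -/
def fixedBy (K : Subgroup H) : Subgroup V where
  carrier := {v | ∀ k ∈ K, k • v = v}
  one_mem' k _ := smul_one k
  mul_mem' {a b} ha hb k hk := by rw [smul_mul', ha k hk, hb k hk]
  inv_mem' {a} ha k hk := by rw [smul_inv', ha k hk]

/-- A `π`-subgroup normalized by the stabilizer, commuting with what normal subgroups it fixes. -/
theorem PrimeData.commute_of_fix (hd : PrimeData H V π) {ℓ : ℕ} (hℓ : ℓ.Prime) (hℓπ : ℓ ≠ π)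
    {U : Subgroup H} [hU : U.Normal] (hUp : IsPGroup ℓ U) {v : V} {X : Sylow π H}
    (hX : ∀ h : H, h • v = v → ∀ x ∈ (X : Subgroup H), h * x * h⁻¹ ∈ (X : Subgroup H))
    {x b : H} (hx : x ∈ (X : Subgroup H)) (hb : b ∈ U) (hbv : b • v = v) : Commute x b := by
  haveI := Fact.mk hd.prime
  haveI := Fact.mk hℓ
  have h1 : b * x * b⁻¹ * x⁻¹ ∈ (X : Subgroup H) := mul_mem (hX b hbv x hx) (inv_mem hx)
  have h2 : b * x * b⁻¹ * x⁻¹ ∈ U := by
    rw [mul_assoc b, mul_assoc b]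
    exact mul_mem hb (hU.conj_mem _ (inv_mem hb) x)
  have hdis : Disjoint (X : Subgroup H) U := IsPGroup.disjoint_of_ne π ℓ (Ne.symm hℓπ) _ _ X.2 hUp
  have h3 : b * x * b⁻¹ * x⁻¹ = 1 := Subgroup.disjoint_def.1 hdis h1 h2
  exact (mul_inv_eq_iff_eq_mul.1 (mul_inv_eq_one.1 h3) : b * x = x * b).symm

variable [FaithfulSMul H V] [Nontrivial V] {p r s : ℕ}

/-- A prime acting centrally on a non-cyclic elementary abelian subgroup without fixed vectors is
impossible. -/
theorem PrimeData.false_of_central (hd : PrimeData H V π) {ℓ : ℕ} [Fact ℓ.Prime] {A : Subgroup H}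
    (hA : IsElem ℓ A) (hℓ : ∀ v : V, v ^ ℓ = 1 → v = 1)
    (hfree : ∀ v : V, (∀ a ∈ A, a • v = v) → v = 1)
    (hnc : ∀ g ∈ A, ¬ A ≤ Subgroup.zpowers g)
    (hc : ∀ X : Sylow π H, ∀ x ∈ (X : Subgroup H), ∀ a ∈ A, Commute x a) : False := by
  classical
  obtain ⟨B, B', hB, hB', hne, ⟨v, hv⟩, ⟨v', hv'⟩⟩ := exists_two_hyper hA hℓ hfree hnc
  -- the groups attached to vectors of different hyperplanes agree
  have pair : ∀ C C' : Subgroup H, IsHyper C A → IsHyper C' A → C ≠ C' → ∀ a a' : V,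
      orbitNorm C a ≠ 1 → orbitNorm C' a' ≠ 1 → ∀ X X' : Sylow π H,
      (∀ h : H, h • orbitNorm C a = orbitNorm C a → ∀ x ∈ (X : Subgroup H),
        h * x * h⁻¹ ∈ (X : Subgroup H)) →
      (∀ h : H, h • orbitNorm C' a' = orbitNorm C' a' → ∀ x ∈ (X' : Subgroup H),
        h * x * h⁻¹ ∈ (X' : Subgroup H)) → X = X' := by
    intro C C' hC hC' hCC a a' ha ha' X X' hX hX'
    set w := orbitNorm C a with hw
    set w' := orbitNorm C' a' with hw'
    have hwC : ∀ b ∈ C, b • w = w := fun b hb => smul_orbitNorm hb a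
    have hwC' : ∀ b ∈ C', b • w' = w' := fun b hb => smul_orbitNorm hb a'
    have e1 : orbitNorm C (w * w') = w ^ Nat.card C := by
      rw [orbitNorm_mul, orbitNorm_of_fixed hwC,
        orbitNorm_eq_one_of_fixed hA hfree hC hC' hCC hwC', mul_one]
    have e2 : orbitNorm C' (w * w') = w' ^ Nat.card C' := by
      rw [orbitNorm_mul, orbitNorm_eq_one_of_fixed hA hfree hC' hC (Ne.symm hCC) hwC, one_mul,
        orbitNorm_of_fixed hwC']
    have hne1 : w * w' ≠ 1 := fun h => ha (eq_one_of_pow_card ℓ (hA.mono hC.1.le).isPGroup hℓ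
      (by rw [← e1, h, orbitNorm_one]))
    obtain ⟨Y, hY, -⟩ := hd.fix _ hne1
    have key : ∀ (K : Subgroup H) (u : V), K ≤ A → orbitNorm K (w * w') = u ^ Nat.card K →
        ∀ y ∈ (Y : Subgroup H), y • u = u := by
      intro K u hK hu y hy
      have h1 : y • orbitNorm K (w * w') = orbitNorm K (w * w') := by
        rw [smul_orbitNorm_comm (fun b hb => hc Y y hy b (hK hb)), hY y hy]
      rw [hu, smul_pow'] at h1
      refine div_eq_one.1 (eq_one_of_pow_card ℓ (hA.mono hK).isPGroup hℓ ?_)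
      rw [div_pow, h1, div_self']
    exact (hd.uniq hX (key C w hC.1.le e1)).symm.trans (hd.uniq hX' (key C' w' hC'.1.le e2))
  obtain ⟨Y, hY, hYn⟩ := hd.fix _ hv
  obtain ⟨y, hyY, hy1⟩ := hd.exists_ne_one Y
  apply hy1
  refine eq_of_smul_eq_smul fun u : V => ?_
  rw [one_smul]
  refine div_eq_one.1 (eq_one_of_norms hA hℓ hfree fun C hC => ?_)
  rw [div_eq_mul_inv, orbitNorm_mul, orbitNorm_inv,
    ← smul_orbitNorm_comm (fun b hb => hc Y y hyY b (hC.1.le hb)), ← div_eq_mul_inv, div_eq_one]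
  by_cases hu : orbitNorm C u = 1
  · rw [hu, smul_one]
  obtain ⟨Z, hZ, hZn⟩ := hd.fix _ hu
  have hYZ : Y = Z := by
    by_cases hCB : C = B
    · obtain ⟨Y', hY', hY'n⟩ := hd.fix _ hv'
      exact (pair B B' hB hB' hne v v' hv hv' Y Y' hYn hY'n).trans
        (pair C B' hC hB' (hCB ▸ hne) u v' hu hv' Z Y' hZn hY'n).symm
    · exact (pair C B hC hB hCB u v hu hv Z Y hZn hYn).symm
  exact hZ y (hYZ ▸ hyY)

namespace ModuleData

variable (D : ModuleData H V p r s)
include D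

theorem fixedBy_eq_bot {K : Subgroup H} [hK : K.Normal] (hne : K ≠ ⊥) :
    fixedBy (V := V) K = ⊥ := by
  refine (D.irr (fixedBy K) fun h v hv k hk => ?_).resolve_right fun htop => hne ?_
  · have h1 : (h⁻¹ * k * h) • v = v := hv _ (by simpa using hK.conj_mem k hk h⁻¹)
    conv_rhs => rw [← h1]
    rw [← mul_smul, ← mul_smul]; congr 1; group
  · rw [eq_bot_iff]
    intro k hk
    refine Subgroup.mem_bot.2 (eq_of_smul_eq_smul fun v : V => ?_)
    rw [one_smul]
    exact (htop ▸ Subgroup.mem_top v : v ∈ fixedBy K) k hk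

theorem free {K : Subgroup H} [K.Normal] (hne : K ≠ ⊥) {A : Subgroup H} (hKA : K ≤ A) (v : V)
    (hv : ∀ a ∈ A, a • v = v) : v = 1 := by
  have : v ∈ fixedBy K := fun k hk => hv k (hKA hk)
  rwa [D.fixedBy_eq_bot hne, Subgroup.mem_bot] at this

theorem normal_eq_bot {π : ℕ} (hd : PrimeData H V π) {K : Subgroup H} [K.Normal]
    (hK : IsPGroup π K) : K = ⊥ := by
  haveI := Fact.mk hd.prime
  by_contra hne
  have hle : ∀ X : Sylow π H, K ≤ (X : Subgroup H) := fun X => by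
    have h1 : IsPGroup π ↥(K ⊔ (X : Subgroup H)) := hK.to_sup_of_normal_left X.2
    exact le_sup_left.trans (X.3 h1 le_sup_right).le
  obtain ⟨v, hv⟩ := exists_ne (1 : V)
  obtain ⟨X, hX, -⟩ := hd.fix v hv
  exact hv (D.free hne (hle X) v hX)

theorem ell_ne {ℓ : ℕ} [Fact ℓ.Prime] {K : Subgroup H} [K.Normal] (hK : IsPGroup ℓ K)
    (hne : K ≠ ⊥) : ℓ ≠ p ∧ ℓ ≠ r ∧ ℓ ≠ s := by
  refine ⟨fun h => hne (D.normal_eq_bot D.hp (h ▸ hK)),
    fun h => hne (D.normal_eq_bot D.hr (h ▸ hK)), fun h => ?_⟩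
  subst h
  letI : MulAction K V := MulAction.compHom V K.subtype
  have hdvd : ℓ ∣ Nat.card V := by
    obtain ⟨v, hv⟩ := exists_ne (1 : V)
    rw [← orderOf_eq_prime (D.exp v) hv]
    exact orderOf_dvd_natCard v
  have h1 : (1 : V) ∈ MulAction.fixedPoints K V := fun k => smul_one (k : H)
  obtain ⟨v, hv, hv1⟩ := hK.exists_fixed_point_of_prime_dvd_card_of_fixed_point V hdvd h1
  exact hv1 (D.free hne le_rfl v fun k hk => hv ⟨k, hk⟩).symm

theorem coprime_pow {ℓ : ℕ} (hℓ : ℓ.Prime) (hℓs : ℓ ≠ s) (v : V) (h : v ^ ℓ = 1) : v = 1 := by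
  have := pow_gcd_eq_one.2 ⟨h, D.exp v⟩
  rwa [(Nat.coprime_primes hℓ D.hs).2 hℓs, pow_one] at this

/-- Normal elementary abelian subgroups are cyclic: an odd prime. -/
theorem false_of_odd {π : ℕ} (hd : PrimeData H V π) (hodd : π ≠ 2) {ℓ : ℕ} [Fact ℓ.Prime]
    {A : Subgroup H} [hAn : A.Normal] (hA : IsElem ℓ A)
    (hnc : ∀ g ∈ A, ¬ A ≤ Subgroup.zpowers g) (hℓπ : ℓ ≠ π) : False := by
  classical
  have hne : A ≠ ⊥ := fun h => hnc 1 (one_mem _) (by rw [h]; exact bot_le)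
  have hℓ := D.coprime_pow (Fact.out : ℓ.Prime) (D.ell_ne hA.isPGroup hne).2.2
  have hfree : ∀ v : V, (∀ a ∈ A, a • v = v) → v = 1 := D.free hne le_rfl
  obtain ⟨B, B', hB, hB', hBB, ⟨v, hv⟩, ⟨v', hv'⟩⟩ := exists_two_hyper hA hℓ hfree hnc
  set w := orbitNorm B v with hw
  set w' := orbitNorm B' v' with hw'
  have hwB : ∀ b ∈ B, b • w = w := fun b hb => smul_orbitNorm hb v
  have hwB' : ∀ b ∈ B', b • w' = w' := fun b hb => smul_orbitNorm hb v'
  have e1 : orbitNorm B (w * w') = w ^ Nat.card B := by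
    rw [orbitNorm_mul, orbitNorm_of_fixed hwB,
      orbitNorm_eq_one_of_fixed hA hfree hB hB' hBB hwB', mul_one]
  have e2 : orbitNorm B' (w * w') = w' ^ Nat.card B' := by
    rw [orbitNorm_mul, orbitNorm_eq_one_of_fixed hA hfree hB' hB (Ne.symm hBB) hwB, one_mul,
      orbitNorm_of_fixed hwB']
  have h1 : orbitNorm B (w * w') ≠ 1 := fun h => hv (eq_one_of_pow_card ℓ (hA.mono hB.1.le).isPGroup
    hℓ (e1.symm.trans h))
  have h2 : orbitNorm B' (w * w') ≠ 1 := fun h => hv' (eq_one_of_pow_card ℓ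
    (hA.mono hB'.1.le).isPGroup hℓ (e2.symm.trans h))
  obtain ⟨X, hX, hXn⟩ := hd.fix (w * w') fun h => h1 (by rw [h, orbitNorm_one])
  obtain ⟨x, hxX, hx1⟩ := hd.exists_ne_one X
  -- only two hyperplanes see the sum
  have honly : ∀ C, IsHyper C A → orbitNorm C (w * w') ≠ 1 → C = B ∨ C = B' := by
    intro C hC hCne
    by_contra hcon
    push Not at hcon
    exact hCne (by rw [orbitNorm_mul, orbitNorm_eq_one_of_fixed hA hfree hC hB hcon.1 hwB,
      orbitNorm_eq_one_of_fixed hA hfree hC hB' hcon.2 hwB', one_mul])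
  have himg : ∀ g ∈ (X : Subgroup H), ∀ C, IsHyper C A → orbitNorm C (w * w') ≠ 1 →
      ∀ C', (∀ b, b ∈ C ↔ g * b * g⁻¹ ∈ C') →
        orbitNorm C' (w * w') = g • orbitNorm C (w * w') ∧ (C' = B ∨ C' = B') := by
    intro g hg C hC hCne C' hC'
    have h3 : orbitNorm C' (w * w') = g • orbitNorm C (w * w') := by
      rw [smul_orbitNorm_conj hC', hX g hg]
    refine ⟨h3, honly C' ⟨?_, ?_⟩ (by rw [h3]; exact fun h => hCne (by
      have := congrArg (fun z : V => g⁻¹ • z) h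
      simpa using this))⟩
    · have hle : ∀ b, b ∈ C' → b ∈ A := fun b hb => by
        have h4 : g⁻¹ * b * g ∈ C := (hC' _).2 (by simpa [mul_assoc] using hb)
        simpa [mul_assoc] using hAn.conj_mem _ (hC.1.le h4) g
      obtain ⟨a, ha, haC⟩ := SetLike.exists_of_lt hC.1
      exact lt_of_le_of_ne hle fun h => haC ((hC' a).2 (h.symm ▸ hAn.conj_mem a ha g))
    · intro a ha haC'
      have h5 : g⁻¹ * a * g ∉ C := fun h => haC' (by simpa [mul_assoc] using (hC' _).1 h)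
      have h6 := hC.2 _ (by simpa using hAn.conj_mem a ha g⁻¹) h5
      intro z hz
      have h7 := h6 (show g⁻¹ * z * g ∈ A by simpa using hAn.conj_mem z hz g⁻¹)
      have hle : C ⊔ Subgroup.zpowers (g⁻¹ * a * g) ≤
          (C' ⊔ Subgroup.zpowers a).comap (MulAut.conj g).toMonoidHom := by
        refine sup_le (fun b hb => Subgroup.mem_sup_left ((hC' b).1 hb)) (Subgroup.zpowers_le.2 ?_)
        show g * (g⁻¹ * a * g) * g⁻¹ ∈ C' ⊔ Subgroup.zpowers a
        rw [show g * (g⁻¹ * a * g) * g⁻¹ = a by group]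
        exact Subgroup.mem_sup_right (Subgroup.mem_zpowers a)
      have h8 : g * (g⁻¹ * z * g) * g⁻¹ ∈ C' ⊔ Subgroup.zpowers a := hle h7
      rwa [show g * (g⁻¹ * z * g) * g⁻¹ = z by group] at h8
  -- so each of them is stable
  have hstab : ∀ C C', IsHyper C A → IsHyper C' A → orbitNorm C (w * w') ≠ 1 →
      (C = B ∧ C' = B' ∨ C = B' ∧ C' = B) →
      ∀ g ∈ (X : Subgroup H), ∀ b, b ∈ C ↔ g * b * g⁻¹ ∈ C := by
    intro C C' hC hC' hCne hCC g hg
    let m : Subgroup H → Subgroup H := fun K => K.comap (MulAut.conj g⁻¹).toMonoidHom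
    have hm : ∀ K b, b ∈ K ↔ g * b * g⁻¹ ∈ m K := fun K b => by
      show b ∈ K ↔ g⁻¹ * (g * b * g⁻¹) * g⁻¹⁻¹ ∈ K
      rw [inv_inv, show g⁻¹ * (g * b * g⁻¹) * g = b by group]
    have hinj : ∀ K L, m K = m L → K = L := fun K L h => SetLike.ext fun b => by
      rw [hm K b, h, ← hm L b]
    have hcase : ∀ K, IsHyper K A → orbitNorm K (w * w') ≠ 1 → m K = C ∨ m K = C' := by
      intro K hK hKne
      rcases hCC with ⟨rfl, rfl⟩ | ⟨rfl, rfl⟩
      · exact (himg g hg K hK hKne _ (hm K)).2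
      · exact (himg g hg K hK hKne _ (hm K)).2.symm
    rcases hcase C hC hCne with h | h
    · exact fun b => by conv_rhs => rw [← h]
                        exact hm C b
    exfalso
    -- a swap would have even order
    have hC'ne : orbitNorm C' (w * w') ≠ 1 := by
      rcases hCC with ⟨rfl, rfl⟩ | ⟨rfl, rfl⟩ <;> assumption
    have hne' : C' ≠ C := by
      rcases hCC with ⟨rfl, rfl⟩ | ⟨rfl, rfl⟩
      exacts [Ne.symm hBB, hBB]
    have hback : m C' = C := (hcase C' hC' hC'ne).resolve_right fun h' =>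
      hne' (hinj C' C (h'.trans h.symm))
    have hiter : ∀ n : ℕ, ∀ b, b ∈ C ↔ g ^ n * b * (g ^ n)⁻¹ ∈ (if Even n then C else C') := by
      intro n
      induction n with
      | zero => simp
      | succ n ih =>
        intro b
        rw [ih b]
        by_cases hn : Even n
        · rw [if_pos hn, if_neg (by simpa [Nat.even_add_one] using hn)]
          conv_rhs => rw [← h]
          rw [hm C (g ^ n * b * (g ^ n)⁻¹), pow_succ']
          simp [mul_assoc]
        · rw [if_neg hn, if_pos (by simpa [Nat.even_add_one] using hn)]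
          conv_rhs => rw [← hback]
          rw [hm C' (g ^ n * b * (g ^ n)⁻¹), pow_succ']
          simp [mul_assoc]
    have hπodd : ¬ Even π := fun he => hodd ((Nat.Prime.even_iff hd.prime).1 he)
    refine hne' (SetLike.ext fun b => ?_)
    have := hiter π b
    rw [hd.pow_eq_one hg, if_neg hπodd] at this
    simpa using this.symm
  -- hence the vectors of the components are fixed
  have hfix : ∀ g ∈ (X : Subgroup H), g • w = w ∧ g • w' = w' := by
    intro g hg
    constructor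
    · have h3 := (himg g hg B hB h1 B (hstab B B' hB hB' h1 (Or.inl ⟨rfl, rfl⟩) g hg)).1
      rw [e1, smul_pow'] at h3
      exact div_eq_one.1 (eq_one_of_pow_card ℓ (hA.mono hB.1.le).isPGroup hℓ
        (by rw [div_pow, ← h3, div_self']))
    · have h3 := (himg g hg B' hB' h2 B' (hstab B' B hB' hB h2 (Or.inr ⟨rfl, rfl⟩) g hg)).1
      rw [e2, smul_pow'] at h3
      exact div_eq_one.1 (eq_one_of_pow_card ℓ (hA.mono hB'.1.le).isPGroup hℓ
        (by rw [div_pow, ← h3, div_self']))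
  obtain ⟨Y, hY, hYn⟩ := hd.fix w hv
  obtain ⟨Y', hY', hY'n⟩ := hd.fix w' hv'
  have eY : X = Y := hd.uniq hYn fun g hg => (hfix g hg).1
  have eY' : X = Y' := hd.uniq hY'n fun g hg => (hfix g hg).2
  subst eY; subst eY'
  have hXA : ∀ g ∈ (X : Subgroup H), ∀ a ∈ A, Commute g a := by
    intro g hg a ha
    have hle : A ≤ Subgroup.centralizer {g} := by
      rw [← hB.sup_eq hB' hBB]
      refine sup_le (fun b hb => ?_) fun b hb => ?_
      · exact Subgroup.mem_centralizer_singleton_iff.2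
          (hd.commute_of_fix (Fact.out : ℓ.Prime) hℓπ hA.isPGroup hYn hg (hB.1.le hb) (hwB b hb)).eq.symm
      · exact Subgroup.mem_centralizer_singleton_iff.2
          (hd.commute_of_fix (Fact.out : ℓ.Prime) hℓπ hA.isPGroup hY'n hg (hB'.1.le hb) (hwB' b hb)).eq.symm
    exact (Subgroup.mem_centralizer_singleton_iff.1 (hle ha)).symm
  haveI := Fact.mk hd.prime
  refine hd.false_of_central hA hℓ hfree hnc fun Z g hg a ha => ?_
  obtain ⟨k, hk⟩ := MulAction.exists_smul_eq H X Z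
  rw [← hk, Sylow.coe_subgroup_smul, Subgroup.mem_pointwise_smul_iff_inv_smul_mem] at hg
  have h5 := hXA _ hg _ (hAn.conj_mem a ha k⁻¹)
  simp only [MulAut.smul_def, ← map_inv, MulAut.conj_apply] at h5
  have h6 := h5.map (MulAut.conj k).toMonoidHom
  simpa [MulAut.conj_apply, mul_assoc] using h6

theorem false_of_normal_elem {ℓ : ℕ} [Fact ℓ.Prime] {A : Subgroup H} [A.Normal] (hA : IsElem ℓ A)
    (hnc : ∀ g ∈ A, ¬ A ≤ Subgroup.zpowers g) : False := by
  have hne : A ≠ ⊥ := fun h => hnc 1 (one_mem _) (by rw [h]; exact bot_le)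
  obtain ⟨hlp, hlr, -⟩ := D.ell_ne hA.isPGroup hne
  rcases eq_or_ne p 2 with h | h
  · exact D.false_of_odd D.hr (fun h' => D.hpr (h.trans h'.symm)) hA hnc hlr
  · exact D.false_of_odd D.hp h hA hnc hlp

/-- The cores are tight. -/
theorem tight (ℓ : ℕ) [Fact ℓ.Prime] : IsTight ℓ (pCore ℓ H) := by
  refine ⟨inferInstance, Constrained.isPGroup_pCore, fun A hAn hAU hAc => ?_⟩
  haveI := hAn
  have hAp : IsPGroup ℓ A := Constrained.isPGroup_pCore.to_le hAU
  obtain ⟨g, hg⟩ : ∃ g, A = Subgroup.zpowers g := by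
    refine exists_generator hAc hAp fun z hz a ha hzl hal hz1 => ?_
    by_contra haz
    let A1 : Subgroup H :=
      { carrier := {x | x ∈ A ∧ x ^ ℓ = 1}
        one_mem' := ⟨one_mem A, one_pow ℓ⟩
        mul_mem' := fun {x y} hx hy => ⟨mul_mem hx.1 hy.1, by
          rw [Commute.mul_pow (hAc x hx.1 y hy.1), hx.2, hy.2, one_mul]⟩
        inv_mem' := fun {x} hx => ⟨inv_mem hx.1, by rw [inv_pow, hx.2, inv_one]⟩ }
    haveI : A1.Normal := ⟨fun x hx k => ⟨hAn.conj_mem x hx.1 k, by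
      rw [conj_pow, hx.2, mul_one, mul_inv_cancel]⟩⟩
    have hA1 : IsElem ℓ A1 := ⟨fun x hx y hy => hAc x hx.1 y hy.1, fun x hx => hx.2⟩
    refine D.false_of_normal_elem hA1 fun g hg hle => haz ?_
    have hz' : z ∈ Subgroup.zpowers g := hle ⟨hz, hzl⟩
    have hgord : orderOf g ∣ ℓ := orderOf_dvd_of_pow_eq_one hg.2
    have heq : Subgroup.zpowers z = Subgroup.zpowers g := by
      refine Subgroup.eq_of_le_of_card_ge (Subgroup.zpowers_le.2 hz') ?_
      rw [Nat.card_zpowers, Nat.card_zpowers, orderOf_eq_prime hzl hz1]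
      exact Nat.le_of_dvd (Fact.out : ℓ.Prime).pos hgord
    rw [heq]; exact hle ⟨ha, hal⟩
  refine ⟨fun a ha => mem_zOf.2 ⟨hAU ha, fun u hu => ?_⟩, g, hg⟩
  by_contra hne
  -- then `u` survives in the abelianization
  haveI : IsMulCommutative A := ⟨⟨fun x y => Subtype.ext (hAc x x.2 y y.2)⟩⟩
  haveI : IsCyclic A := by rw [hg]; infer_instance
  let φ : H →* MulAut A := MulAut.conjNormal
  have hφ : commutator H ≤ φ.ker := by
    rw [commutator_def, Subgroup.commutator_le]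
    intro h₁ _ h₂ _
    rw [MonoidHom.mem_ker, map_commutatorElement, commutatorElement_eq_one_iff_mul_comm]
    refine MulEquiv.ext fun y => ?_
    obtain ⟨m, hm⟩ := MonoidHom.map_cyclic (φ h₁).toMonoidHom
    obtain ⟨n, hn⟩ := MonoidHom.map_cyclic (φ h₂).toMonoidHom
    show (φ h₁) ((φ h₂) y) = (φ h₂) ((φ h₁) y)
    simp only [MulEquiv.toMonoidHom_eq_coe, MonoidHom.coe_coe] at hm hn
    rw [hn, hm, hn, hm, ← zpow_mul, ← zpow_mul, mul_comm]
  have huc : u ∉ commutator H := fun h => hne (by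
    have h1 := congrArg (fun f : MulAut A => (f ⟨a, ha⟩ : H)) (MonoidHom.mem_ker.1 (hφ h))
    simp only [φ, MulAut.conjNormal_apply, MulAut.one_apply] at h1
    exact mul_inv_eq_iff_eq_mul.1 h1)
  have hℓd : ℓ ∣ (commutator H).index := by
    obtain ⟨k, hk⟩ := Constrained.isPGroup_pCore ⟨u, hu⟩
    have hk' : u ^ ℓ ^ k = 1 := by simpa using congrArg Subtype.val hk
    have h1 : ((u : H ⧸ commutator H)) ^ ℓ ^ k = 1 := by
      rw [← QuotientGroup.mk_pow, hk', QuotientGroup.mk_one]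
    obtain ⟨j, -, hj⟩ := (Nat.dvd_prime_pow Fact.out).1 (orderOf_dvd_of_pow_eq_one h1)
    have hj0 : j ≠ 0 := fun h0 => huc (by
      rw [h0, pow_zero, orderOf_eq_one_iff, QuotientGroup.eq_one_iff] at hj
      exact hj)
    rw [Subgroup.index_eq_card]
    exact ((dvd_pow_self ℓ hj0).trans (dvd_of_eq hj.symm)).trans (orderOf_dvd_natCard _)
  have hUne : pCore ℓ H ≠ ⊥ := fun h => hne (by
    rw [h] at hu; rw [Subgroup.mem_bot.1 hu, one_mul, mul_one])
  obtain ⟨hlp, hlr, -⟩ := D.ell_ne Constrained.isPGroup_pCore hUne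
  exact hne (D.hab ℓ Fact.out hlp hlr hℓd _ Constrained.isPGroup_pCore u hu a (hAU ha))

/-- Faithful linear character of a cyclic subgroup. -/
theorem exists_faithful {A : Subgroup H} {g : H} (hg : A = Subgroup.zpowers g) :
    ∃ μ : A →* ℂˣ, Function.Injective μ := by
  subst hg
  haveI : NeZero (orderOf g) := ⟨(orderOf_pos g).ne'⟩
  set ζ : ℂ := Complex.exp (2 * Real.pi * Complex.I / (orderOf g : ℂ))
  have hζ : IsPrimitiveRoot ζ (orderOf g) := Complex.isPrimitiveRoot_exp _ (orderOf_pos g).ne'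
  let g0 : Subgroup.zpowers g := ⟨g, Subgroup.mem_zpowers g⟩
  have hgen : ∀ y : Subgroup.zpowers g, y ∈ Subgroup.zpowers g0 := by
    rintro ⟨y, n, rfl⟩
    exact ⟨n, Subtype.ext (by simp [g0])⟩
  have hord : orderOf (hζ.isUnit (orderOf_pos g).ne').unit = orderOf g0 := by
    rw [← orderOf_units, IsUnit.unit_spec, ← hζ.eq_orderOf, ← Subgroup.orderOf_coe]
  refine ⟨monoidHomOfForallMemZpowers hgen hord.dvd, ?_⟩
  rw [injective_iff_map_eq_one]
  intro y hy
  obtain ⟨n, rfl⟩ := hgen y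
  simp only [map_zpow, monoidHomOfForallMemZpowers_apply_gen] at hy
  rw [← orderOf_dvd_iff_zpow_eq_one, hord] at hy
  exact orderOf_dvd_iff_zpow_eq_one.1 hy

/-- A Sylow subgroup that does not centralize a normal subgroup: none does. -/
theorem moves_all {π : ℕ} (hd : PrimeData H V π) {U : Subgroup H} [hU : U.Normal] {X : Sylow π H}
    {x u : H} (hx : x ∈ (X : Subgroup H)) (hu : u ∈ U) (hne : ¬ Commute x u) (Y : Sylow π H) :
    ∃ y ∈ (Y : Subgroup H), ∃ v ∈ U, ¬ Commute y v := by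
  haveI := Fact.mk hd.prime
  obtain ⟨k, hk⟩ := MulAction.exists_smul_eq H X Y
  refine ⟨k * x * k⁻¹, ?_, k * u * k⁻¹, hU.conj_mem u hu k, fun h => hne ?_⟩
  · rw [← hk]
    exact Subgroup.smul_mem_pointwise_smul x (MulAut.conj k) _ hx
  · have h6 := h.map (MulAut.conj k⁻¹).toMonoidHom
    simpa [MulAut.conj_apply, mul_assoc] using h6

/-- A faithful character of a cyclic normal subgroup is moved. -/
theorem moves_faithful {π : ℕ} (hd : PrimeData H V π) {U : Subgroup H} [hU : U.Normal]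
    {μ : U →* ℂˣ} (hμ : Function.Injective μ) {X : Sylow π H} {x u : H}
    (hx : x ∈ (X : Subgroup H)) (hu : u ∈ U) (hne : ¬ Commute x u) (Y : Sylow π H) :
    ∃ y ∈ (Y : Subgroup H), ∃ n : U, μ ⟨y * n * y⁻¹, hU.conj_mem n n.2 y⟩ ≠ μ n := by
  obtain ⟨y, hy, v, hv, hyv⟩ := D.moves_all hd hx hu hne Y
  refine ⟨y, hy, ⟨v, hv⟩, fun h => hyv ?_⟩
  exact (mul_inv_eq_iff_eq_mul.1 (congrArg Subtype.val (hμ h)) : y * v = v * y)

/-- One of the primes centralizes the centre of each core. -/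
theorem centre_central {ℓ : ℕ} [Fact ℓ.Prime] :
    (∀ X : Sylow p H, ∀ x ∈ (X : Subgroup H), ∀ z ∈ zOf (pCore ℓ H), Commute x z) ∨
    (∀ X : Sylow r H, ∀ x ∈ (X : Subgroup H), ∀ z ∈ zOf (pCore ℓ H), Commute x z) := by
  haveI := Fact.mk D.hp.prime
  haveI := Fact.mk D.hr.prime
  by_contra h
  push Not at h
  obtain ⟨⟨X, x, hx, z, hz, hxz⟩, X', x', hx', z', hz', hxz'⟩ := h
  haveI : (zOf (pCore ℓ H)).Normal := zOf_normal
  obtain ⟨g, hg⟩ := (D.tight ℓ).zOf_cyclic
  obtain ⟨μ, hμ⟩ := D.exists_faithful hg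
  obtain ⟨χ, hχ⟩ := exists_pr_degree D.hpr (zOf (pCore ℓ H)) μ
    (fun Y => D.moves_faithful D.hp hμ hx hz hxz Y) (fun Y => D.moves_faithful D.hr hμ hx' hz' hxz' Y)
  exact D.noadj χ hχ

/-- A noncyclic maximal elementary subgroup with one prime centralizing the centre. -/
theorem false_of_noncyclic {π : ℕ} (hd : PrimeData H V π) {ℓ : ℕ} [Fact ℓ.Prime] (hℓπ : ℓ ≠ π)
    {E : Subgroup H} (hE : IsMaxElem ℓ (pCore ℓ H) E) (hEbig : ¬ E ≤ zOf (pCore ℓ H))
    (hcent : ∀ X : Sylow π H, ∀ x ∈ (X : Subgroup H), (∀ e ∈ E, Commute x e) →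
      ∀ u ∈ pCore ℓ H, Commute x u)
    (hZ : ∀ X : Sylow π H, ∀ x ∈ (X : Subgroup H), ∀ z ∈ zOf (pCore ℓ H), Commute x z) : False := by
  classical
  haveI := Fact.mk hd.prime
  have hT := D.tight ℓ
  set U := pCore ℓ H
  have hUne : U ≠ ⊥ := fun h => hEbig ((hE.1.trans h.le).trans bot_le)
  obtain ⟨-, -, hls⟩ := D.ell_ne hT.isP hUne
  have hℓ := D.coprime_pow (Fact.out : ℓ.Prime) hls
  -- the socle of the centre
  let Z1 : Subgroup H :=
    { carrier := {z | z ∈ zOf U ∧ z ^ ℓ = 1}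
      one_mem' := ⟨one_mem _, one_pow ℓ⟩
      mul_mem' := fun {x y} hx hy => ⟨mul_mem hx.1 hy.1, by
        rw [(commute_zOf hx.1 hy.1.1).mul_pow, hx.2, hy.2, one_mul]⟩
      inv_mem' := fun {x} hx => ⟨inv_mem hx.1, by rw [inv_pow, hx.2, inv_one]⟩ }
  haveI : (zOf U).Normal := zOf_normal
  haveI : Z1.Normal := ⟨fun x hx k => ⟨(inferInstance : (zOf U).Normal).conj_mem x hx.1 k, by
    rw [conj_pow, hx.2, mul_one, mul_inv_cancel]⟩⟩
  have hZ1E : Z1 ≤ E := fun z hz => hE.2.2.1 z hz.1 hz.2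
  have hZ1ne : Z1 ≠ ⊥ := by
    intro h
    -- otherwise `U` would be trivial
    haveI : Nontrivial U := (Subgroup.nontrivial_iff_ne_bot U).2 hUne
    haveI := hT.isP.center_nontrivial
    obtain ⟨⟨z, hz⟩, hz1⟩ := exists_ne (1 : Subgroup.center U)
    have hzZ : (z : H) ∈ zOf U := mem_zOf.2 ⟨z.2, fun u hu =>
      congrArg Subtype.val (Subgroup.mem_center_iff.1 hz ⟨u, hu⟩)⟩
    obtain ⟨k, hk⟩ := IsPGroup.iff_orderOf.1 hT.isP z
    rw [← Subgroup.orderOf_coe] at hk
    rcases k with _ | k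
    · exact hz1 (Subtype.ext (Subtype.ext (orderOf_eq_one_iff.1 (by simpa using hk))))
    · have hmem : (z : H) ^ ℓ ^ k ∈ Z1 := ⟨pow_mem hzZ _, by
        rw [← pow_mul, ← pow_succ, ← hk, pow_orderOf_eq_one]⟩
      rw [h, Subgroup.mem_bot, ← orderOf_dvd_iff_pow_eq_one, hk,
        Nat.pow_dvd_pow_iff_le_right (Fact.out : ℓ.Prime).one_lt] at hmem
      omega
  have hfree : ∀ v : V, (∀ a ∈ E, a • v = v) → v = 1 := D.free hZ1ne hZ1E
  obtain ⟨v, hv⟩ := exists_ne (1 : V)
  obtain ⟨B, hB, hBv⟩ := exists_hyper hE.2.1 hℓ hfree hv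
  obtain ⟨X, hX, hXn⟩ := hd.fix _ hBv
  obtain ⟨z, hz, hzB⟩ : ∃ z ∈ Z1, z ∉ B := by
    by_contra h
    push Not at h
    exact hBv (D.free hZ1ne h _ fun b hb => smul_orbitNorm hb v)
  have hXE : ∀ x ∈ (X : Subgroup H), ∀ e ∈ E, Commute x e := by
    intro x hx e he
    have hle : E ≤ Subgroup.centralizer {x} := by
      refine (hB.2 z (hZ1E hz) hzB).trans (sup_le (fun b hb => ?_) (Subgroup.zpowers_le.2 ?_))
      · exact Subgroup.mem_centralizer_singleton_iff.2 (hd.commute_of_fix (Fact.out : ℓ.Prime) hℓπ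
          hT.isP hXn hx (hE.1 (hB.1.le hb)) (smul_orbitNorm hb v)).eq.symm
      · exact Subgroup.mem_centralizer_singleton_iff.2 (hZ X x hx z hz.1).eq.symm
    exact (Subgroup.mem_centralizer_singleton_iff.1 (hle he)).symm
  refine hd.false_of_central hE.2.1 hℓ hfree (fun g hg hle => hEbig ?_) fun Y y hy a ha => ?_
  · -- a cyclic one lies in the centre
    obtain ⟨z0, hz0, hz01⟩ := SetLike.exists_of_lt (bot_lt_iff_ne_bot.2 hZ1ne)
    rw [Subgroup.mem_bot] at hz01
    have heq : Subgroup.zpowers z0 = Subgroup.zpowers g := by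
      refine Subgroup.eq_of_le_of_card_ge (Subgroup.zpowers_le.2 (hle (hZ1E hz0))) ?_
      rw [Nat.card_zpowers, Nat.card_zpowers, orderOf_eq_prime hz0.2 hz01]
      exact Nat.le_of_dvd (Fact.out : ℓ.Prime).pos (orderOf_dvd_of_pow_eq_one (hE.2.1.2 g hg))
    exact (hle.trans heq.ge).trans (Subgroup.zpowers_le.2 hz0.1)
  · by_contra hne
    obtain ⟨x, hx, u, hu, hxu⟩ := D.moves_all (U := U) hd hy (hE.1 ha) hne X
    exact hxu (hcent X x hx (hXE x hx) u hu)

/-- Each core is abelian, or exceptional with a small maximal elementary subgroup. -/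
theorem classify (ℓ : ℕ) [Fact ℓ.Prime] :
    (∀ a ∈ pCore ℓ H, ∀ b ∈ pCore ℓ H, a * b = b * a) ∨
    ((∃ a ∈ pCore ℓ H, ∃ b ∈ pCore ℓ H, a * b ≠ b * a) ∧ IsExc ℓ (pCore ℓ H) ∧
      ∃ E, IsMaxElem ℓ (pCore ℓ H) E ∧ E ≤ zOf (pCore ℓ H)) := by
  by_contra h
  push Not at h
  obtain ⟨hnc, h2⟩ := h
  have hT := D.tight ℓ
  obtain ⟨E, hE⟩ := exists_maxElem (ℓ := ℓ) (U := pCore ℓ H)
  have hUne : pCore ℓ H ≠ ⊥ := by
    intro h
    obtain ⟨a, ha, b, hb, hab⟩ := hnc
    rw [h, Subgroup.mem_bot] at ha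
    exact hab (by rw [ha, one_mul, mul_one])
  obtain ⟨hlp, hlr, -⟩ := D.ell_ne hT.isP hUne
  by_cases hexc : IsExc ℓ (pCore ℓ H)
  · have hbig : ¬ E ≤ zOf (pCore ℓ H) := h2 hnc hexc E hE
    -- the centre of order two is fixed by everything
    have hZ : ∀ {π : ℕ} (X : Sylow π H), ∀ x ∈ (X : Subgroup H),
        ∀ z ∈ zOf (pCore ℓ H), Commute x z := by
      intro π X x _ z hz
      haveI : (zOf (pCore ℓ H)).Normal := zOf_normal
      rcases eq_or_ne z 1 with rfl | hz1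
      · exact Commute.one_right x
      have hzc : x * z * x⁻¹ ∈ zOf (pCore ℓ H) :=
        (inferInstance : (zOf (pCore ℓ H)).Normal).conj_mem z hz x
      have := exc_unique hT hexc hE hzc hz (fun h => hz1 (conj_eq_one_iff.1 h)) hz1
      exact (mul_inv_eq_iff_eq_mul.1 this : x * z = z * x)
    have h23 : ∀ {π : ℕ}, PrimeData H V π → ℓ ≠ π → π ≠ 3 → False := fun {π} hd hl h3 =>
      D.false_of_noncyclic hd hl hE hbig (fun X x hx hxE => exc_centralizes hT hexc hE hd.prime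
        (by rw [← hexc.1]; exact hl.symm) h3 (hd.pow_eq_one hx) hxE) hZ
    rcases eq_or_ne p 3 with h3 | h3
    · exact h23 D.hr hlr fun h' => D.hpr (h3.trans h'.symm)
    · exact h23 D.hp hlp h3
  · have hbig : ¬ E ≤ zOf (pCore ℓ H) := fun h => by
      obtain ⟨a, ha, b, hb, hab⟩ := hnc
      exact hab (hT.comm_of_small hexc hE h a ha b hb)
    have h23 : ∀ {π : ℕ}, PrimeData H V π → ℓ ≠ π →
        (∀ X : Sylow π H, ∀ x ∈ (X : Subgroup H), ∀ z ∈ zOf (pCore ℓ H), Commute x z) → False :=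
      fun {π} hd hl hZ => D.false_of_noncyclic hd hl hE hbig (fun X x hx hxE =>
        hT.centralizes hexc hE hd.prime hl.symm (hd.pow_eq_one hx) hxE (hZ X x hx)) hZ
    rcases D.centre_central (ℓ := ℓ) with h | h
    · exact h23 D.hp hlp h
    · exact h23 D.hr hlr h

/-- Each prime moves a core. -/
theorem exists_moved [Group.IsSolvable H] {π : ℕ} (hd : PrimeData H V π) :
    ∃ ℓ : ℕ, ℓ.Prime ∧ ∃ X : Sylow π H, ∃ x ∈ (X : Subgroup H), ∃ u ∈ pCore ℓ H, ¬ Commute x u := by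
  haveI := Fact.mk hd.prime
  by_contra h
  push Not at h
  obtain ⟨X⟩ : Nonempty (Sylow π H) := inferInstance
  obtain ⟨x, hx, hx1⟩ := hd.exists_ne_one X
  have hxC : x ∈ Subgroup.centralizer (fittingSubgroup H : Set H) := by
    have hle : fittingSubgroup H ≤ Subgroup.centralizer {x} := by
      rw [Constrained.fitting_eq_iSup_pCore]
      exact iSup₂_le fun q hq u hu =>
        Subgroup.mem_centralizer_singleton_iff.2 (h q hq X x hx u hu).eq.symm
    rw [Subgroup.mem_centralizer_iff]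
    exact fun u hu => Subgroup.mem_centralizer_singleton_iff.1 (hle hu)
  have hxF := Constrained.centralizer_fitting_le hxC
  have hFn : Group.IsNilpotent ↥(fittingSubgroup H) := Constrained.isNilpotent_fitting
  have hp : IsPGroup π (Subgroup.zpowers (⟨x, hxF⟩ : fittingSubgroup H)) := by
    refine IsPGroup.of_card_dvd_pow (n := 1) ?_
    rw [Nat.card_zpowers, pow_one]
    exact orderOf_dvd_of_pow_eq_one (Subtype.ext (by simpa using hd.pow_eq_one hx))
  obtain ⟨Q, hQ⟩ := hp.exists_le_sylow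
  have hxc : x ∈ pCore π H := Constrained.map_sylow_le_pCore inferInstance hFn Q
    ⟨⟨x, hxF⟩, hQ (Subgroup.mem_zpowers _), rfl⟩
  rw [D.normal_eq_bot hd Constrained.isPGroup_pCore, Subgroup.mem_bot] at hxc
  exact hx1 hxc

/-- Every Sylow subgroup moves a nontrivial character of an exceptional core it moves. -/
theorem moves_exc {π : ℕ} (hd : PrimeData H V π) {ℓ : ℕ} [Fact ℓ.Prime] (hπ2 : π ≠ 2)
    (hne : ∃ a ∈ pCore ℓ H, ∃ b ∈ pCore ℓ H, a * b ≠ b * a) (hexc : IsExc ℓ (pCore ℓ H))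
    {E : Subgroup H} (hE : IsMaxElem ℓ (pCore ℓ H) E) (hsmall : E ≤ zOf (pCore ℓ H))
    {μ : pCore ℓ H →* ℂˣ} (hμ : μ ≠ 1) {X : Sylow π H} {x u : H}
    (hx : x ∈ (X : Subgroup H)) (hu : u ∈ pCore ℓ H) (hxu : ¬ Commute x u) (Y : Sylow π H) :
    ∃ y ∈ (Y : Subgroup H), ∃ n : pCore ℓ H,
      μ ⟨y * n * y⁻¹, (inferInstance : (pCore ℓ H).Normal).conj_mem n n.2 y⟩ ≠ μ n := by
  by_contra h
  push Not at h
  obtain ⟨y, hy, v, hv, hyv⟩ := D.moves_all hd hx hu hxu Y
  have hT := D.tight ℓ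
  refine hμ (exc_fixed_linear hT hexc hE hsmall hd.prime hπ2 (hd.pow_eq_one hy) (fun e he => ?_)
    (fun hall => hyv (hall v hv)) hne μ fun n m hm => ?_)
  · rcases eq_or_ne e 1 with rfl | he1
    · exact Commute.one_right y
    haveI : (zOf (pCore ℓ H)).Normal := zOf_normal
    have hzc : y * e * y⁻¹ ∈ zOf (pCore ℓ H) :=
      (inferInstance : (zOf (pCore ℓ H)).Normal).conj_mem e (hsmall he) y
    have := exc_unique hT hexc hE hzc (hsmall he) (fun h => he1 (conj_eq_one_iff.1 h)) he1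
    exact (mul_inv_eq_iff_eq_mul.1 this : y * e = e * y)
  · rw [← h y hy n]
    exact congrArg μ (Subtype.ext hm)

theorem false [Group.IsSolvable H] : False := by
  haveI := Fact.mk D.hp.prime
  haveI := Fact.mk D.hr.prime
  -- call `σ` a prime other than three
  suffices key : ∀ {π σ : ℕ}, PrimeData H V π → PrimeData H V σ → π ≠ σ → σ ≠ 3 →
      (∀ χ : IrrCharacter H, ¬ π * σ ∣ charDegree (χ : H → ℂ)) → False by
    rcases eq_or_ne r 3 with h3 | h3
    · exact key D.hr D.hp D.hpr.symm (fun h => D.hpr (h.trans h3.symm))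
        (fun χ h => D.noadj χ (mul_comm r p ▸ h))
    · exact key D.hp D.hr D.hpr h3 D.noadj
  intro π σ hπ hσ hne hσ3 hno
  haveI := Fact.mk hπ.prime
  haveI := Fact.mk hσ.prime
  obtain ⟨m, hm, Y, y, hy, w, hw, hyw⟩ := D.exists_moved hσ
  haveI := Fact.mk hm
  have hTm := D.tight m
  have hσm : m ≠ σ := by
    rintro rfl
    refine hyw ?_
    rw [D.normal_eq_bot hσ Constrained.isPGroup_pCore, Subgroup.mem_bot] at hw
    rw [hw]; exact Commute.one_right y
  -- the core moved by `σ` is cyclic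
  have hcm : ∀ a ∈ pCore m H, ∀ b ∈ pCore m H, a * b = b * a := by
    refine (D.classify m).resolve_right ?_
    rintro ⟨-, hexc, E, hE, hsmall⟩
    refine hyw (exc_centralizes hTm hexc hE hσ.prime (by rw [← hexc.1]; exact hσm.symm) hσ3
      (hσ.pow_eq_one hy) (fun e he => ?_) w hw)
    rcases eq_or_ne e 1 with rfl | he1
    · exact Commute.one_right y
    haveI : (zOf (pCore m H)).Normal := zOf_normal
    have hzc : y * e * y⁻¹ ∈ zOf (pCore m H) :=
      (inferInstance : (zOf (pCore m H)).Normal).conj_mem e (hsmall he) y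
    have := exc_unique hTm hexc hE hzc (hsmall he) (fun h => he1 (conj_eq_one_iff.1 h)) he1
    exact (mul_inv_eq_iff_eq_mul.1 this : y * e = e * y)
  obtain ⟨g, hg⟩ := (hTm.central _ inferInstance le_rfl hcm).2
  obtain ⟨ν, hν⟩ := D.exists_faithful hg
  obtain ⟨ℓ, hℓ, X, x, hx, u, hu, hxu⟩ := D.exists_moved hπ
  haveI := Fact.mk hℓ
  rcases eq_or_ne ℓ m with rfl | hlm
  · obtain ⟨χ, hχ⟩ := exists_pr_degree hne (pCore ℓ H) ν
      (fun Z => D.moves_faithful hπ hν hx hu hxu Z) (fun Z => D.moves_faithful hσ hν hy hw hyw Z)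
    exact hno χ hχ
  have hdis : Disjoint (pCore ℓ H) (pCore m H) :=
    IsPGroup.disjoint_of_ne ℓ m hlm _ _ Constrained.isPGroup_pCore Constrained.isPGroup_pCore
  rcases D.classify ℓ with hcl | ⟨hnc, hexc, E, hE, hsmall⟩
  · obtain ⟨g', hg'⟩ := ((D.tight ℓ).central _ inferInstance le_rfl hcl).2
    obtain ⟨μ, hμ⟩ := D.exists_faithful hg'
    obtain ⟨χ, hχ⟩ := exists_pr_degree_two hne (pCore ℓ H) (pCore m H) hdis μ ν
      (fun Z => D.moves_faithful hπ hμ hx hu hxu Z) (fun Z => D.moves_faithful hσ hν hy hw hyw Z)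
    exact hno χ hχ
  · have hπ2 : π ≠ 2 := by
      rintro rfl
      refine hxu ?_
      have hl2 := hexc.1
      subst hl2
      rw [D.normal_eq_bot hπ Constrained.isPGroup_pCore, Subgroup.mem_bot] at hu
      rw [hu]; exact Commute.one_right x
    haveI : Nontrivial (pCore ℓ H) := (Subgroup.nontrivial_iff_ne_bot _).2 fun h => hxu (by
      rw [h, Subgroup.mem_bot] at hu; rw [hu]; exact Commute.one_right x)
    haveI : Group.IsNilpotent (pCore ℓ H) := (D.tight ℓ).isP.isNilpotent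
    have hlt : commutator (pCore ℓ H) < ⊤ := Group.IsSolvable.commutator_lt_top_of_nontrivial _
    obtain ⟨t, -, ht⟩ := SetLike.exists_of_lt hlt
    obtain ⟨φ, hφ⟩ := CommGroup.exists_apply_ne_one_of_hasEnoughRootsOfUnity
      (Abelianization (pCore ℓ H)) ℂ (a := Abelianization.of t)
      (fun h => ht (by rw [← Abelianization.ker_of, MonoidHom.mem_ker, h]))
    let μ : pCore ℓ H →* ℂˣ := φ.comp Abelianization.of
    have hμ : μ ≠ 1 := fun h => hφ (DFunLike.congr_fun h t)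
    obtain ⟨χ, hχ⟩ := exists_pr_degree_two hne (pCore ℓ H) (pCore m H) hdis μ ν
      (fun Z => D.moves_exc hπ hπ2 hnc hexc hE hsmall hμ hx hu hxu Z)
      (fun Z => D.moves_faithful hσ hν hy hw hyw Z)
    exact hno χ hχ

end ModuleData

end CfsgLib.Palfy
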