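import Cfsg.Agent.Palfy.Data
import Cfsg.Agent.Palfy.Module
import Cfsg.Agent.Palfy.Commuting

/-!
The final contradiction for three pairwise non-adjacent primes, once every nontrivial linear
character of the minimal normal subgroup has the Sylow data for two of them.
-/

set_option autoImplicit false
set_option linter.style.haveILetI false
set_option linter.unusedSectionVars false

namespace CfsgLib.Palfy

open Cfsg CfsgLib.Chars CfsgLib.Chars.Induced
open scoped commutatorElement

variable {G : Type*} [Group G] [Finite G]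

/-- The first prime does not divide a degree together with the second. -/
def NoAdj (G : Type*) [Group G] (p q : ℕ) : Prop :=
  ∀ χ : IrrCharacter G, p ∣ charDegree (χ : G → ℂ) → ¬ q ∣ charDegree (χ : G → ℂ)

theorem NoAdj.symm {p q : ℕ} (h : NoAdj G p q) : NoAdj G q p := fun χ h1 h2 => h χ h2 h1

/-- The prime divides some degree. -/
def HasDeg (G : Type*) [Group G] (p : ℕ) : Prop :=
  ∃ χ : IrrCharacter G, p ∣ charDegree (χ : G → ℂ)

/-- Sylow subgroups with normal image in a quotient. -/
theorem sylow_le_sup {π : ℕ} [Fact π.Prime] {M : Subgroup G} [M.Normal] {X₀ : Sylow π G}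
    (hn : ((X₀ : Subgroup G) ⊔ M).Normal) (X Y : Sylow π G) :
    (X : Subgroup G) ≤ (Y : Subgroup G) ⊔ M := by
  have hmk := QuotientGroup.mk'_surjective M
  have hbar : ((X₀.mapSurjective hmk : Sylow π (G ⧸ M)) : Subgroup (G ⧸ M)).Normal := by
    have h1 := hn.map (QuotientGroup.mk' M) hmk
    rwa [Subgroup.map_sup, QuotientGroup.map_mk'_self, sup_bot_eq] at h1
  letI := Sylow.unique_of_normal _ hbar
  have he : (X : Subgroup G).map (QuotientGroup.mk' M) =
      (Y : Subgroup G).map (QuotientGroup.mk' M) :=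
    congrArg Sylow.toSubgroup (Subsingleton.elim (X.mapSurjective hmk) (Y.mapSurjective hmk))
  have h2 := congrArg (Subgroup.comap (QuotientGroup.mk' M)) he
  rw [Subgroup.comap_map_eq, Subgroup.comap_map_eq, QuotientGroup.ker_mk'] at h2
  exact le_sup_left.trans h2.le

/-- A Sylow subgroup normalized by `M` and with `X ⊔ M` normal is normal. -/
theorem sylow_normal_of_sup {π : ℕ} [Fact π.Prime] {M : Subgroup G} {X : Sylow π G}
    (hn : ((X : Subgroup G) ⊔ M).Normal)
    (hM : M ≤ Subgroup.normalizer ((X : Subgroup G) : Set G)) : (X : Subgroup G).Normal := by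
  refine ⟨fun x hx g => ?_⟩
  have hle : ((g • X : Sylow π G) : Subgroup G) ≤ Subgroup.normalizer ((X : Subgroup G) : Set G) := by
    intro z hz
    rw [Sylow.coe_subgroup_smul, Subgroup.mem_pointwise_smul_iff_inv_smul_mem] at hz
    refine (sup_le Subgroup.le_normalizer hM : (X : Subgroup G) ⊔ M ≤ _) ?_
    have := hn.conj_mem _ (Subgroup.mem_sup_left hz) g
    simpa [MulAut.smul_def, mul_assoc] using this
  have hp := (g • X).2.to_sup_of_normal_right' X.2 hle
  have he : g • X = X := Sylow.ext (((g • X).3 hp le_sup_left).symm.trans (X.3 hp le_sup_right))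
  rw [← he, Sylow.coe_subgroup_smul]
  exact Subgroup.smul_mem_pointwise_smul x (MulAut.conj g) _ hx

/-- A Sylow subgroup inside a product with a normal subgroup and a group of coprime order. -/
theorem le_of_le_sup {π q : ℕ} [Fact π.Prime] [Fact q.Prime] (h : π ≠ q) {M A B : Subgroup G}
    [M.Normal] (hA : IsPGroup π A) (hB : IsPGroup q B) (hle : A ≤ B ⊔ M) : A ≤ M := by
  have h1 : A.map (QuotientGroup.mk' M) ≤ B.map (QuotientGroup.mk' M) := by
    refine (Subgroup.map_mono hle).trans ?_
    rw [Subgroup.map_sup, QuotientGroup.map_mk'_self, sup_bot_eq]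
  have h2 : A.map (QuotientGroup.mk' M) = ⊥ :=
    (IsPGroup.disjoint_of_ne π q h _ _ (hA.map _) (hB.map _)).eq_bot_of_le h1
  intro a ha
  rw [← QuotientGroup.eq_one_iff]
  exact Subgroup.mem_bot.1 (h2 ▸ Subgroup.mem_map_of_mem _ ha)

/-- An element centralizing `N` fixes its linear characters. -/
theorem dualRep_eq_one {N : Subgroup G} [N.Normal] {g : G}
    (hg : g ∈ Subgroup.centralizer (N : Set G)) : dualRep N g = 1 := by
  refine MulEquiv.ext fun l => MonoidHom.ext fun n => ?_
  rw [dualRep_apply]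
  refine congrArg l (Subtype.ext ?_)
  show g⁻¹ * (n : G) * g = n
  rw [mul_assoc, Subgroup.mem_centralizer_iff.1 hg n n.2, inv_mul_cancel_left]

/-- The linear characters of an abelian normal subgroup detect its centralizer. -/
theorem mem_centralizer_of_dualRep {N : Subgroup G} [hN : N.Normal] [IsMulCommutative N] {g : G}
    (hg : dualRep N g = 1) : g ∈ Subgroup.centralizer (N : Set G) := by
  rw [Subgroup.mem_centralizer_iff]
  intro n hn
  by_contra hne
  letI : CommGroup N := { (inferInstance : Group N) with mul_comm := mul_comm' }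
  let m : N := ⟨g⁻¹ * n * g, by simpa using hN.conj_mem n hn g⁻¹⟩
  obtain ⟨l, hl⟩ := CommGroup.exists_apply_ne_one_of_hasEnoughRootsOfUnity N ℂ
    (a := m * (⟨n, hn⟩ : N)⁻¹) (fun h => hne (by
      have h1 := congrArg Subtype.val (mul_inv_eq_one.1 h)
      simp only [m] at h1
      calc n * g = g * (g⁻¹ * n * g) := by group
        _ = g * n := by rw [h1]))
  apply hl
  have h2 := DFunLike.congr_fun (DFunLike.congr_fun hg l) ⟨n, hn⟩
  rw [MulAut.one_apply, dualRep_apply] at h2
  rw [map_mul, map_inv]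
  exact mul_inv_eq_one.2 h2

/-- The induced group acts on the linear characters. -/
noncomputable instance dualRangeAction (N : Subgroup G) [N.Normal] :
    MulDistribMulAction (dualRep N).range (N →* ℂˣ) where
  smul h v := (h : MulAut (N →* ℂˣ)) v
  one_smul _ := rfl
  mul_smul _ _ _ := rfl
  smul_one h := map_one (h : MulAut (N →* ℂˣ))
  smul_mul h v w := map_mul (h : MulAut (N →* ℂˣ)) v w

instance dualRange_faithful (N : Subgroup G) [N.Normal] :
    FaithfulSMul (dualRep N).range (N →* ℂˣ) :=
  ⟨fun h => Subtype.ext (MulEquiv.ext h)⟩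

/-- The situation left by the reduction: `N` minimal normal and abelian, every nontrivial linear
character of `N` gives Sylow subgroups for `p` and `r` which are normal and abelian modulo `M`. -/
structure Reduced (G : Type*) [Group G] [Finite G] (p q r : ℕ) (N M : Subgroup G)
    (Q : Sylow q G) : Prop where
  hp : p.Prime
  hq : q.Prime
  hr : r.Prime
  hpq : p ≠ q
  hqr : q ≠ r
  hpr : p ≠ r
  npr : NoAdj G p r
  nNormal : N.Normal
  mNormal : M.Normal
  ne : N ≠ ⊥
  min : ∀ L : Subgroup G, L.Normal → L ≤ N → L = ⊥ ∨ L = N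
  comm : IsMulCommutative N
  expo : ∃ s : ℕ, s.Prime ∧ ∀ n ∈ N, n ^ s = 1
  mC : M ≤ Subgroup.centralizer (N : Set G)
  supNormal : ((Q : Subgroup G) ⊔ M).Normal
  qComm : ∀ a ∈ (Q : Subgroup G), ∀ b ∈ (Q : Subgroup G), ⁅a, b⁆ ∈ M
  moveP : ∀ X : Sylow p G, ¬ (X : Subgroup G) ≤ Subgroup.centralizer (N : Set G)
  moveR : ∀ X : Sylow r G, ¬ (X : Subgroup G) ≤ Subgroup.centralizer (N : Set G)
  dataP : ∀ l : N →* ℂˣ, l ≠ 1 → ∃ X : Sylow p G,
    (∀ x ∈ (X : Subgroup G), dualRep N x l = l) ∧
    ∀ t : G, dualRep N t l = l → ∀ x ∈ (X : Subgroup G), t * x * t⁻¹ ∈ (X : Subgroup G) ⊔ M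
  dataR : ∀ l : N →* ℂˣ, l ≠ 1 → ∃ X : Sylow r G,
    (∀ x ∈ (X : Subgroup G), dualRep N x l = l) ∧
    ∀ t : G, dualRep N t l = l → ∀ x ∈ (X : Subgroup G), t * x * t⁻¹ ∈ (X : Subgroup G) ⊔ M
  derived : ∀ ℓ : ℕ, ℓ.Prime → ℓ ∣ (commutator G).index → ℓ = p ∨ ℓ = q ∨ ℓ = r
  cutP : p ∣ (commutator G).index → ∃ P0 : Subgroup G, P0.Normal ∧ IsPGroup p P0 ∧
    ∀ X : Sylow p G, Nat.card (X : Subgroup G) = p * Nat.card P0
  cutR : r ∣ (commutator G).index → ∃ R0 : Subgroup G, R0.Normal ∧ IsPGroup r R0 ∧
    ∀ X : Sylow r G, Nat.card (X : Subgroup G) = r * Nat.card R0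

namespace Reduced

variable {p q r : ℕ} {N M : Subgroup G} {Q : Sylow q G}

theorem swap (D : Reduced G p q r N M Q) : Reduced G r q p N M Q :=
  { hp := D.hr, hq := D.hq, hr := D.hp, hpq := D.hqr.symm, hqr := D.hpq.symm, hpr := D.hpr.symm
    npr := D.npr.symm, nNormal := D.nNormal, mNormal := D.mNormal, ne := D.ne, min := D.min
    comm := D.comm, expo := D.expo, mC := D.mC, supNormal := D.supNormal, qComm := D.qComm
    moveP := D.moveR, moveR := D.moveP, dataP := D.dataR, dataR := D.dataP
    derived := fun ℓ h1 h2 => by rcases D.derived ℓ h1 h2 with h | h | h <;> tauto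
    cutP := D.cutR, cutR := D.cutP }

theorem exists_ne_one (D : Reduced G p q r N M Q) : ∃ l : N →* ℂˣ, l ≠ 1 := by
  haveI := D.nNormal
  haveI := D.comm
  letI : CommGroup N := { (inferInstance : Group N) with mul_comm := mul_comm' }
  obtain ⟨n, hn, hn1⟩ := (Subgroup.bot_or_exists_ne_one N).resolve_left D.ne
  obtain ⟨l, hl⟩ := CommGroup.exists_apply_ne_one_of_hasEnoughRootsOfUnity N ℂ
    (a := (⟨n, hn⟩ : N)) (fun h => hn1 (congrArg Subtype.val h))
  exact ⟨l, fun h => hl (by rw [h]; rfl)⟩

/-- The commuting case. -/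
theorem false_of_not_dvd [Group.IsSolvable G] (D : Reduced G p q r N M Q)
    (hr' : ¬ r ∣ (commutator G).index) : False := by
  classical
  haveI := Fact.mk D.hp
  haveI := Fact.mk D.hq
  haveI := Fact.mk D.hr
  haveI := D.nNormal
  haveI := D.mNormal
  haveI := D.supNormal
  obtain ⟨l, hl⟩ := D.exists_ne_one
  obtain ⟨P, hP, hPn⟩ := D.dataP l hl
  obtain ⟨R, hR, hRn⟩ := D.dataR l hl
  set K := (Q : Subgroup G) ⊔ M with hK
  have hcM : ∀ x ∈ (P : Subgroup G), ∀ y ∈ (R : Subgroup G), ⁅x, y⁆ ∈ M := by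
    intro x hx y hy
    have h1 : ⁅x, y⁆ ∈ (P : Subgroup G) ⊔ M := by
      rw [show ⁅x, y⁆ = x * (y * x⁻¹ * y⁻¹) by simp only [commutatorElement_def]; group]
      exact mul_mem (Subgroup.mem_sup_left hx) (hPn y (hR y hy) _ (inv_mem hx))
    have h2 : ⁅x, y⁆ ∈ (R : Subgroup G) ⊔ M := by
      rw [show ⁅x, y⁆ = (x * y * x⁻¹) * y⁻¹ by simp only [commutatorElement_def]]
      exact mul_mem (hRn x (hP x hx) _ hy) (inv_mem (Subgroup.mem_sup_left hy))
    have h3 := Subgroup.mem_map_of_mem (QuotientGroup.mk' M) h1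
    have h4 := Subgroup.mem_map_of_mem (QuotientGroup.mk' M) h2
    rw [Subgroup.map_sup, QuotientGroup.map_mk'_self, sup_bot_eq] at h3 h4
    rw [← QuotientGroup.eq_one_iff]
    exact Subgroup.disjoint_def.1
      (IsPGroup.disjoint_of_ne p r D.hpr _ _ (P.2.map _) (R.2.map _)) h3 h4
  have hmk := QuotientGroup.mk'_surjective K
  have hc : ∀ x ∈ ((P.mapSurjective hmk : Sylow p (G ⧸ K)) : Subgroup (G ⧸ K)),
      ∀ y ∈ ((R.mapSurjective hmk : Sylow r (G ⧸ K)) : Subgroup (G ⧸ K)), Commute x y := by
    rintro _ ⟨x, hx, rfl⟩ _ ⟨y, hy, rfl⟩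
    refine commutatorElement_eq_one_iff_mul_comm.1 ?_
    rw [← map_commutatorElement, QuotientGroup.mk'_apply, QuotientGroup.eq_one_iff]
    exact Subgroup.mem_sup_right (hcM x hx y hy)
  have hab : ∀ ℓ : ℕ, ℓ.Prime → ℓ ∣ (commutator (G ⧸ K)).index → ℓ = p := by
    intro ℓ hℓ hd
    have h1 : (commutator (G ⧸ K)).index ∣ (commutator G).index := by
      have h := (commutator G).index_map_dvd hmk
      rwa [commutator_def, Subgroup.map_commutator, Subgroup.map_top_of_surjective _ hmk] at h
    rcases D.derived ℓ hℓ (hd.trans h1) with h | h | h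
    · exact h
    · exfalso
      subst h
      have h2 : ℓ ∣ K.index := by
        rw [Subgroup.index_eq_card]
        exact hd.trans (Subgroup.index_dvd_card _)
      exact Q.not_dvd_index (h2.trans (Subgroup.index_dvd_of_le le_sup_left))
    · exact absurd (h ▸ hd.trans h1) hr'
  have hrK := not_dvd_of_commuting (p := p) (r := r) D.hpr (P.mapSurjective hmk)
    (R.mapSurjective hmk) hc hab
  rw [← Subgroup.index_eq_card] at hrK
  obtain ⟨X, hX⟩ := exists_sylow_le_of_index K hrK
  exact D.moveR X ((le_of_le_sup D.hqr.symm X.2 Q.2 hX).trans D.mC)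

/-- The Sylow images in the group induced on the linear characters have prime order. -/
theorem card_image (D : Reduced G p q r N M Q) [N.Normal] (hp' : p ∣ (commutator G).index)
    (Xb : Sylow p (dualRep N).range) : Nat.card (Xb : Subgroup (dualRep N).range) = p := by
  classical
  haveI := Fact.mk D.hp
  haveI := D.comm
  obtain ⟨P0, hP0n, hP0p, hcard⟩ := D.cutP hp'
  haveI := hP0n
  set f := (dualRep N).rangeRestrict with hf
  have hsurj : Function.Surjective f := MonoidHom.rangeRestrict_surjective _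
  obtain ⟨X, rfl⟩ := Sylow.mapSurjective_surjective hsurj p Xb
  have hP0le : ∀ Y : Sylow p G, P0 ≤ (Y : Subgroup G) := fun Y =>
    le_sup_left.trans (Y.3 (hP0p.to_sup_of_normal_left Y.2) le_sup_right).le
  have hker : ∀ z ∈ P0, f z = 1 := by
    intro z hz
    refine Subtype.ext (MulEquiv.ext fun l => ?_)
    show dualRep N z l = l
    by_cases hl : l = 1
    · rw [hl, map_one]
    · obtain ⟨Y, hY, -⟩ := D.dataP l hl
      exact hY z (hP0le Y hz)
  let φ : (X : Subgroup G) →* (dualRep N).range := f.comp (X : Subgroup G).subtype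
  have hrange : ((X.mapSurjective hsurj : Sylow p _) : Subgroup (dualRep N).range) = φ.range := by
    show (X : Subgroup G).map f = φ.range
    rw [MonoidHom.range_comp, Subgroup.range_subtype]
  rw [hrange]
  have h1 := φ.ker.card_mul_index
  rw [hcard X, φ.ker.index_eq_card,
    Nat.card_congr (QuotientGroup.quotientKerEquivRange φ).toEquiv] at h1
  have h2 : Nat.card P0 ∣ Nat.card φ.ker := by
    have hle : P0.subgroupOf (X : Subgroup G) ≤ φ.ker := fun z hz => hker _ hz
    have := Subgroup.card_dvd_of_le hle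
    rwa [Nat.card_congr (Subgroup.subgroupOfEquivOfLe (hP0le X)).toEquiv] at this
  obtain ⟨e, he⟩ := h2
  rw [he, mul_comm p, mul_assoc] at h1
  have h3 : e * Nat.card φ.range = p := Nat.eq_of_mul_eq_mul_left Nat.card_pos h1
  rcases (Nat.dvd_prime D.hp).1 (Dvd.intro_left e h3) with h | h
  · exfalso
    apply D.moveP X
    intro x hx
    refine mem_centralizer_of_dualRep ?_
    have hb : φ.range = ⊥ := Subgroup.eq_bot_of_card_eq _ h
    have hm : φ ⟨x, hx⟩ ∈ φ.range := ⟨_, rfl⟩
    rw [hb, Subgroup.mem_bot] at hm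
    exact congrArg Subtype.val hm
  · exact h

/-- The data of a prime in the module. -/
theorem primeData (D : Reduced G p q r N M Q) [N.Normal] (hp' : p ∣ (commutator G).index) :
    PrimeData (dualRep N).range (N →* ℂˣ) p where
  prime := D.hp
  card := D.card_image hp'
  fix l hl := by
    haveI := Fact.mk D.hp
    haveI := D.mNormal
    obtain ⟨X, hX, hXn⟩ := D.dataP l hl
    have hsurj : Function.Surjective (dualRep N).rangeRestrict :=
      MonoidHom.rangeRestrict_surjective _
    refine ⟨X.mapSurjective hsurj, ?_, ?_⟩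
    · rintro _ ⟨x, hx, rfl⟩
      exact hX x hx
    · intro h hh z hz
      obtain ⟨g, rfl⟩ := hsurj h
      obtain ⟨x, hx, rfl⟩ := hz
      have h1 := Subgroup.mem_map_of_mem (dualRep N).rangeRestrict (hXn g hh x hx)
      have hMbot : M.map (dualRep N).rangeRestrict = ⊥ := by
        rw [Subgroup.map_eq_bot_iff]
        exact fun m hm => Subtype.ext (dualRep_eq_one (D.mC hm))
      rw [Subgroup.map_sup, hMbot, sup_bot_eq, map_mul, map_mul, map_inv] at h1
      exact h1

/-- The module case. -/
theorem false_of_dvd [Group.IsSolvable G] (D : Reduced G p q r N M Q)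
    (hp' : p ∣ (commutator G).index) (hr' : r ∣ (commutator G).index) : False := by
  classical
  haveI := Fact.mk D.hq
  haveI := D.nNormal
  haveI := D.mNormal
  haveI := D.comm
  letI := Fintype.ofFinite G
  obtain ⟨s, hs, hexp⟩ := D.expo
  have hcardV : Nat.card (N →* ℂˣ) = Nat.card N := by
    rw [card_monoidHom_units]
    have : commutator N = ⊥ := by
      rw [commutator_def, Subgroup.commutator_eq_bot_iff_le_centralizer]
      exact fun a _ => Subgroup.mem_centralizer_iff.2 fun b _ => mul_comm' b a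
    rw [this, Subgroup.index_bot]
  haveI : Finite (N →* ℂˣ) := Nat.finite_of_card_ne_zero (hcardV ▸ Nat.card_pos.ne')
  haveI : Nontrivial (N →* ℂˣ) :=
    ⟨⟨_, 1, D.exists_ne_one.choose_spec⟩⟩
  have hsurj : Function.Surjective (dualRep N).rangeRestrict :=
    MonoidHom.rangeRestrict_surjective _
  haveI : Finite (dualRep N).range := Finite.of_surjective _ hsurj
  haveI : Group.IsSolvable (dualRep N).range :=
    Group.isSolvable_of_surjective hsurj
  refine ModuleData.false (H := (dualRep N).range) (V := N →* ℂˣ) (p := p) (r := r) (s := s)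
    ⟨D.primeData hp', D.swap.primeData hr', D.hpr, hs, ?_, ?_, ?_, ?_⟩
  · intro v
    refine MonoidHom.ext fun n => ?_
    rw [MonoidHom.pow_apply, ← map_pow,
      show n ^ s = 1 from Subtype.ext (by simpa using hexp n n.2), map_one, MonoidHom.one_apply]
  · intro W hW
    let A : Subgroup G :=
      { carrier := {g | ∃ h : g ∈ N, ∀ w ∈ W, w ⟨g, h⟩ = 1}
        one_mem' := ⟨one_mem N, fun w _ => map_one w⟩
        mul_mem' := fun {a b} ⟨ha, ha'⟩ ⟨hb, hb'⟩ => ⟨mul_mem ha hb, fun w hw => by
          rw [show (⟨a * b, mul_mem ha hb⟩ : N) = ⟨a, ha⟩ * ⟨b, hb⟩ from rfl, map_mul,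
            ha' w hw, hb' w hw, one_mul]⟩
        inv_mem' := fun {a} ⟨ha, ha'⟩ => ⟨inv_mem ha, fun w hw => by
          rw [show (⟨a⁻¹, inv_mem ha⟩ : N) = (⟨a, ha⟩ : N)⁻¹ from rfl, map_inv, ha' w hw,
            inv_one]⟩ }
    have hAn : A.Normal := ⟨fun a ⟨ha, ha'⟩ g => ⟨D.nNormal.conj_mem a ha g, fun w hw => by
      have h1 := ha' _ (hW ((dualRep N).rangeRestrict g⁻¹) w hw)
      rw [show ((dualRep N).rangeRestrict g⁻¹) • w = dualRep N g⁻¹ w from rfl, dualRep_apply] at h1
      rw [← h1]
      exact congrArg w (Subtype.ext (by simp))⟩⟩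
    rcases D.min A hAn (fun a ⟨ha, _⟩ => ha) with hA | hA
    · right
      apply Subgroup.eq_top_of_card_eq
      refine le_antisymm (Subgroup.card_le_card_group W) ?_
      rw [hcardV]
      let ev : N → (W →* ℂˣ) := fun n =>
        { toFun := fun w => (w : N →* ℂˣ) n
          map_one' := rfl
          map_mul' := fun _ _ => rfl }
      have hev : Function.Injective ev := by
        intro a b h
        have hmem : ((a * b⁻¹ : N) : G) ∈ A := ⟨(a * b⁻¹).2, fun w hw => by
          have h1 := DFunLike.congr_fun h ⟨w, hw⟩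
          show w (a * b⁻¹) = 1
          rw [map_mul, map_inv, mul_inv_eq_one]
          exact h1⟩
        rw [hA, Subgroup.mem_bot] at hmem
        exact mul_inv_eq_one.1 (Subtype.ext hmem)
      have hcW : Nat.card (W →* ℂˣ) = Nat.card W := by
        rw [card_monoidHom_units]
        have : commutator W = ⊥ := by
          rw [commutator_def, Subgroup.commutator_eq_bot_iff_le_centralizer]
          exact fun a _ => Subgroup.mem_centralizer_iff.2 fun b _ => mul_comm b a
        rw [this, Subgroup.index_bot]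
      haveI : Finite (W →* ℂˣ) := Nat.finite_of_card_ne_zero (hcW ▸ Nat.card_pos.ne')
      exact hcW ▸ Nat.card_le_card_of_injective ev hev
    · left
      refine (Subgroup.eq_bot_iff_forall _).2 fun w hw => MonoidHom.ext fun n => ?_
      obtain ⟨_, h⟩ : (n : G) ∈ A := hA.ge n.2
      exact h w hw
  · intro β hd
    let χ : IrrCharacter G :=
      ⟨_, isIrrCharacter_comp β.2 (dualRep N).rangeRestrict hsurj⟩
    have hdeg : charDegree (χ : G → ℂ) = charDegree (β : (dualRep N).range → ℂ) := by
      simp [χ, charDegree]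
    exact D.npr χ (hdeg ▸ dvd_of_mul_right_dvd hd) (hdeg ▸ dvd_of_mul_left_dvd hd)
  · intro ℓ hℓ hℓp hℓr hd A hA a ha b hb
    have h1 : (commutator (dualRep N).range).index ∣ (commutator G).index := by
      have h := (commutator G).index_map_dvd hsurj
      rwa [commutator_def, Subgroup.map_commutator, Subgroup.map_top_of_surjective _ hsurj] at h
    have hℓq : ℓ = q := ((D.derived ℓ hℓ (hd.trans h1)).resolve_left hℓp).resolve_right hℓr
    subst hℓq
    obtain ⟨Y, hY⟩ := hA.exists_le_sylow
    obtain ⟨k, hk⟩ := MulAction.exists_smul_eq (dualRep N).range (Q.mapSurjective hsurj) Y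
    have hrep : ∀ z ∈ A, ∃ c ∈ (Q : Subgroup G), z = k * (dualRep N).rangeRestrict c * k⁻¹ := by
      intro z hz
      have h2 := hY hz
      rw [← hk, Sylow.coe_subgroup_smul, Subgroup.mem_pointwise_smul_iff_inv_smul_mem] at h2
      obtain ⟨c, hc, he⟩ := h2
      refine ⟨c, hc, ?_⟩
      rw [he]
      simp [MulAut.smul_def, mul_assoc]
    obtain ⟨c, hc, rfl⟩ := hrep a ha
    obtain ⟨d, hd', rfl⟩ := hrep b hb
    have h3 : Commute ((dualRep N).rangeRestrict c) ((dualRep N).rangeRestrict d) := by
      refine commutatorElement_eq_one_iff_mul_comm.1 ?_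
      rw [← map_commutatorElement]
      exact Subtype.ext (dualRep_eq_one (D.mC (D.qComm c hc d hd')))
    exact h3.map (MulAut.conj k).toMonoidHom

/-- The contradiction. -/
theorem false [Group.IsSolvable G] (D : Reduced G p q r N M Q) : False := by
  by_cases hr' : r ∣ (commutator G).index
  · by_cases hp' : p ∣ (commutator G).index
    · exact D.false_of_dvd hp' hr'
    · exact D.swap.false_of_not_dvd hp'
  · exact D.false_of_not_dvd hr'

end Reduced

end CfsgLib.Palfy
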