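import Cfsg.Agent.Palfy.Trivial
import Cfsg.Agent.Palfy.Reduce
import Cfsg.Agent.PGroup.Normal
import Cfsg.Agent.RealDegree.Induced
import Cfsg.Agent.Chars.ItoMichler.Basic

/-!
Pálfy's three prime theorem: a solvable group has no three pairwise non-adjacent degree primes.
-/

set_option autoImplicit false
set_option linter.style.haveILetI false
set_option linter.unusedSectionVars false

namespace CfsgLib.Palfy

open Cfsg CfsgLib.Chars CfsgLib.Chars.Induced
open scoped commutatorElement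

universe u

/-- A counterexample. -/
structure Bad (G : Type u) [Group G] [Finite G] (p q r : ℕ) : Prop where
  hp : p.Prime
  hq : q.Prime
  hr : r.Prime
  hpq : p ≠ q
  hqr : q ≠ r
  hpr : p ≠ r
  npq : NoAdj G p q
  nqr : NoAdj G q r
  npr : NoAdj G p r
  dp : HasDeg G p
  dq : HasDeg G q
  dr : HasDeg G r

variable {G : Type u} [Group G] [Finite G] {p q r : ℕ}

theorem Bad.left (B : Bad G p q r) : Bad G q p r :=
  ⟨B.hq, B.hp, B.hr, B.hpq.symm, B.hpr, B.hqr, B.npq.symm, B.npr, B.nqr, B.dq, B.dp, B.dr⟩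

theorem Bad.right (B : Bad G p q r) : Bad G p r q :=
  ⟨B.hp, B.hr, B.hq, B.hpr, B.hqr.symm, B.hpq, B.npr, B.nqr.symm, B.npq, B.dp, B.dr, B.dq⟩

/-- No smaller group is a counterexample. -/
def IsLeast (G : Type u) [Group G] : Prop :=
  ∀ (H : Type u) [Group H] [Finite H], Group.IsSolvable H → Nat.card H < Nat.card G →
    ∀ p q r : ℕ, ¬ Bad H p q r

theorem not_hasDeg [Group.IsSolvable G] {π : ℕ} [Fact π.Prime] {X : Sylow π G}
    (hn : (X : Subgroup G).Normal)
    (hc : ∀ a ∈ (X : Subgroup G), ∀ b ∈ (X : Subgroup G), ⁅a, b⁆ = 1) : ¬ HasDeg G π :=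
  fun ⟨χ, hχ⟩ => (ItoMichler.main (G := G) inferInstance).1
    ⟨X, hn, fun a ha b hb => commutatorElement_eq_one_iff_mul_comm.1 (hc a ha b hb), X.2,
      X.not_dvd_index⟩ χ hχ

/-- A commutative group of order divisible by `ℓ` has a subgroup of index `ℓ`. -/
theorem exists_subgroup_index {A : Type*} [CommGroup A] [Finite A] {ℓ : ℕ} [Fact ℓ.Prime]
    (h : ℓ ∣ Nat.card A) : ∃ B : Subgroup A, B.index = ℓ := by
  let f : A →* A := powMonoidHom ℓ
  set R := f.range
  have hq : IsPGroup ℓ (A ⧸ R) := fun x => by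
    refine ⟨1, ?_⟩
    induction x using QuotientGroup.induction_on with
    | _ a =>
      rw [pow_one, ← QuotientGroup.mk_pow, QuotientGroup.eq_one_iff]
      exact ⟨a, rfl⟩
  obtain ⟨n, hn⟩ := IsPGroup.iff_card.mp hq
  rcases n with - | n
  · exfalso
    obtain ⟨x, hx⟩ := exists_prime_orderOf_dvd_card' ℓ h
    have hsurj : Function.Surjective f := by
      rw [← MonoidHom.range_eq_top]
      exact Subgroup.index_eq_one.mp (by rw [Subgroup.index_eq_card]; simpa using hn)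
    have h1 : f x = f 1 := by
      show x ^ ℓ = 1 ^ ℓ
      rw [one_pow, ← hx, pow_orderOf_eq_one]
    rw [Finite.injective_iff_surjective.mpr hsurj h1, orderOf_one] at hx
    exact (Fact.out : ℓ.Prime).one_lt.ne hx
  obtain ⟨B, hB⟩ := Sylow.exists_subgroup_card_pow_prime (G := A ⧸ R) ℓ (n := n)
    (hn ▸ pow_dvd_pow ℓ (Nat.le_succ n))
  refine ⟨B.comap (QuotientGroup.mk' R), ?_⟩
  rw [Subgroup.index_comap_of_surjective _ (QuotientGroup.mk'_surjective R)]
  have h2 := B.card_mul_index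
  rw [hB, hn, pow_succ] at h2
  exact Nat.eq_of_mul_eq_mul_left (pow_pos (Fact.out : ℓ.Prime).pos n) h2

/-- A prime dividing the index of the derived subgroup is the index of a normal subgroup. -/
theorem exists_normal_index {ℓ : ℕ} [Fact ℓ.Prime] (h : ℓ ∣ (commutator G).index) :
    ∃ M : Subgroup G, M.Normal ∧ M.index = ℓ := by
  haveI : Finite (Abelianization G) := inferInstanceAs (Finite (G ⧸ commutator G))
  obtain ⟨B, hB⟩ := exists_subgroup_index (A := Abelianization G) (ℓ := ℓ) h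
  have hs : Function.Surjective (Abelianization.of (G := G)) :=
    QuotientGroup.mk'_surjective (commutator G)
  exact ⟨B.comap Abelianization.of, inferInstance,
    by rw [Subgroup.index_comap_of_surjective _ hs, hB]⟩

/-- The consequences of a normal subgroup of prime index. -/
theorem Bad.cut [Group.IsSolvable G] (B : Bad G p q r) (hmin : IsLeast G) {M : Subgroup G}
    [hMn : M.Normal] {s : ℕ} (hs : s.Prime) (hidx : M.index = s) :
    (s = p ∨ s = q ∨ s = r) ∧ ∃ P0 : Subgroup G, P0.Normal ∧ IsPGroup s P0 ∧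
      ∀ X : Sylow s G, Nat.card (X : Subgroup G) = s * Nat.card P0 := by
  classical
  haveI := Fact.mk hs
  letI := Fintype.ofFinite G
  letI := Fintype.ofFinite M
  have hlt : Nat.card M < Nat.card G := by
    rw [← M.card_mul_index, hidx]
    exact lt_mul_of_one_lt_right Nat.card_pos hs.one_lt
  have hdvd : ∀ θ : IrrCharacter M, ∃ χ : IrrCharacter G,
      charDegree (θ : M → ℂ) ∣ charDegree (χ : G → ℂ) := fun θ => by
    obtain ⟨χ, hχ⟩ := exists_over (N := M) θ
    exact ⟨χ, charDegree_eq_clifford χ θ hχ ▸ Dvd.intro_left _ rfl⟩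
  have hno : ∀ {a b : ℕ}, NoAdj G a b → NoAdj M a b := by
    intro a b h θ h1 h2
    obtain ⟨χ, hχ⟩ := hdvd θ
    exact h χ (h1.trans hχ) (h2.trans hχ)
  obtain ⟨π, hπ, hπd, hπM⟩ : ∃ π, (π = p ∨ π = q ∨ π = r) ∧ HasDeg G π ∧ ¬ HasDeg M π := by
    by_contra h
    push Not at h
    exact hmin M inferInstance hlt p q r
      ⟨B.hp, B.hq, B.hr, B.hpq, B.hqr, B.hpr, hno B.npq, hno B.nqr, hno B.npr,
        h p (Or.inl rfl) B.dp, h q (Or.inr (Or.inl rfl)) B.dq, h r (Or.inr (Or.inr rfl)) B.dr⟩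
  have hπp : π.Prime := by rcases hπ with rfl | rfl | rfl <;> [exact B.hp; exact B.hq; exact B.hr]
  haveI := Fact.mk hπp
  obtain ⟨P, hPn, hPc, hPp, hPi⟩ := (ItoMichler.main (p := π) (G := M) inferInstance).2
    fun θ hθ => hπM ⟨θ, hθ⟩
  let PS : Sylow π M := hPp.toSylow hPi
  haveI : (PS : Subgroup M).Normal := hPn
  have hchar : (PS : Subgroup M).Characteristic := PS.characteristic_of_normal inferInstance
  haveI := hchar
  set P0 := P.map M.subtype with hP0
  have hP0n : P0.Normal := ConjAct.normal_of_characteristic_of_normal (K := (PS : Subgroup M))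
  have hP0p : IsPGroup π P0 := hPp.map _
  have hidx0 : P0.index = P.index * s := by
    rw [hP0, Subgroup.index_map_subtype, hidx]
  have hcard0 : Nat.card P0 = Nat.card P := Subgroup.card_map_of_injective M.subtype_injective
  have hπs : π = s := by
    by_contra hne
    have hi : ¬ π ∣ P0.index := by
      rw [hidx0, hπp.dvd_mul, not_or]
      exact ⟨hPi, fun h => hne ((Nat.prime_dvd_prime_iff_eq hπp hs).1 h)⟩
    obtain ⟨χ, hχ⟩ := hπd
    refine (ItoMichler.main (G := G) inferInstance).1 ⟨P0, hP0n, ?_, hP0p, hi⟩ χ hχ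
    rintro _ ⟨a, ha, rfl⟩ _ ⟨b, hb, rfl⟩
    rw [← map_mul, hPc a ha b hb, map_mul]
  subst hπs
  refine ⟨hπ, P0, hP0n, hP0p, fun X => ?_⟩
  have h1 : Nat.card G = Nat.card P0 * P.index * π := by
    rw [mul_assoc, ← hidx0, P0.card_mul_index]
  obtain ⟨k, hk⟩ := hP0p.exists_card_eq
  rw [X.card_eq_multiplicity, h1, Nat.factorization_mul (mul_ne_zero Nat.card_pos.ne'
    Subgroup.index_ne_zero_of_finite) hπp.ne_zero, Nat.factorization_mul Nat.card_pos.ne'
    Subgroup.index_ne_zero_of_finite, Finsupp.add_apply, Finsupp.add_apply, hk,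
    Nat.factorization_eq_zero_of_not_dvd hPi, hπp.factorization_pow, hπp.factorization_self,
    Finsupp.single_eq_same, add_zero, pow_succ']

/-- A Sylow subgroup moving the minimal normal subgroup, first case. -/
theorem false_of_trivial_coprime [Group.IsSolvable G] {π : ℕ} [Fact π.Prime] {N T H : Subgroup G}
    [hN : N.Normal] [IsMulCommutative N] (hHN : N ⊓ H = ⊥) (hHsup : H ⊔ N = ⊤)
    (hdeg : HasDeg G π) (hCT : Subgroup.centralizer (N : Set G) ≤ T) {X₁ : Sylow π G}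
    (hX₁ : (X₁ : Subgroup G) ≤ T)
    (hn : ∀ t ∈ T, ∀ x ∈ (X₁ : Subgroup G), t * x * t⁻¹ ∈ (X₁ : Subgroup G) ⊔ N)
    (hab : ∀ a ∈ (X₁ : Subgroup G), ∀ b ∈ (X₁ : Subgroup G), ⁅a, b⁆ ∈ N)
    (X : Sylow π G) (hX : (X : Subgroup G) ≤ Subgroup.centralizer (N : Set G)) : False := by
  classical
  have hNC : N ≤ Subgroup.centralizer (N : Set G) := fun a ha =>
    Subgroup.mem_centralizer_iff.2 fun b hb =>
      congrArg Subtype.val (mul_comm' (⟨b, hb⟩ : N) ⟨a, ha⟩)
  obtain ⟨hKn, hK⟩ := normal_sup_of_data (C := Subgroup.centralizer (N : Set G)) hCT hX₁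
    (hNC.trans hCT) hn hX
  have hcomm : ∀ x ∈ (X : Subgroup G), ∀ n ∈ N, Commute n x := fun x hx n hn =>
    Subgroup.mem_centralizer_iff.1 (hX hx) n hn
  have hXn : (X : Subgroup G).Normal := by
    refine sylow_normal_of_sup hKn fun n hn => ?_
    rw [Subgroup.mem_normalizer_iff]
    refine fun y => ⟨fun hy => ?_, fun hy => ?_⟩
    · rwa [(hcomm y hy n hn).eq, mul_inv_cancel_right]
    · have h := hcomm _ hy n hn
      have : n * y * n⁻¹ = y := by
        calc n * y * n⁻¹ = n⁻¹ * (n * (n * y * n⁻¹)) := by group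
          _ = n⁻¹ * ((n * y * n⁻¹) * n) := by rw [h.eq]
          _ = y := by group
      rwa [this] at hy
  refine not_hasDeg hXn (fun a ha b hb => ?_) hdeg
  have hsplit : ∀ z : G, z ∈ Subgroup.centralizer (N : Set G) →
      ∃ n ∈ N, ∃ h ∈ H ⊓ Subgroup.centralizer (N : Set G), z = n * h := by
    intro z hz
    have h1 : z ∈ ((N ⊔ H : Subgroup G) : Set G) := by rw [sup_comm, hHsup]; trivial
    rw [Subgroup.normal_mul] at h1
    obtain ⟨n, hn, h, hh, e⟩ := h1
    have e' : n * h = z := e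
    refine ⟨n, hn, h, ⟨hh, ?_⟩, e'.symm⟩
    have := mul_mem (inv_mem (hNC hn)) hz
    rwa [← e', inv_mul_cancel_left] at this
  -- commutators in `N`
  have habX : ⁅a, b⁆ ∈ N := by
    have hmem : ∀ z ∈ (X : Subgroup G), QuotientGroup.mk' N z ∈
        (X₁ : Subgroup G).map (QuotientGroup.mk' N) := by
      intro z hz
      have h1 := Subgroup.mem_map_of_mem (QuotientGroup.mk' N) (hK X₁ hz)
      rwa [Subgroup.map_sup, QuotientGroup.map_mk'_self, sup_bot_eq] at h1
    obtain ⟨a', ha', ea⟩ := hmem a ha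
    obtain ⟨b', hb', eb⟩ := hmem b hb
    rw [← QuotientGroup.eq_one_iff, ← QuotientGroup.mk'_apply, map_commutatorElement, ← ea, ← eb,
      ← map_commutatorElement, QuotientGroup.mk'_apply, QuotientGroup.eq_one_iff]
    exact hab a' ha' b' hb'
  obtain ⟨n, hn, h, ⟨hh, hhC⟩, rfl⟩ := hsplit a (hX ha)
  obtain ⟨m, hm, k, ⟨hk, hkC⟩, rfl⟩ := hsplit b (hX hb)
  have c1 : Commute n k := Subgroup.mem_centralizer_iff.1 hkC n hn
  have c2 : Commute m h := Subgroup.mem_centralizer_iff.1 hhC m hm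
  have c3 : Commute n m := Subgroup.mem_centralizer_iff.1 (hNC hm) n hn
  have he : ⁅n * h, m * k⁆ = ⁅h, k⁆ := by
    simp only [commutatorElement_def]
    calc n * h * (m * k) * (n * h)⁻¹ * (m * k)⁻¹
        = n * (h * m) * k * h⁻¹ * n⁻¹ * k⁻¹ * m⁻¹ := by group
      _ = n * (m * h) * k * h⁻¹ * n⁻¹ * k⁻¹ * m⁻¹ := by rw [c2.eq]
      _ = n * m * (h * k * h⁻¹) * (k * n)⁻¹ * m⁻¹ := by group
      _ = n * m * (h * k * h⁻¹) * (n * k)⁻¹ * m⁻¹ := by rw [c1.eq]
      _ = (n * m) * (h * k * h⁻¹ * k⁻¹) * (m * n)⁻¹ := by group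
      _ = (n * m) * (h * k * h⁻¹ * k⁻¹) * (n * m)⁻¹ := by rw [c3.eq]
      _ = h * k * h⁻¹ * k⁻¹ := by
        have hc : h * k * h⁻¹ * k⁻¹ ∈ Subgroup.centralizer (N : Set G) :=
          mul_mem (mul_mem (mul_mem hhC hkC) (inv_mem hhC)) (inv_mem hkC)
        rw [Subgroup.mem_centralizer_iff.1 hc (n * m) (mul_mem hn hm), mul_inv_cancel_right]
  rw [he] at habX ⊢
  have hHk : ⁅h, k⁆ ∈ H := H.mul_mem (H.mul_mem (H.mul_mem hh hk) (H.inv_mem hh)) (H.inv_mem hk)
  exact Subgroup.mem_bot.1 (hHN.le ⟨habX, hHk⟩)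

/-- The minimal normal subgroup is not a `q`-group. -/
theorem false_coprime [Group.IsSolvable G] (B : Bad G p q r) {s : ℕ} (hs : s.Prime) (hsq : s ≠ q)
    {N : Subgroup G} [hN : N.Normal] [IsMulCommutative N] (hne : N ≠ ⊥)
    (hmin' : ∀ L : Subgroup G, L.Normal → L ≤ N → L = ⊥ ∨ L = N) (hexp : ∀ n ∈ N, n ^ s = 1)
    (hder : ∀ ℓ : ℕ, ℓ.Prime → ℓ ∣ (commutator G).index → ℓ = p ∨ ℓ = q ∨ ℓ = r)
    (hcutP : p ∣ (commutator G).index → ∃ P0 : Subgroup G, P0.Normal ∧ IsPGroup p P0 ∧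
      ∀ X : Sylow p G, Nat.card (X : Subgroup G) = p * Nat.card P0)
    (hcutR : r ∣ (commutator G).index → ∃ R0 : Subgroup G, R0.Normal ∧ IsPGroup r R0 ∧
      ∀ X : Sylow r G, Nat.card (X : Subgroup G) = r * Nat.card R0)
    (Q : Sylow q G) (hsup : ((Q : Subgroup G) ⊔ N).Normal)
    (hQc : ∀ a ∈ (Q : Subgroup G), ∀ b ∈ (Q : Subgroup G), ⁅a, b⁆ ∈ N) : False := by
  classical
  haveI := Fact.mk B.hp
  haveI := Fact.mk B.hq
  haveI := Fact.mk B.hr
  haveI := Fact.mk hs
  haveI := hsup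
  letI := Fintype.ofFinite G
  letI := Fintype.ofFinite N
  have hNC : N ≤ Subgroup.centralizer (N : Set G) := fun a ha =>
    Subgroup.mem_centralizer_iff.2 fun b hb =>
      congrArg Subtype.val (mul_comm' (⟨b, hb⟩ : N) ⟨a, ha⟩)
  have hNp : IsPGroup s N := fun x => ⟨1, Subtype.ext (by simpa using hexp x x.2)⟩
  have hdis : Disjoint (Q : Subgroup G) N := IsPGroup.disjoint_of_ne q s hsq.symm _ _ Q.2 hNp
  -- nothing in `N` is centralized by `Q`
  set K := (Q : Subgroup G) ⊔ N with hK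
  have hfix : N ⊓ Subgroup.centralizer (K : Set G) = ⊥ := by
    refine (hmin' _ inferInstance inf_le_left).resolve_right fun h => ?_
    have hcen : ∀ a ∈ (Q : Subgroup G), ∀ n ∈ N, Commute a n := fun a ha n hn =>
      Subgroup.mem_centralizer_iff.1 (h.ge hn).2 a (Subgroup.mem_sup_left ha)
    have hQn : (Q : Subgroup G).Normal := by
      refine sylow_normal_of_sup hsup fun n hn => ?_
      rw [Subgroup.mem_normalizer_iff]
      refine fun y => ⟨fun hy => ?_, fun hy => ?_⟩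
      · rwa [← (hcen y hy n hn).eq, mul_inv_cancel_right]
      · have := (hcen _ hy n hn).eq
        have e : n * y * n⁻¹ = y := by
          calc n * y * n⁻¹ = n⁻¹ * (n * (n * y * n⁻¹)) := by group
            _ = n⁻¹ * ((n * y * n⁻¹) * n) := by rw [this]
            _ = y := by group
        rwa [e] at hy
    exact not_hasDeg hQn (fun a ha b hb => Subgroup.disjoint_def.1 hdis
      (mul_mem (mul_mem (mul_mem ha hb) (inv_mem ha)) (inv_mem hb)) (hQc a ha b hb)) B.dq
  set H := Subgroup.normalizer ((Q : Subgroup G) : Set G) with hH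
  have hNH : N ⊓ H = ⊥ := by
    refine le_bot_iff.1 fun n ⟨hn, hn'⟩ => ?_
    rw [← hfix]
    refine ⟨hn, Subgroup.mem_centralizer_iff.2 ?_⟩
    have hle : K ≤ Subgroup.centralizer {n} := by
      refine sup_le (fun a ha => ?_) fun m hm => ?_
      · rw [Subgroup.mem_centralizer_singleton_iff]
        have h1 : ⁅n, a⁆ ∈ N := by
          rw [show ⁅n, a⁆ = n * (a * n⁻¹ * a⁻¹) by simp only [commutatorElement_def]; group]
          exact mul_mem hn (hN.conj_mem _ (inv_mem hn) a)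
        have h2 : ⁅n, a⁆ ∈ (Q : Subgroup G) := by
          rw [commutatorElement_def]
          exact mul_mem ((Subgroup.mem_normalizer_iff.1 hn' a).1 ha) (inv_mem ha)
        exact (commutatorElement_eq_one_iff_mul_comm.1 (Subgroup.disjoint_def.1 hdis h2 h1)).symm
      · rw [Subgroup.mem_centralizer_singleton_iff]
        exact congrArg Subtype.val (mul_comm' (⟨m, hm⟩ : N) ⟨n, hn⟩)
    intro k hk
    exact Subgroup.mem_centralizer_singleton_iff.1 (hle hk)
  have hHsup : H ⊔ N = ⊤ := by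
    have h1 := Sylow.normalizer_sup_eq_top' (N := K) Q le_sup_left
    rw [eq_top_iff, ← h1]
    refine sup_le le_sup_left (sup_le (le_trans ?_ le_sup_left) le_sup_right)
    exact Subgroup.le_normalizer
  have hdata : ∀ l : N →* ℂˣ, l ≠ 1 → ∀ π : ℕ, π.Prime → NoAdj G q π → ∃ X : Sylow π G,
      (X : Subgroup G) ≤ inertia N (linChar l : N → ℂ) ∧
      (∀ t ∈ inertia N (linChar l : N → ℂ), ∀ x ∈ (X : Subgroup G),
        t * x * t⁻¹ ∈ (X : Subgroup G) ⊔ N) ∧
      ∀ a ∈ (X : Subgroup G), ∀ b ∈ (X : Subgroup G), ⁅a, b⁆ ∈ N := by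
    intro l hl π hπ hqπ
    haveI := Fact.mk hπ
    set T := inertia N (linChar l : N → ℂ) with hT
    have hNT : N ≤ T := le_inertia (isClassFunction_coe _)
    letI := Fintype.ofFinite T
    have hgen : ∀ t ∈ T, ∃ n ∈ N, ∃ h ∈ H ⊓ T, t = n * h := by
      intro t ht
      have h1 : t ∈ ((N ⊔ H : Subgroup G) : Set G) := by rw [sup_comm, hHsup]; trivial
      rw [Subgroup.normal_mul] at h1
      obtain ⟨n, hn, h, hh, e⟩ := h1
      have e' : n * h = t := e
      refine ⟨n, hn, h, ⟨hh, ?_⟩, e'.symm⟩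
      have := T.mul_mem (T.inv_mem (hNT hn)) ht
      rwa [← e', inv_mul_cancel_left] at this
    obtain ⟨ext, hext⟩ := RealDegree.exists_extension_complement (H ⊓ T) T hNT inf_le_right hgen
      (by rw [← inf_assoc, hNH, bot_inf_eq]) l le_rfl
    refine sylow_data (q := q) N (linChar l) T hT hNT (linChar ext) (fun m => ?_) ?_ hqπ
    · simp only [linChar_apply]
      rw [hext (Subgroup.inclusion hNT m) m (by simp)]
    · refine Dvd.dvd.mul_right ?_ _
      by_contra hd
      obtain ⟨Y, hY⟩ := exists_sylow_le_of_index T hd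
      have hKT : K ≤ T :=
        sup_le ((sylow_le_sup hsup Q Y).trans (sup_le hY hNT)) hNT
      have hNK : ⁅N, K⁆ = N := by
        refine (hmin' _ inferInstance (Subgroup.commutator_le_left N K)).resolve_left fun h => ?_
        rw [Subgroup.commutator_eq_bot_iff_le_centralizer] at h
        exact hne (by rw [← hfix, inf_eq_left.2 h])
      have hker : N ≤ l.ker.map N.subtype := by
        conv_lhs => rw [← hNK]
        rw [Subgroup.commutator_le]
        intro n hn k hk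
        have hmem : ⁅n, k⁆ ∈ N := Subgroup.commutator_le_left N K
          (Subgroup.commutator_mem_commutator hn hk)
        refine ⟨⟨⁅n, k⁆, hmem⟩, ?_, rfl⟩
        rw [SetLike.mem_coe, MonoidHom.mem_ker]
        have h1 := apply_conj_of_mem_inertia l (hKT hk) (⟨n, hn⟩⁻¹ : N)
        rw [show (⟨⁅n, k⁆, hmem⟩ : N) = ⟨n, hn⟩ *
          ⟨k * ((⟨n, hn⟩⁻¹ : N) : G) * k⁻¹, hN.conj_mem _ (⟨n, hn⟩⁻¹ : N).2 k⟩ from
            Subtype.ext (by simp [commutatorElement_def, mul_assoc]), map_mul, h1, ← map_mul,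
          mul_inv_cancel, map_one]
      refine hl (MonoidHom.ext fun n => ?_)
      obtain ⟨z, hz, hze⟩ := hker n.2
      obtain rfl : z = n := Subtype.ext hze
      exact hz
  -- the Sylow subgroups of the two other primes act nontrivially
  obtain ⟨l₀, hl₀⟩ : ∃ l : N →* ℂˣ, l ≠ 1 := by
    letI : CommGroup N := { (inferInstance : Group N) with mul_comm := mul_comm' }
    obtain ⟨n, hn, hn1⟩ := (Subgroup.bot_or_exists_ne_one N).resolve_left hne
    obtain ⟨l, hl⟩ := CommGroup.exists_apply_ne_one_of_hasEnoughRootsOfUnity N ℂ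
      (a := (⟨n, hn⟩ : N)) (fun h => hn1 (congrArg Subtype.val h))
    exact ⟨l, fun h => hl (by rw [h]; rfl)⟩
  have hCT : Subgroup.centralizer (N : Set G) ≤ inertia N (linChar l₀ : N → ℂ) := fun g hg =>
    (mem_inertia_iff_dualRep N l₀ g).2 (by rw [dualRep_eq_one hg]; rfl)
  have hmove : ∀ π : ℕ, π.Prime → NoAdj G q π → HasDeg G π → ∀ X : Sylow π G,
      ¬ (X : Subgroup G) ≤ Subgroup.centralizer (N : Set G) := by
    intro π hπ hqπ hd X hX
    haveI := Fact.mk hπ
    obtain ⟨X₁, hX₁, hn₁, hab₁⟩ := hdata l₀ hl₀ π hπ hqπ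
    exact false_of_trivial_coprime hNH hHsup hd hCT hX₁ hn₁ hab₁ X hX
  have hD : ∀ π : ℕ, π.Prime → NoAdj G q π → ∀ l : N →* ℂˣ, l ≠ 1 → ∃ X : Sylow π G,
      (∀ x ∈ (X : Subgroup G), dualRep N x l = l) ∧
      ∀ t : G, dualRep N t l = l → ∀ x ∈ (X : Subgroup G), t * x * t⁻¹ ∈ (X : Subgroup G) ⊔ N := by
    intro π hπ hqπ l hl
    obtain ⟨X, hX, hXn, -⟩ := hdata l hl π hπ hqπ
    exact ⟨X, fun x hx => (mem_inertia_iff_dualRep N l x).1 (hX hx),
      fun t ht => hXn t ((mem_inertia_iff_dualRep N l t).2 ht)⟩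
  exact Reduced.false (N := N) (M := N) (Q := Q)
    { hp := B.hp, hq := B.hq, hr := B.hr, hpq := B.hpq, hqr := B.hqr, hpr := B.hpr
      npr := B.npr, nNormal := hN, mNormal := hN, ne := hne, min := hmin'
      comm := inferInstance, expo := ⟨s, hs, hexp⟩, mC := hNC, supNormal := hsup, qComm := hQc
      moveP := hmove p B.hp B.npq.symm B.dp, moveR := hmove r B.hr B.nqr B.dr
      dataP := hD p B.hp B.npq.symm, dataR := hD r B.hr B.nqr
      derived := hder, cutP := hcutP, cutR := hcutR }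

/-- The minimal normal subgroup is a `q`-group. -/
theorem false_modular [Group.IsSolvable G] (B : Bad G p q r)
    {N : Subgroup G} [hN : N.Normal] [IsMulCommutative N] (hne : N ≠ ⊥)
    (hmin' : ∀ L : Subgroup G, L.Normal → L ≤ N → L = ⊥ ∨ L = N) (hexp : ∀ n ∈ N, n ^ q = 1)
    (hder : ∀ ℓ : ℕ, ℓ.Prime → ℓ ∣ (commutator G).index → ℓ = p ∨ ℓ = q ∨ ℓ = r)
    (hcutP : p ∣ (commutator G).index → ∃ P0 : Subgroup G, P0.Normal ∧ IsPGroup p P0 ∧
      ∀ X : Sylow p G, Nat.card (X : Subgroup G) = p * Nat.card P0)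
    (hcutR : r ∣ (commutator G).index → ∃ R0 : Subgroup G, R0.Normal ∧ IsPGroup r R0 ∧
      ∀ X : Sylow r G, Nat.card (X : Subgroup G) = r * Nat.card R0)
    (Q : Sylow q G) (hsup : ((Q : Subgroup G) ⊔ N).Normal)
    (hQc : ∀ a ∈ (Q : Subgroup G), ∀ b ∈ (Q : Subgroup G), ⁅a, b⁆ ∈ N) : False := by
  classical
  haveI := Fact.mk B.hp
  haveI := Fact.mk B.hq
  haveI := Fact.mk B.hr
  letI := Fintype.ofFinite G
  letI := Fintype.ofFinite N
  letI := Fintype.ofFinite (Q : Subgroup G)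
  have hNp : IsPGroup q N := fun x => ⟨1, Subtype.ext (by simpa using hexp x x.2)⟩
  have hNQ : N ≤ (Q : Subgroup G) :=
    le_sup_left.trans (Q.3 (hNp.to_sup_of_normal_left Q.2) le_sup_right).le
  haveI hQn : (Q : Subgroup G).Normal := by rwa [sup_eq_left.2 hNQ] at hsup
  have hQQ : ⁅(Q : Subgroup G), (Q : Subgroup G)⁆ = N := by
    refine (hmin' _ inferInstance ((Subgroup.commutator_le).2 hQc)).resolve_left fun h => ?_
    exact not_hasDeg hQn (fun a ha b hb =>
      Subgroup.mem_bot.1 (h ▸ Subgroup.commutator_mem_commutator ha hb)) B.dq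
  have hNcen : N ⊓ Subgroup.centralizer ((Q : Subgroup G) : Set G) = N := by
    refine (hmin' _ inferInstance inf_le_left).resolve_left fun h => ?_
    haveI : (N.subgroupOf (Q : Subgroup G)).Normal := Subgroup.normal_subgroupOf
    refine PGroup.inf_center_ne_bot Q.2 (N.subgroupOf (Q : Subgroup G)) (fun h' => hne ?_) ?_
    · rw [Subgroup.subgroupOf_eq_bot] at h'
      exact h'.eq_bot_of_le hNQ
    · refine (Subgroup.eq_bot_iff_forall _).2 fun z ⟨hz, hzc⟩ => Subtype.ext ?_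
      refine Subgroup.mem_bot.1 (h ▸ ⟨Subgroup.mem_subgroupOf.1 hz, ?_⟩)
      exact Subgroup.mem_centralizer_iff.2 fun a ha =>
        congrArg Subtype.val (Subgroup.mem_center_iff.1 hzc ⟨a, ha⟩)
  have hcentral : ∀ n ∈ N, ∀ a ∈ (Q : Subgroup G), n * a = a * n := fun n hn a ha =>
    (Subgroup.mem_centralizer_iff.1 (hNcen.ge hn).2 a ha).symm
  have hQ : IsTwoCore q N (Q : Subgroup G) :=
    ⟨B.hq, hQn, hN, Q.2, Q.not_dvd_index, hNQ, hcentral, hQc, hQQ.ge⟩
  have hQC : (Q : Subgroup G) ≤ Subgroup.centralizer (N : Set G) := fun a ha =>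
    Subgroup.mem_centralizer_iff.2 fun n hn => hcentral n hn a ha
  obtain ⟨l₀, hl₀⟩ : ∃ l : N →* ℂˣ, l ≠ 1 := by
    letI : CommGroup N := { (inferInstance : Group N) with mul_comm := mul_comm' }
    obtain ⟨n, hn, hn1⟩ := (Subgroup.bot_or_exists_ne_one N).resolve_left hne
    obtain ⟨l, hl⟩ := CommGroup.exists_apply_ne_one_of_hasEnoughRootsOfUnity N ℂ
      (a := (⟨n, hn⟩ : N)) (fun h => hn1 (congrArg Subtype.val h))
    exact ⟨l, fun h => hl (by rw [h]; rfl)⟩
  have hCT : Subgroup.centralizer (N : Set G) ≤ inertia N (linChar l₀ : N → ℂ) := fun g hg =>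
    (mem_inertia_iff_dualRep N l₀ g).2 (by rw [dualRep_eq_one hg]; rfl)
  -- a Sylow subgroup centralizing `N` gives a normal subgroup over `Q`
  have hover : ∀ (π : ℕ) [Fact π.Prime], π ≠ q → NoAdj G q π → HasDeg G π → ∀ X : Sylow π G,
      (X : Subgroup G) ≤ Subgroup.centralizer (N : Set G) →
      ((X : Subgroup G) ⊔ (Q : Subgroup G)).Normal ∧
      (∀ Y : Sylow π G, (X : Subgroup G) ≤ (Y : Subgroup G) ⊔ (Q : Subgroup G)) ∧
      ∃ μ : (Q : Subgroup G) →* ℂˣ, (∀ n : (Q : Subgroup G), (n : G) ∈ N → μ n = 1) ∧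
        ∃ x ∈ (X : Subgroup G), dualRep (Q : Subgroup G) x μ ≠ μ := by
    intro π _ hπq hqπ hd X hX
    obtain ⟨X₁, hX₁, hn₁, hab₁⟩ := two_data (π := π) hQ l₀ hl₀ hqπ
    obtain ⟨hKn, hK⟩ := normal_sup_of_data (M := (Q : Subgroup G))
      (C := Subgroup.centralizer (N : Set G)) hCT hX₁ (hQC.trans hCT) hn₁ hX
    refine ⟨hKn, hK, ?_⟩
    by_contra hno
    push Not at hno
    have habX : ∀ a ∈ (X : Subgroup G), ∀ b ∈ (X : Subgroup G), ⁅a, b⁆ ∈ (Q : Subgroup G) := by
      intro a ha b hb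
      have hmem : ∀ z ∈ (X : Subgroup G), QuotientGroup.mk' (Q : Subgroup G) z ∈
          (X₁ : Subgroup G).map (QuotientGroup.mk' (Q : Subgroup G)) := by
        intro z hz
        have h1 := Subgroup.mem_map_of_mem (QuotientGroup.mk' (Q : Subgroup G)) (hK X₁ hz)
        rwa [Subgroup.map_sup, QuotientGroup.map_mk'_self, sup_bot_eq] at h1
      obtain ⟨a', ha', ea⟩ := hmem a ha
      obtain ⟨b', hb', eb⟩ := hmem b hb
      rw [← QuotientGroup.eq_one_iff, ← QuotientGroup.mk'_apply, map_commutatorElement, ← ea,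
        ← eb, ← map_commutatorElement, QuotientGroup.mk'_apply, QuotientGroup.eq_one_iff]
      exact hab₁ a' ha' b' hb'
    obtain ⟨χ, hχ⟩ := hd
    exact not_dvd_of_fix_all hQ hπq
      (fun x hx n hn => (Subgroup.mem_centralizer_iff.1 (hX hx) n hn).symm) hKn habX hno χ hχ
  -- at most one prime centralizes `N`
  have hmoved : ∀ (π τ : ℕ) [Fact π.Prime] [Fact τ.Prime], π ≠ q → NoAdj G q π → NoAdj G q τ →
      NoAdj G π τ → HasDeg G π → HasDeg G τ → τ ≠ q → ∀ X : Sylow π G,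
      ¬ (X : Subgroup G) ≤ Subgroup.centralizer (N : Set G) := by
    intro π τ _ _ hπq hqπ hqτ hπτ hdπ hdτ hτq X hX
    obtain ⟨hKn, hK, hmv⟩ := hover π hπq hqπ hdπ X hX
    obtain ⟨Y₀⟩ : Nonempty (Sylow τ G) := inferInstance
    by_cases hY : (Y₀ : Subgroup G) ≤ Subgroup.centralizer (N : Set G)
    · obtain ⟨hKn', hK', hmv'⟩ := hover τ hτq hqτ hdτ Y₀ hY
      obtain ⟨μ, -, x, hx, hμ⟩ := hmv
      obtain ⟨ν, -, y, hy, hν⟩ := hmv'
      obtain ⟨ξ, ⟨x', hx', h1⟩, y', hy', h2⟩ : ∃ ξ : (Q : Subgroup G) →* ℂˣ,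
          (∃ x ∈ (X : Subgroup G), dualRep (Q : Subgroup G) x ξ ≠ ξ) ∧
          ∃ y ∈ (Y₀ : Subgroup G), dualRep (Q : Subgroup G) y ξ ≠ ξ := by
        by_cases h1 : ∃ y ∈ (Y₀ : Subgroup G), dualRep (Q : Subgroup G) y μ ≠ μ
        · exact ⟨μ, ⟨x, hx, hμ⟩, h1⟩
        by_cases h2 : ∃ x ∈ (X : Subgroup G), dualRep (Q : Subgroup G) x ν ≠ ν
        · exact ⟨ν, h2, y, hy, hν⟩
        push Not at h1 h2
        refine ⟨μ * ν, ⟨x, hx, fun h => hμ ?_⟩, y, hy, fun h => hν ?_⟩
        · rw [map_mul, h2 x hx] at h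
          exact mul_right_cancel h
        · rw [map_mul, h1 y hy] at h
          exact mul_left_cancel h
      have hπi := dvd_index_of_moved_normal hK ξ hx' h1
      have hτi := dvd_index_of_moved_normal hK' ξ hy' h2
      obtain ⟨χ, hχ⟩ := exists_over (N := (Q : Subgroup G)) (linChar ξ)
      have hdeg := charDegree_eq_clifford χ (linChar ξ) hχ
      exact hπτ χ (hdeg ▸ Dvd.dvd.mul_right (Dvd.dvd.mul_left hπi _) _)
        (hdeg ▸ Dvd.dvd.mul_right (Dvd.dvd.mul_left hτi _) _)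
    · exact false_of_trivial_moved hQ hne hπq hqπ hqτ hπτ X hX hKn hK hmv Y₀ hY
  have hD : ∀ π : ℕ, π.Prime → NoAdj G q π → ∀ l : N →* ℂˣ, l ≠ 1 → ∃ X : Sylow π G,
      (∀ x ∈ (X : Subgroup G), dualRep N x l = l) ∧
      ∀ t : G, dualRep N t l = l → ∀ x ∈ (X : Subgroup G),
        t * x * t⁻¹ ∈ (X : Subgroup G) ⊔ (Q : Subgroup G) := by
    intro π hπ hqπ l hl
    haveI := Fact.mk hπ
    obtain ⟨X, hX, hXn, -⟩ := two_data (π := π) hQ l hl hqπ
    exact ⟨X, fun x hx => (mem_inertia_iff_dualRep N l x).1 (hX hx),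
      fun t ht => hXn t ((mem_inertia_iff_dualRep N l t).2 ht)⟩
  exact Reduced.false (N := N) (M := (Q : Subgroup G)) (Q := Q)
    { hp := B.hp, hq := B.hq, hr := B.hr, hpq := B.hpq, hqr := B.hqr, hpr := B.hpr
      npr := B.npr, nNormal := hN, mNormal := hQn, ne := hne, min := hmin'
      comm := inferInstance, expo := ⟨q, B.hq, hexp⟩, mC := hQC
      supNormal := by rw [sup_idem]; exact hQn
      qComm := fun a ha b hb => hNQ (hQc a ha b hb)
      moveP := hmoved p r B.hpq B.npq.symm B.nqr B.npr B.dp B.dr B.hqr.symm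
      moveR := hmoved r p B.hqr.symm B.nqr B.npq.symm B.npr.symm B.dr B.dp B.hpq
      dataP := hD p B.hp B.npq.symm, dataR := hD r B.hr B.nqr
      derived := hder, cutP := hcutP, cutR := hcutR }

/-- The middle prime divides no degree of the quotient: contradiction. -/
theorem false_of_quotient [Group.IsSolvable G] (B : Bad G p q r) (hmin : IsLeast G)
    {N : Subgroup G} [hN : N.Normal] [IsMulCommutative N] (hne : N ≠ ⊥) {s : ℕ} (hs : s.Prime)
    (hmin' : ∀ L : Subgroup G, L.Normal → L ≤ N → L = ⊥ ∨ L = N) (hexp : ∀ n ∈ N, n ^ s = 1)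
    (hq' : ¬ HasDeg (G ⧸ N) q) : False := by
  classical
  haveI := Fact.mk B.hq
  have hder : ∀ ℓ : ℕ, ℓ.Prime → ℓ ∣ (commutator G).index → ℓ = p ∨ ℓ = q ∨ ℓ = r := by
    intro ℓ hℓ hd
    haveI := Fact.mk hℓ
    obtain ⟨M, hM, hMi⟩ := exists_normal_index (ℓ := ℓ) hd
    haveI := hM
    exact (B.cut hmin hℓ hMi).1
  have hcut : ∀ π : ℕ, π.Prime → π ∣ (commutator G).index → ∃ P0 : Subgroup G, P0.Normal ∧
      IsPGroup π P0 ∧ ∀ X : Sylow π G, Nat.card (X : Subgroup G) = π * Nat.card P0 := by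
    intro π hπ hd
    haveI := Fact.mk hπ
    obtain ⟨M, hM, hMi⟩ := exists_normal_index (ℓ := π) hd
    haveI := hM
    exact (B.cut hmin hπ hMi).2
  obtain ⟨Qb, hQb⟩ := ItoMichler.normal_sylow (p := q) (G := G ⧸ N) inferInstance
    fun β hβ => hq' ⟨β, hβ⟩
  haveI := hQb
  have hQab := ItoMichler.comm_of_normal_sylow (Qb : Subgroup (G ⧸ N)) Qb.2
    fun β hβ => hq' ⟨β, hβ⟩
  obtain ⟨Q⟩ : Nonempty (Sylow q G) := inferInstance
  have hmk := QuotientGroup.mk'_surjective N
  have himg : (Q : Subgroup G).map (QuotientGroup.mk' N) = (Qb : Subgroup (G ⧸ N)) := by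
    letI := Sylow.unique_of_normal Qb hQb
    exact congrArg Sylow.toSubgroup (Subsingleton.elim (Q.mapSurjective hmk) Qb)
  have hsup : ((Q : Subgroup G) ⊔ N).Normal := by
    have := hQb.comap (QuotientGroup.mk' N)
    rwa [← himg, Subgroup.comap_map_eq, QuotientGroup.ker_mk'] at this
  have hQc : ∀ a ∈ (Q : Subgroup G), ∀ b ∈ (Q : Subgroup G), ⁅a, b⁆ ∈ N := by
    intro a ha b hb
    rw [← QuotientGroup.eq_one_iff, ← QuotientGroup.mk'_apply, map_commutatorElement,
      commutatorElement_eq_one_iff_mul_comm]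
    exact hQab _ (himg ▸ Subgroup.mem_map_of_mem _ ha) _ (himg ▸ Subgroup.mem_map_of_mem _ hb)
  by_cases hsq : s = q
  · subst hsq
    exact false_modular B hne hmin' hexp hder (hcut p B.hp) (hcut r B.hr) Q hsup hQc
  · exact false_coprime B hs hsq hne hmin' hexp hder (hcut p B.hp) (hcut r B.hr) Q hsup hQc

/-- No counterexample is least. -/
theorem not_bad_of_least [Group.IsSolvable G] (hmin : IsLeast G) : ¬ Bad G p q r := by
  intro B
  classical
  haveI := Fact.mk B.hp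
  have hnt : Nontrivial G := by
    by_contra h
    rw [not_nontrivial_iff_subsingleton] at h
    obtain ⟨χ, hχ⟩ := B.dp
    refine (ItoMichler.main (p := p) (G := G) inferInstance).1
      ⟨⊥, inferInstance, fun a _ b _ => Subsingleton.elim _ _, IsPGroup.of_bot, ?_⟩ χ hχ
    rw [Subgroup.index_bot, Nat.card_of_subsingleton (1 : G)]
    exact B.hp.not_dvd_one
  obtain ⟨N, s, k, hN, hne, hmin', hc, hs, -, -, hexp⟩ :=
    Solvable.exists_minimal_normal_of_solvable (G := G)
  haveI := hN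
  haveI := hc
  have hno : ∀ {a b : ℕ}, NoAdj G a b → NoAdj (G ⧸ N) a b := by
    intro a b h β h1 h2
    obtain ⟨χ, hχ⟩ := exists_lift_quotient β
    exact h χ (hχ ▸ h1) (hχ ▸ h2)
  by_cases hqN : HasDeg (G ⧸ N) q
  · by_cases hpN : HasDeg (G ⧸ N) p
    · by_cases hrN : HasDeg (G ⧸ N) r
      · exact hmin (G ⧸ N) inferInstance (Solvable.card_quotient_lt N hne) p q r
          ⟨B.hp, B.hq, B.hr, B.hpq, B.hqr, B.hpr, hno B.npq, hno B.nqr, hno B.npr, hpN, hqN, hrN⟩
      · exact false_of_quotient B.right hmin hne hs hmin' hexp hrN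
    · exact false_of_quotient B.left hmin hne hs hmin' hexp hpN
  · exact false_of_quotient B hmin hne hs hmin' hexp hqN

/-- The theorem. -/
theorem not_bad {H : Type u} [Group H] [Finite H] [hs : Group.IsSolvable H] (p q r : ℕ) :
    ¬ Bad H p q r := by
  suffices key : ∀ (n : ℕ) (G : Type u) [Group G] [Finite G], Nat.card G = n →
      Group.IsSolvable G → ∀ p q r : ℕ, ¬ Bad G p q r from key _ H rfl hs p q r
  intro n
  induction n using Nat.strong_induction_on with
  | _ n ih =>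
  intro G _ _ hn hG p q r
  haveI := hG
  exact not_bad_of_least fun K _ _ hK hlt => ih _ (hn ▸ hlt) K rfl hK

end CfsgLib.Palfy
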