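import Mathlib.GroupTheory.Sylow
import Mathlib.Algebra.Group.Action.Prod
import Mathlib.Algebra.BigOperators.Group.Finset.Basic

/-!
Counting when every nontrivial vector is fixed by exactly one Sylow subgroup.
-/

set_option autoImplicit false
set_option linter.style.haveILetI false
set_option linter.unusedSectionVars false

namespace CfsgLib.Palfy

variable {H A : Type*} [Group H] [Finite H] [CommGroup A] [Finite A] {r : ℕ} [Fact r.Prime]

/-- The elements of `S` fixed by a subgroup. -/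
def fixIn (ρ : H →* MulAut A) (S : Subgroup A) (K : Subgroup H) : Subgroup A where
  carrier := {a | a ∈ S ∧ ∀ k ∈ K, ρ k a = a}
  one_mem' := ⟨one_mem S, fun k _ => map_one _⟩
  mul_mem' {a b} ha hb := ⟨mul_mem ha.1 hb.1, fun k hk => by rw [map_mul, ha.2 k hk, hb.2 k hk]⟩
  inv_mem' {a} ha := ⟨inv_mem ha.1, fun k hk => by rw [map_inv, ha.2 k hk]⟩

theorem fixIn_le (ρ : H →* MulAut A) (S : Subgroup A) (K : Subgroup H) : fixIn ρ S K ≤ S :=
  fun _ ha => ha.1

/-- The partition count. -/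
theorem partition_card (ρ : H →* MulAut A) (S : Subgroup A)
    (hinv : ∀ (h : H), ∀ a ∈ S, ρ h a ∈ S)
    (hfix : ∀ a ∈ S, a ≠ 1 → ∃ X : Sylow r H, (∀ x ∈ (X : Subgroup H), ρ x a = a) ∧
      ∀ h : H, ρ h a = a → ∀ x ∈ (X : Subgroup H), h * x * h⁻¹ ∈ (X : Subgroup H))
    (X₀ : Sylow r H) :
    Nat.card S - 1 = Nat.card (Sylow r H) * (Nat.card (fixIn ρ S X₀) - 1) := by
  classical
  -- uniqueness
  have huniq : ∀ a : A, ∀ X Y : Sylow r H,
      (∀ h : H, ρ h a = a → ∀ x ∈ (X : Subgroup H), h * x * h⁻¹ ∈ (X : Subgroup H)) →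
      (∀ y ∈ (Y : Subgroup H), ρ y a = a) → Y = X := by
    intro a X Y hX hY
    have hn : (Y : Subgroup H) ≤ Subgroup.normalizer ((X : Subgroup H) : Set H) := by
      intro y hy
      rw [Subgroup.mem_normalizer_iff]
      refine fun z => ⟨hX y (hY y hy) z, fun hz => ?_⟩
      have hy' : ρ y⁻¹ a = a := hY _ (inv_mem hy)
      simpa [mul_assoc] using hX y⁻¹ hy' _ hz
    have hsup : IsPGroup r ↥((Y : Subgroup H) ⊔ (X : Subgroup H)) :=
      Y.2.to_sup_of_normal_right' X.2 hn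
    exact Sylow.ext ((Y.3 hsup le_sup_left).symm.trans (X.3 hsup le_sup_right))
  have hne : ∀ (K : Subgroup A), Nat.card {a : K // (a : A) ≠ 1} = Nat.card K - 1 := by
    intro K
    haveI := Fintype.ofFinite K
    rw [Nat.card_eq_fintype_card, Nat.card_eq_fintype_card, Fintype.card_subtype_compl]
    congr 1
    rw [Fintype.card_eq_one_iff]
    exact ⟨⟨1, rfl⟩, fun y => Subtype.ext (Subtype.ext y.2)⟩
  have hcongr : ∀ X : Sylow r H,
      Nat.card {a : fixIn ρ S X // (a : A) ≠ 1} = Nat.card (fixIn ρ S X₀) - 1 := by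
    intro X
    rw [hne]
    congr 1
    obtain ⟨k, hk⟩ := MulAction.exists_smul_eq H X₀ X
    refine (Nat.card_congr (Equiv.subtypeEquiv (ρ k).toEquiv fun a => ?_)).symm
    rw [← hk]
    constructor
    · rintro ⟨ha, hfa⟩
      refine ⟨hinv k a ha, fun x hx => ?_⟩
      rw [Sylow.coe_subgroup_smul, Subgroup.mem_pointwise_smul_iff_inv_smul_mem] at hx
      have h1 := hfa _ hx
      simp only [MulAut.smul_def, ← map_inv, MulAut.conj_apply, inv_inv, map_mul,
        MulAut.mul_apply] at h1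
      have h2 := congrArg (ρ k) h1
      rw [map_inv, MulAut.apply_inv_self] at h2
      exact h2
    · rintro ⟨ha, hfa⟩
      refine ⟨?_, fun x hx => ?_⟩
      · have := hinv k⁻¹ _ ha
        change ρ k⁻¹ ((ρ k) a) ∈ S at this
        rwa [map_inv, MulAut.inv_apply_self] at this
      · have hx' : k * x * k⁻¹ ∈ ((k • X₀ : Sylow r H) : Subgroup H) := by
          rw [Sylow.coe_subgroup_smul]
          exact Subgroup.smul_mem_pointwise_smul x (MulAut.conj k) _ hx
        have h1 := hfa _ hx'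
        change (ρ (k * x * k⁻¹)) ((ρ k) a) = (ρ k) a at h1
        rw [map_mul, map_mul, MulAut.mul_apply, MulAut.mul_apply, map_inv,
          MulAut.inv_apply_self] at h1
        exact (ρ k).injective h1
  let f : (Σ X : Sylow r H, {a : fixIn ρ S X // (a : A) ≠ 1}) → {a : S // (a : A) ≠ 1} :=
    fun p => ⟨⟨p.2.1, fixIn_le ρ S _ p.2.1.2⟩, p.2.2⟩
  have hf : Function.Bijective f := by
    constructor
    · rintro ⟨X, ⟨⟨a, haS, haX⟩, ha⟩⟩ ⟨Y, ⟨⟨b, hbS, hbY⟩, hb⟩⟩ h
      have hab : a = b := congrArg (fun z => ((z : {a : S // (a : A) ≠ 1}).1 : A)) h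
      subst hab
      obtain ⟨Z, -, hZ⟩ := hfix a haS ha
      have hXY : X = Y := (huniq a Z X hZ haX).trans (huniq a Z Y hZ hbY).symm
      subst hXY
      rfl
    · rintro ⟨⟨a, ha⟩, hne'⟩
      obtain ⟨X, hX, -⟩ := hfix a ha hne'
      exact ⟨⟨X, ⟨⟨a, ha, hX⟩, hne'⟩⟩, rfl⟩
  haveI := Fintype.ofFinite (Sylow r H)
  rw [← hne S, ← Nat.card_congr (Equiv.ofBijective f hf), Nat.card_sigma,
    Finset.sum_congr rfl fun X _ => hcongr X, Finset.sum_const, Finset.card_univ, smul_eq_mul]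
  congr 1
  exact (Nat.card_eq_fintype_card).symm

end CfsgLib.Palfy
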