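import Cfsg.Agent.Palfy.ClassTwo
import Cfsg.Agent.Palfy.Commuting
import Cfsg.Agent.Palfy.Cores
import Cfsg.Agent.Palfy.Partition
import Cfsg.Agent.RealDegree.Induced

/-!
A Sylow subgroup acting trivially on the commutators of the normal Sylow `q`-subgroup: contradiction.
-/

set_option autoImplicit false
set_option linter.style.haveILetI false
set_option linter.unusedSectionVars false

namespace CfsgLib.Palfy

open Cfsg CfsgLib.Chars CfsgLib.Chars.Induced
open scoped commutatorElement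

variable {G : Type*} [Group G] [Finite G]

/-- A Sylow subgroup modulo `M` inside a normal subgroup of an inertia group is normal modulo
`M`. -/
theorem normal_sup_of_data {π : ℕ} [Fact π.Prime] {M T C : Subgroup G} [hM : M.Normal]
    [hC : C.Normal] {X₁ : Sylow π G} (hCT : C ≤ T) (hX₁ : (X₁ : Subgroup G) ≤ T)
    (hMT : M ≤ T)
    (hn : ∀ t ∈ T, ∀ x ∈ (X₁ : Subgroup G), t * x * t⁻¹ ∈ (X₁ : Subgroup G) ⊔ M)
    {X : Sylow π G} (hX : (X : Subgroup G) ≤ C) :
    ((X : Subgroup G) ⊔ M).Normal ∧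
      ∀ Y : Sylow π G, (X : Subgroup G) ≤ (Y : Subgroup G) ⊔ M := by
  classical
  set K1 := (X₁ : Subgroup G) ⊔ M with hK1
  have hK1T : K1 ≤ T := sup_le hX₁ hMT
  haveI hK1n : (K1.subgroupOf T).Normal := ⟨fun z hz t => by
    rw [Subgroup.mem_subgroupOf] at hz ⊢
    have hle : K1 ≤ K1.comap (MulAut.conj (t : G)).toMonoidHom :=
      sup_le (fun x hx => hn t t.2 x hx) fun m hm => Subgroup.mem_sup_right (hM.conj_mem m hm t)
    exact hle hz⟩
  -- every `π`-element of `T` lies there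
  have hmem : ∀ y ∈ T, ∀ k, y ^ π ^ k = 1 → y ∈ K1 := by
    intro y hy k hyk
    have h1 : ¬ π ∣ (K1.subgroupOf T).index := fun h =>
      X₁.not_dvd_index ((h.trans (Subgroup.relIndex_dvd_of_le_left T le_sup_left)).trans
        ((dvd_mul_right _ _).trans (Subgroup.relIndex_mul_index hX₁).dvd))
    have h2 : (⟨y, hy⟩ : T) ^ (K1.subgroupOf T).index ∈ K1.subgroupOf T :=
      Subgroup.pow_index_mem _ _
    have hco : Nat.Coprime (K1.subgroupOf T).index (π ^ k) :=
      Nat.Coprime.pow_right k ((Fact.out : π.Prime).coprime_iff_not_dvd.2 h1).symm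
    have h3 : y ^ (K1.subgroupOf T).index ∈ K1 := by simpa [Subgroup.mem_subgroupOf] using h2
    have h4 : y ^ π ^ k ∈ K1 := by rw [hyk]; exact one_mem _
    have h5 : y ^ Int.gcd ((K1.subgroupOf T).index : ℤ) ((π ^ k : ℕ) : ℤ) ∈ K1 := by
      rw [← zpow_natCast, Int.gcd_eq_gcd_ab, zpow_add, zpow_mul, zpow_mul, zpow_natCast, zpow_natCast]
      exact mul_mem (zpow_mem h3 _) (zpow_mem h4 _)
    rwa [Int.gcd_natCast_natCast, hco, pow_one] at h5
  have hall : ∀ Y : Sylow π G, (Y : Subgroup G) ≤ C → (Y : Subgroup G) ⊔ M ≤ K1 := by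
    intro Y hY
    refine sup_le (fun y hy => ?_) le_sup_right
    obtain ⟨k, hk⟩ := Y.2 ⟨y, hy⟩
    exact hmem y (hCT (hY hy)) k (by simpa using congrArg Subtype.val hk)
  have hconj : ∀ Y : Sylow π G, (Y : Subgroup G) ≤ C := by
    intro Y y hy
    obtain ⟨g, hg⟩ := MulAction.exists_smul_eq G X Y
    rw [← hg, Sylow.coe_subgroup_smul, Subgroup.mem_pointwise_smul_iff_inv_smul_mem] at hy
    have := hC.conj_mem _ (hX hy) g
    simpa [MulAut.smul_def, mul_assoc] using this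
  -- the join of all Sylow subgroups and `M`
  let K : Subgroup G := (⨆ Y : Sylow π G, (Y : Subgroup G)) ⊔ M
  have hKK1 : K = K1 := le_antisymm
    (sup_le (iSup_le fun Y => le_sup_left.trans (hall Y (hconj Y))) le_sup_right)
    (sup_le_sup_right (le_iSup (fun Y : Sylow π G => (Y : Subgroup G)) X₁) M)
  have hKn : K.Normal := ⟨fun z hz g => by
    have hle : K ≤ K.comap (MulAut.conj g).toMonoidHom := by
      refine sup_le (iSup_le fun Y y hy => ?_) fun m hm => Subgroup.mem_sup_right (hM.conj_mem m hm g)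
      refine Subgroup.mem_sup_left (Subgroup.mem_iSup_of_mem (g • Y) ?_)
      rw [Sylow.coe_subgroup_smul]
      exact Subgroup.smul_mem_pointwise_smul y (MulAut.conj g) _ hy
    exact hle hz⟩
  have hXK : ∀ Y : Sylow π G, K ≤ (Y : Subgroup G) ⊔ M := by
    intro Y
    obtain ⟨g, hg⟩ := MulAction.exists_smul_eq G X₁ Y
    have hle : K1 ≤ ((Y : Subgroup G) ⊔ M).comap (MulAut.conj g).toMonoidHom := by
      refine sup_le (fun y hy => Subgroup.mem_sup_left ?_)
        fun m hm => Subgroup.mem_sup_right (hM.conj_mem m hm g)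
      rw [← hg, Sylow.coe_subgroup_smul]
      exact Subgroup.smul_mem_pointwise_smul y (MulAut.conj g) _ hy
    intro z hz
    have h1 : g⁻¹ * z * g ∈ K := by simpa using hKn.conj_mem z hz g⁻¹
    have h2 : g * (g⁻¹ * z * g) * g⁻¹ ∈ (Y : Subgroup G) ⊔ M := hle (hKK1 ▸ h1)
    rwa [show g * (g⁻¹ * z * g) * g⁻¹ = z by group] at h2
  have hXeq : (X : Subgroup G) ⊔ M = K :=
    le_antisymm (sup_le_sup_right (le_iSup (fun Y : Sylow π G => (Y : Subgroup G)) X) M) (hXK X)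
  exact ⟨hXeq ▸ hKn, fun Y => le_sup_left.trans (hXeq.le.trans (hXK Y))⟩

theorem dualRep_inner {Q : Subgroup G} [hQn : Q.Normal] (μ : Q →* ℂˣ) {a : G} (ha : a ∈ Q) :
    dualRep Q a μ = μ := by
  refine MonoidHom.ext fun n => ?_
  rw [dualRep_apply, show (⟨a⁻¹ * n * a, by simpa using hQn.conj_mem n n.2 a⁻¹⟩ : Q) =
    (⟨a, ha⟩ : Q)⁻¹ * n * ⟨a, ha⟩ from rfl, map_mul, map_mul, map_inv, mul_comm, mul_inv_cancel_left]

/-- Inertia containing a Sylow subgroup: a linear character moved by `X` has the prime in the index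
of its inertia group. -/
theorem dvd_index_of_moved_normal {π : ℕ} [Fact π.Prime] {Q : Subgroup G} [hQn : Q.Normal]
    [Fintype Q] {X : Sylow π G} (hK : ∀ Y : Sylow π G, (X : Subgroup G) ≤ (Y : Subgroup G) ⊔ Q)
    (μ : Q →* ℂˣ) {x : G} (hx : x ∈ (X : Subgroup G)) (hmove : dualRep Q x μ ≠ μ) :
    π ∣ (inertia Q (linChar μ : Q → ℂ)).index := by
  by_contra hd
  obtain ⟨Y, hY⟩ := exists_sylow_le_of_index _ hd
  exact hmove ((mem_inertia_iff_dualRep Q μ x).1
    (sup_le hY (le_inertia (isClassFunction_coe _)) (hK Y hx)))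

/-- A Sylow subgroup fixing all linear characters of `Q/N` and centralizing `N` is an abelian normal
subgroup, and so does not contribute to the degrees. -/
theorem not_dvd_of_fix_all [Group.IsSolvable G] {q π : ℕ} [Fact π.Prime] {N Q : Subgroup G}
    (hQ : IsTwoCore q N Q) [hN : N.Normal] [hQn : Q.Normal] (hπq : π ≠ q) {X : Sylow π G}
    (hXN : ∀ x ∈ (X : Subgroup G), ∀ n ∈ N, Commute x n)
    (hn : ((X : Subgroup G) ⊔ Q).Normal)
    (hab : ∀ a ∈ (X : Subgroup G), ∀ b ∈ (X : Subgroup G), ⁅a, b⁆ ∈ Q)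
    (hfix : ∀ μ : Q →* ℂˣ, (∀ n : Q, (n : G) ∈ N → μ n = 1) → ∀ x ∈ (X : Subgroup G),
      dualRep Q x μ = μ) (χ : IrrCharacter G) : ¬ π ∣ charDegree (χ : G → ℂ) := by
  classical
  haveI := Fact.mk hQ.prime
  -- `X` centralizes `Q`
  have hXQ : ∀ x ∈ (X : Subgroup G), ∀ a ∈ Q, Commute x a := by
    intro x hx a ha
    have hc : a⁻¹ * (x * a * x⁻¹) ∈ N := by
      by_contra hne
      haveI : IsMulCommutative (Q ⧸ N.subgroupOf Q) := ⟨⟨fun u v => by
        induction u using QuotientGroup.induction_on with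
        | _ u =>
          induction v using QuotientGroup.induction_on with
          | _ v =>
            rw [← QuotientGroup.mk_mul, ← QuotientGroup.mk_mul, QuotientGroup.eq,
              Subgroup.mem_subgroupOf]
            simpa [commutatorElement_def, mul_assoc] using
              hQ.comm_mem _ (inv_mem v.2) _ (inv_mem u.2)⟩⟩
      letI : CommGroup (Q ⧸ N.subgroupOf Q) :=
        { (inferInstance : Group (Q ⧸ N.subgroupOf Q)) with mul_comm := mul_comm' }
      let c : Q := ⟨a, ha⟩⁻¹ * ⟨x * a * x⁻¹, hQn.conj_mem a ha x⟩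
      have hc1 : (c : Q ⧸ N.subgroupOf Q) ≠ 1 := fun h => hne (by
        rw [QuotientGroup.eq_one_iff, Subgroup.mem_subgroupOf] at h; exact h)
      haveI : Finite (Q ⧸ N.subgroupOf Q) := Quotient.finite _
      obtain ⟨ν, hν⟩ := CommGroup.exists_apply_ne_one_of_hasEnoughRootsOfUnity
        (Q ⧸ N.subgroupOf Q) ℂ hc1
      let μ : Q →* ℂˣ := ν.comp (QuotientGroup.mk' _)
      have h1 := DFunLike.congr_fun (hfix μ (fun n hn' => by
        simp [μ, (QuotientGroup.eq_one_iff n).2 (Subgroup.mem_subgroupOf.2 hn')]) x hx)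
        ⟨x * a * x⁻¹, hQn.conj_mem a ha x⟩
      rw [dualRep_apply] at h1
      have h2 : μ c = 1 := by
        show μ ((⟨a, ha⟩ : Q)⁻¹ * _) = 1
        rw [map_mul, map_inv, ← h1, show (⟨x⁻¹ * (x * a * x⁻¹) * x, _⟩ : Q) = ⟨a, ha⟩ from
          Subtype.ext (by group), inv_mul_cancel]
      exact hν (congrArg Units.val h2 |> Units.ext)
    obtain ⟨i, hi⟩ := X.2 ⟨x, hx⟩
    obtain ⟨j, hj⟩ := hQ.isP ⟨_, hQ.le hc⟩
    have hxi : x ^ π ^ i = 1 := by simpa using congrArg Subtype.val hi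
    have hcj : (a⁻¹ * (x * a * x⁻¹)) ^ q ^ j = 1 := by simpa using congrArg Subtype.val hj
    -- induction on the powers of the prime order
    have hn : ∀ n : ℕ, x ^ n * a * (x ^ n)⁻¹ = a * (a⁻¹ * (x * a * x⁻¹)) ^ n := by
      intro n
      induction n with
      | zero => simp
      | succ n ih =>
        set c := a⁻¹ * (x * a * x⁻¹) with hcdef
        calc x ^ (n + 1) * a * (x ^ (n + 1))⁻¹ = x * (x ^ n * a * (x ^ n)⁻¹) * x⁻¹ := by
              rw [pow_succ']; group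
          _ = (x * a * x⁻¹) * (x * c ^ n * x⁻¹) := by rw [ih]; group
          _ = a * c ^ (n + 1) := by
              rw [((hXN x hx c hc).pow_right n).eq, mul_inv_cancel_right, pow_succ',
                show x * a * x⁻¹ = a * c by rw [hcdef, mul_inv_cancel_left], mul_assoc]
    have h1 := hn (π ^ i)
    rw [hxi, one_mul, inv_one, mul_one, left_eq_mul] at h1
    have hco : Nat.Coprime (π ^ i) (q ^ j) :=
      Nat.Coprime.pow _ _ ((Nat.coprime_primes Fact.out hQ.prime).2 hπq)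
    have hc1 : a⁻¹ * (x * a * x⁻¹) = 1 := by
      have := pow_gcd_eq_one.2 ⟨h1, hcj⟩
      rwa [hco, pow_one] at this
    exact (mul_inv_eq_iff_eq_mul.1 (inv_mul_eq_one.1 hc1).symm : x * a = a * x)
  have hdis : Disjoint (X : Subgroup G) Q := IsPGroup.disjoint_of_ne π q hπq _ _ X.2 hQ.isP
  have hXn : (X : Subgroup G).Normal := ⟨fun y hy g => by
    have h1 := hn.conj_mem y (Subgroup.mem_sup_left hy) g
    rw [← SetLike.mem_coe, Subgroup.mul_normal] at h1
    obtain ⟨s, hs, m, hm, e⟩ := h1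
    have e' : s * m = g * y * g⁻¹ := e
    obtain ⟨i, hi⟩ := X.2 ⟨y, hy⟩
    obtain ⟨j, hj⟩ := X.2 ⟨s, hs⟩
    have hiy : y ^ π ^ i = 1 := by simpa using congrArg Subtype.val hi
    have hjs : s ^ π ^ j = 1 := by simpa using congrArg Subtype.val hj
    have h2 : m ^ π ^ (i + j) = 1 := by
      have h3 : (s * m) ^ π ^ (i + j) = 1 := by
        rw [e', conj_pow, pow_add, pow_mul, hiy, one_pow, mul_one, mul_inv_cancel]
      rwa [(hXQ s hs m hm).mul_pow, add_comm i j, pow_add π j i, pow_mul s, hjs, one_pow, one_mul,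
        ← pow_add, add_comm j i] at h3
    obtain ⟨k, hk⟩ := hQ.isP ⟨m, hm⟩
    have hkm : m ^ q ^ k = 1 := by simpa using congrArg Subtype.val hk
    have hm1 : m = 1 := by
      have := pow_gcd_eq_one.2 ⟨h2, hkm⟩
      rwa [(Nat.Coprime.pow (i + j) k ((Nat.coprime_primes Fact.out hQ.prime).2 hπq)), pow_one]
        at this
    rw [← e', hm1, mul_one]; exact hs⟩
  refine (ItoMichler.main (G := G) inferInstance).1 ⟨X, hXn, fun a ha b hb => ?_, X.2,
    X.not_dvd_index⟩ χ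
  exact commutatorElement_eq_one_iff_mul_comm.1 (Subgroup.disjoint_def.1 hdis
    (mul_mem (mul_mem (mul_mem ha hb) (inv_mem ha)) (inv_mem hb)) (hab a ha b hb))

/-- One prime acts trivially on the commutators, the other does not. -/
theorem false_of_trivial_moved [Group.IsSolvable G] {q π τ : ℕ} [Fact π.Prime] [Fact τ.Prime]
    {N Q : Subgroup G} (hQ : IsTwoCore q N Q) [hN : N.Normal] [hQn : Q.Normal] [Fintype N]
    (hNne : N ≠ ⊥) (hπq : π ≠ q)
    (hqπ : ∀ χ : IrrCharacter G, q ∣ charDegree (χ : G → ℂ) → ¬ π ∣ charDegree (χ : G → ℂ))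
    (hqτ : ∀ χ : IrrCharacter G, q ∣ charDegree (χ : G → ℂ) → ¬ τ ∣ charDegree (χ : G → ℂ))
    (hπτ : ∀ χ : IrrCharacter G, π ∣ charDegree (χ : G → ℂ) → ¬ τ ∣ charDegree (χ : G → ℂ))
    (X : Sylow π G) (hX : (X : Subgroup G) ≤ Subgroup.centralizer (N : Set G))
    (hKn : ((X : Subgroup G) ⊔ Q).Normal)
    (hK : ∀ Y : Sylow π G, (X : Subgroup G) ≤ (Y : Subgroup G) ⊔ Q)
    (hmove : ∃ μ : Q →* ℂˣ, (∀ n : Q, (n : G) ∈ N → μ n = 1) ∧ ∃ x ∈ (X : Subgroup G),
      dualRep Q x μ ≠ μ)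
    (Y₀ : Sylow τ G) (hY₀ : ¬ (Y₀ : Subgroup G) ≤ Subgroup.centralizer (N : Set G)) : False := by
  classical
  haveI := Fact.mk hQ.prime
  letI := Fintype.ofFinite G
  letI := Fintype.ofFinite Q
  set K := (X : Subgroup G) ⊔ Q with hKdef
  haveI := hKn
  have hKgen : ∀ Y : Sylow π G, K ≤ (Y : Subgroup G) ⊔ Q := fun Y => sup_le (hK Y) le_sup_right
  have hQC : Q ≤ Subgroup.centralizer (N : Set G) := fun a ha =>
    Subgroup.mem_centralizer_iff.2 fun n hn => hQ.central n hn a ha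
  have hKC : K ≤ Subgroup.centralizer (N : Set G) := sup_le hX hQC
  have hcen : ∀ k ∈ K, ∀ n ∈ N, k * n * k⁻¹ = n := fun k hk n hn => by
    rw [← Subgroup.mem_centralizer_iff.1 (hKC hk) n hn, mul_inv_cancel_right]
  -- the fixed points of `K` modulo `N`
  let C : Subgroup G :=
    { carrier := {a | a ∈ Q ∧ ∀ k ∈ K, ⁅k, a⁆ ∈ N}
      one_mem' := ⟨one_mem Q, fun k _ => by rw [commutatorElement_one_right]; exact one_mem N⟩
      mul_mem' := fun {a b} ha hb => ⟨mul_mem ha.1 hb.1, fun k hk => by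
        rw [show ⁅k, a * b⁆ = ⁅k, a⁆ * (a * ⁅k, b⁆ * a⁻¹) by simp only [commutatorElement_def]; group]
        exact mul_mem (ha.2 k hk) (hN.conj_mem _ (hb.2 k hk) a)⟩
      inv_mem' := fun {a} ha => ⟨inv_mem ha.1, fun k hk => by
        rw [show ⁅k, a⁻¹⁆ = a⁻¹ * ⁅k, a⁆⁻¹ * a by simp only [commutatorElement_def]; group]
        simpa using hN.conj_mem _ (inv_mem (ha.2 k hk)) a⁻¹⟩ }
  haveI hCn : C.Normal := ⟨fun a ha g => ⟨hQn.conj_mem a ha.1 g, fun k hk => by
    have h1 : g⁻¹ * k * g ∈ K := by simpa using hKn.conj_mem k hk g⁻¹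
    rw [show ⁅k, g * a * g⁻¹⁆ = g * ⁅g⁻¹ * k * g, a⁆ * g⁻¹ by
      simp only [commutatorElement_def]; group]
    exact hN.conj_mem _ (ha.2 _ h1) g⟩⟩
  have hNC : N ≤ C := fun n hn => ⟨hQ.le hn, fun k hk => by
    rw [commutatorElement_def, hcen k hk n hn, mul_inv_cancel]; exact one_mem N⟩
  -- characters vanishing on the fixed points
  let SA : Subgroup (Q →* ℂˣ) :=
    { carrier := {μ | ∀ a : Q, (a : G) ∈ C → μ a = 1}
      one_mem' := fun _ _ => rfl
      mul_mem' := fun {μ ν} hμ hν a ha => by rw [MonoidHom.mul_apply, hμ a ha, hν a ha, one_mul]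
      inv_mem' := fun {μ} hμ a ha => by rw [MonoidHom.inv_apply, hμ a ha, inv_one] }
  -- the quotient by `N`
  haveI : IsMulCommutative (Q ⧸ N.subgroupOf Q) := ⟨⟨fun u v => by
    induction u using QuotientGroup.induction_on with
    | _ u =>
      induction v using QuotientGroup.induction_on with
      | _ v =>
        rw [← QuotientGroup.mk_mul, ← QuotientGroup.mk_mul, QuotientGroup.eq, Subgroup.mem_subgroupOf]
        simpa [commutatorElement_def, mul_assoc] using hQ.comm_mem _ (inv_mem v.2) _ (inv_mem u.2)⟩⟩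
  letI : CommGroup (Q ⧸ N.subgroupOf Q) :=
    { (inferInstance : Group (Q ⧸ N.subgroupOf Q)) with mul_comm := mul_comm' }
  haveI : Finite (Q ⧸ N.subgroupOf Q) := Quotient.finite _
  have hkill : ∀ μ : Q →* ℂˣ, μ ∈ SA → N.subgroupOf Q ≤ μ.ker := fun μ hμ a ha =>
    hμ a (hNC (Subgroup.mem_subgroupOf.1 ha))
  -- `X` fixes only the trivial one
  have hfree : ∀ μ ∈ SA, (∀ x ∈ (X : Subgroup G), dualRep Q x μ = μ) → μ = 1 := by
    intro μ hμ hfix
    refine MonoidHom.ext fun a => ?_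
    let μb : Q ⧸ N.subgroupOf Q →* ℂˣ := QuotientGroup.lift _ μ (hkill μ hμ)
    let cj : G → Q →* Q := fun g =>
      { toFun := fun b => ⟨g * b * g⁻¹, hQn.conj_mem b b.2 g⟩
        map_one' := Subtype.ext (by simp)
        map_mul' := fun b b' => Subtype.ext (by simp [mul_assoc]) }
    haveI := Fintype.ofFinite (X : Subgroup G)
    obtain ⟨c, hc⟩ := QuotientGroup.mk_surjective
      (∏ x : (X : Subgroup G), ((cj x a : Q) : Q ⧸ N.subgroupOf Q))
    have hcC : (c : G) ∈ C := by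
      refine ⟨c.2, fun k hk => ?_⟩
      have hfixc : ∀ k ∈ K, (⟨k * c * k⁻¹, hQn.conj_mem c c.2 k⟩ : Q)⁻¹ * c ∈ N.subgroupOf Q := by
        let St : Subgroup G :=
          { carrier := {k | ((cj k c : Q) : Q ⧸ N.subgroupOf Q) = c}
            one_mem' := congrArg _ (Subtype.ext (by simp [cj]))
            mul_mem' := fun {g h} hg hh => by
              show ((cj (g * h) c : Q) : Q ⧸ N.subgroupOf Q) = c
              rw [show cj (g * h) c = cj g (cj h c) from Subtype.ext (by simp [cj, mul_assoc])]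
              have h1 : (cj h c)⁻¹ * c ∈ N.subgroupOf Q := QuotientGroup.eq.1 hh
              have h2 : (cj g (cj h c))⁻¹ * cj g c ∈ N.subgroupOf Q := by
                rw [← map_inv, ← map_mul, Subgroup.mem_subgroupOf]
                exact hN.conj_mem _ h1 g
              exact (QuotientGroup.eq.2 h2).trans hg
            inv_mem' := fun {g} hg => by
              show ((cj g⁻¹ c : Q) : Q ⧸ N.subgroupOf Q) = c
              have h1 : (cj g c)⁻¹ * c ∈ N.subgroupOf Q := QuotientGroup.eq.1 hg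
              have h2 : (cj g⁻¹ (cj g c))⁻¹ * cj g⁻¹ c ∈ N.subgroupOf Q := by
                rw [← map_inv, ← map_mul, Subgroup.mem_subgroupOf]
                exact hN.conj_mem _ h1 g⁻¹
              rw [show cj g⁻¹ (cj g c) = c from Subtype.ext (by simp [cj, mul_assoc])] at h2
              exact (QuotientGroup.eq.2 h2).symm }
        have hle : K ≤ St := by
          refine sup_le (fun y hy => ?_) fun b hb => ?_
          · show ((cj y c : Q) : Q ⧸ N.subgroupOf Q) = c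
            let Φ : (Q ⧸ N.subgroupOf Q) →* (Q ⧸ N.subgroupOf Q) :=
              QuotientGroup.map _ _ (cj y) (fun z hz => by
                rw [Subgroup.mem_comap, Subgroup.mem_subgroupOf]
                exact hN.conj_mem _ (Subgroup.mem_subgroupOf.1 hz) y)
            have hΦ : ∀ b : Q, ((cj y b : Q) : Q ⧸ N.subgroupOf Q) = Φ b := fun b => rfl
            rw [hΦ, hc, map_prod]
            refine Fintype.prod_equiv (Equiv.mulLeft ⟨y, hy⟩) _ _ fun x => ?_
            rw [← hΦ]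
            exact congrArg _ (Subtype.ext (by simp [cj, mul_assoc]))
          · show ((cj b c : Q) : Q ⧸ N.subgroupOf Q) = c
            rw [QuotientGroup.eq, Subgroup.mem_subgroupOf]
            have := hQ.comm_mem _ hb _ (inv_mem c.2)
            simpa [cj, commutatorElement_def, mul_assoc] using this
        exact fun k hk => QuotientGroup.eq.1 (hle hk)
      have h1 := hfixc k hk
      rw [Subgroup.mem_subgroupOf] at h1
      rw [show ⁅k, (c : G)⁆ = (c : G) * ((k * c * k⁻¹)⁻¹ * c)⁻¹ * (c : G)⁻¹ by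
        simp only [commutatorElement_def]; group]
      exact hN.conj_mem _ (inv_mem h1) (c : G)
    have h1 : μ c = μ a ^ Fintype.card (X : Subgroup G) := by
      have h2 : μb (c : Q ⧸ N.subgroupOf Q) = μ c := rfl
      rw [← h2, hc, map_prod, ← Finset.card_univ, ← Finset.prod_const]
      refine Finset.prod_congr rfl fun x _ => ?_
      show μ (cj x a) = μ a
      conv_rhs => rw [← hfix _ (inv_mem x.2)]
      rw [dualRep_apply]
      exact congrArg μ (Subtype.ext (by simp [cj]))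
    obtain ⟨i, hi⟩ := X.2.exists_card_eq
    obtain ⟨j, hj⟩ := hQ.isP a
    have h3 : μ a ^ π ^ i = 1 := by
      rw [← hi, Nat.card_eq_fintype_card, ← h1]; exact hμ c hcC
    have h4 : μ a ^ q ^ j = 1 := by rw [← map_pow, hj, map_one]
    have h5 := pow_gcd_eq_one.2 ⟨h3, h4⟩
    rwa [(Nat.Coprime.pow i j ((Nat.coprime_primes Fact.out hQ.prime).2 hπq)), pow_one] at h5
  -- the group modulo `Q`
  let ρA : G ⧸ Q →* MulAut (Q →* ℂˣ) := QuotientGroup.lift Q (dualRep Q) fun a ha =>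
    MulEquiv.ext fun μ => dualRep_inner μ ha
  let ρN : G ⧸ Q →* MulAut (N →* ℂˣ) := QuotientGroup.lift Q (dualRep N) fun a ha =>
    MulEquiv.ext fun l => MonoidHom.ext fun n => by
      show dualRep N a l n = l n
      rw [dualRep_apply]
      refine congrArg l (Subtype.ext ?_)
      show a⁻¹ * (n : G) * a = n
      rw [mul_assoc, hQ.central _ n.2 a ha, inv_mul_cancel_left]
  have hmk := QuotientGroup.mk'_surjective Q
  let Xb : Sylow τ (G ⧸ Q) := Y₀.mapSurjective hmk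
  have hinvA : ∀ h : G ⧸ Q, ∀ μ ∈ SA, ρA h μ ∈ SA := by
    intro h μ hμ
    induction h using QuotientGroup.induction_on with
    | _ g =>
      intro a ha
      show dualRep Q g μ a = 1
      rw [dualRep_apply]
      exact hμ _ (by simpa using hCn.conj_mem _ ha g⁻¹)
  -- data from a Sylow subgroup of an inertia group
  have himage : ∀ (Z : Sylow τ G) (T : Subgroup G), (Z : Subgroup G) ≤ T →
      (∀ t ∈ T, ∀ x ∈ (Z : Subgroup G), t * x * t⁻¹ ∈ (Z : Subgroup G) ⊔ Q) →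
      (∀ g ∈ T, ∀ x ∈ ((Z.mapSurjective hmk : Sylow τ (G ⧸ Q)) : Subgroup (G ⧸ Q)),
        (g : G ⧸ Q) * x * (g : G ⧸ Q)⁻¹ ∈
          ((Z.mapSurjective hmk : Sylow τ (G ⧸ Q)) : Subgroup (G ⧸ Q))) := by
    intro Z T hZT hZn g hg _ hx
    obtain ⟨x, hx, rfl⟩ := hx
    have h1 := hZn g hg x hx
    rw [← SetLike.mem_coe, Subgroup.mul_normal] at h1
    obtain ⟨y, hy, b, hb, e⟩ := h1
    refine ⟨y, hy, ?_⟩
    have e' : y * b = g * x * g⁻¹ := e
    rw [QuotientGroup.mk'_apply, QuotientGroup.mk'_apply, ← QuotientGroup.mk_inv,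
      ← QuotientGroup.mk_mul, ← QuotientGroup.mk_mul, ← e', QuotientGroup.mk_mul,
      (QuotientGroup.eq_one_iff b).2 hb, mul_one]
  have hfixA : ∀ μ ∈ SA, μ ≠ 1 → ∃ Z : Sylow τ (G ⧸ Q),
      (∀ x ∈ (Z : Subgroup (G ⧸ Q)), ρA x μ = μ) ∧
      ∀ h : G ⧸ Q, ρA h μ = μ → ∀ x ∈ (Z : Subgroup (G ⧸ Q)), h * x * h⁻¹ ∈ (Z : Subgroup (G ⧸ Q)) := by
    intro μ hμ hμ1
    obtain ⟨x₁, hx₁, hmove₁⟩ : ∃ x ∈ (X : Subgroup G), dualRep Q x μ ≠ μ := by
      by_contra h
      push Not at h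
      exact hμ1 (hfree μ hμ h)
    set T := inertia Q (linChar μ : Q → ℂ) with hT
    have hQT : Q ≤ T := le_inertia (isClassFunction_coe _)
    letI := Fintype.ofFinite T
    -- extend along a complement
    obtain ⟨k, hk⟩ := hQ.isP.exists_card_eq
    obtain ⟨L, hL⟩ := Subgroup.exists_right_complement'_of_coprime (N := Q)
      (by rw [hk]; exact (q_coprime_of_not_dvd hQ.prime hQ.idx k).symm)
    have hgen : ∀ t ∈ T, ∃ n ∈ Q, ∃ s ∈ L ⊓ T, t = n * s := fun t ht => by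
      obtain ⟨⟨b, l⟩, hbl⟩ := (hL.existsUnique t).exists
      have hbl' : (b : G) * (l : G) = t := hbl
      refine ⟨b, b.2, l, ⟨l.2, ?_⟩, hbl'.symm⟩
      rw [show (l : G) = (b : G)⁻¹ * t by rw [← hbl']; group]
      exact T.mul_mem (T.inv_mem (hQT b.2)) ht
    obtain ⟨ext, hext⟩ := RealDegree.exists_extension_complement (L ⊓ T) T hQT inf_le_right hgen
      (by rw [← inf_assoc, hL.disjoint.eq_bot, bot_inf_eq]) μ le_rfl
    obtain ⟨Z, hZT, hZn, -⟩ := sylow_data (q := π) (π := τ) Q (linChar μ) T hT hQT (linChar ext)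
      (fun m => by
        simp only [linChar_apply]
        rw [hext (Subgroup.inclusion hQT m) m (by simp)])
      (Dvd.dvd.mul_right (dvd_index_of_moved_normal hK μ hx₁ hmove₁) _) hπτ
    refine ⟨Z.mapSurjective hmk, ?_, ?_⟩
    · rintro _ ⟨z, hz, rfl⟩
      exact (mem_inertia_iff_dualRep Q μ z).1 (hZT hz)
    · intro h hh x hx
      induction h using QuotientGroup.induction_on with
      | _ g => exact himage Z T hZT hZn g ((mem_inertia_iff_dualRep Q μ g).2 hh) x hx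
  have hfixN : ∀ l ∈ (⊤ : Subgroup (N →* ℂˣ)), l ≠ 1 → ∃ Z : Sylow τ (G ⧸ Q),
      (∀ x ∈ (Z : Subgroup (G ⧸ Q)), ρN x l = l) ∧
      ∀ h : G ⧸ Q, ρN h l = l → ∀ x ∈ (Z : Subgroup (G ⧸ Q)), h * x * h⁻¹ ∈ (Z : Subgroup (G ⧸ Q)) := by
    intro l _ hl
    obtain ⟨Z, hZT, hZn, -⟩ := two_data (π := τ) hQ l hl hqτ
    refine ⟨Z.mapSurjective hmk, ?_, ?_⟩
    · rintro _ ⟨z, hz, rfl⟩
      exact (mem_inertia_iff_dualRep N l z).1 (hZT hz)
    · intro h hh x hx
      induction h using QuotientGroup.induction_on with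
      | _ g => exact himage Z _ hZT hZn g ((mem_inertia_iff_dualRep N l g).2 hh) x hx
  have e1 := partition_card ρA SA hinvA hfixA Xb
  have e2 := partition_card (A := N →* ℂˣ) ρN ⊤ (fun _ _ _ => trivial) hfixN Xb
  -- orders are powers of `q`
  obtain ⟨k, hk⟩ := hQ.isP.exists_card_eq
  have hpowA : ∀ S : Subgroup (Q →* ℂˣ), ∃ d, Nat.card S = q ^ d := fun S => by
    obtain ⟨d, -, hd⟩ := (Nat.dvd_prime_pow hQ.prime).1 ((S.card_subgroup_dvd_card).trans
      ((card_monoidHom_units (G := Q)).dvd.trans (hk ▸ Subgroup.index_dvd_card _)))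
    exact ⟨d, hd⟩
  have hpowN : ∀ S : Subgroup (N →* ℂˣ), ∃ d, Nat.card S = q ^ d := fun S => by
    obtain ⟨d, -, hd⟩ := (Nat.dvd_prime_pow hQ.prime).1 ((S.card_subgroup_dvd_card).trans
      (((card_monoidHom_units (G := N)).dvd.trans (Subgroup.index_dvd_card _)).trans
        (hk ▸ Subgroup.card_dvd_of_le hQ.le)))
    exact ⟨d, hd⟩
  obtain ⟨d, hd⟩ := hpowA SA
  obtain ⟨u, hu⟩ := hpowA (fixIn ρA SA Xb)
  obtain ⟨a, ha⟩ := hpowN ⊤
  obtain ⟨b, hb⟩ := hpowN (fixIn (A := N →* ℂˣ) ρN ⊤ Xb)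
  -- some character is there
  have hSA : ∃ μ ∈ SA, μ ≠ 1 := by
    obtain ⟨μ₁, hμ₁, x, hx, hne⟩ := hmove
    have hCQ : ∃ a ∈ Q, a ∉ C := by
      by_contra h
      push Not at h
      apply hne
      refine MonoidHom.ext fun z => ?_
      rw [dualRep_apply]
      have h1 : ⁅x⁻¹, (z : G)⁆ ∈ N := (h z z.2).2 x⁻¹ (inv_mem (Subgroup.mem_sup_left hx))
      rw [show (⟨x⁻¹ * (z : G) * x, by simpa using hQn.conj_mem z z.2 x⁻¹⟩ : Q) =
        ⟨⁅x⁻¹, (z : G)⁆, hQ.le h1⟩ * z from Subtype.ext (by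
          show x⁻¹ * (z : G) * x = ⁅x⁻¹, (z : G)⁆ * z
          simp only [commutatorElement_def]; group), map_mul, hμ₁ _ h1, one_mul]
    obtain ⟨a, haQ, haC⟩ := hCQ
    let C' : Subgroup (Q ⧸ N.subgroupOf Q) := (C.subgroupOf Q).map (QuotientGroup.mk' _)
    have hne' : (((⟨a, haQ⟩ : Q) : Q ⧸ N.subgroupOf Q) : (Q ⧸ N.subgroupOf Q) ⧸ C') ≠ 1 := by
      rw [Ne, QuotientGroup.eq_one_iff]
      rintro ⟨c, hc, hce⟩
      have h1 : c⁻¹ * ⟨a, haQ⟩ ∈ N.subgroupOf Q := QuotientGroup.eq.1 hce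
      rw [Subgroup.mem_subgroupOf] at h1
      exact haC (by simpa using mul_mem (Subgroup.mem_subgroupOf.1 hc) (hNC h1))
    obtain ⟨ν, hν⟩ := CommGroup.exists_apply_ne_one_of_hasEnoughRootsOfUnity
      ((Q ⧸ N.subgroupOf Q) ⧸ C') ℂ hne'
    refine ⟨ν.comp ((QuotientGroup.mk' C').comp (QuotientGroup.mk' _)), fun z hz => ?_,
      fun h => hν (DFunLike.congr_fun h ⟨a, haQ⟩)⟩
    simp only [MonoidHom.comp_apply]
    have hz' : QuotientGroup.mk' (N.subgroupOf Q) z ∈ C' := ⟨z, Subgroup.mem_subgroupOf.2 hz, rfl⟩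
    rw [QuotientGroup.mk'_apply C', (QuotientGroup.eq_one_iff _).2 hz', map_one]
  obtain ⟨μ₀, hμ₀, hμ₀1⟩ := hSA
  have hd1 : 2 ≤ q ^ d := by
    rw [← hd]
    haveI : Nontrivial SA := ⟨⟨⟨μ₀, hμ₀⟩, 1, fun h => hμ₀1 (congrArg Subtype.val h)⟩⟩
    exact Finite.one_lt_card
  -- the Sylow subgroup moves a character of `N`
  have hNmove : Nat.card (fixIn (A := N →* ℂˣ) ρN ⊤ Xb) < Nat.card (⊤ : Subgroup (N →* ℂˣ)) := by
    by_contra hle
    have heq : fixIn (A := N →* ℂˣ) ρN ⊤ Xb = ⊤ := Subgroup.eq_of_le_of_card_ge le_top (not_lt.1 hle)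
    apply hY₀
    intro y hy
    rw [Subgroup.mem_centralizer_iff]
    intro n hn
    by_contra hne
    haveI : IsMulCommutative N := ⟨⟨fun m n => Subtype.ext (hQ.central m m.2 n (hQ.le n.2))⟩⟩
    letI : CommGroup N := { (inferInstance : Group N) with mul_comm := mul_comm' }
    let m : N := ⟨y⁻¹ * n * y, by simpa using hN.conj_mem n hn y⁻¹⟩
    obtain ⟨l, hl⟩ := CommGroup.exists_apply_ne_one_of_hasEnoughRootsOfUnity N ℂ
      (a := m * (⟨n, hn⟩ : N)⁻¹) (fun h => hne (by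
        have h1 := congrArg Subtype.val (mul_inv_eq_one.1 h)
        simp only [m] at h1
        calc n * y = y * (y⁻¹ * n * y) := by group
          _ = y * n := by rw [h1]))
    apply hl
    have h1 : ρN (QuotientGroup.mk' Q y) l = l :=
      (heq.ge (Subgroup.mem_top l)).2 _ ⟨y, hy, rfl⟩
    have h2 := DFunLike.congr_fun (show dualRep N y l = l from h1) ⟨n, hn⟩
    rw [dualRep_apply] at h2
    rw [map_mul, map_inv]
    exact mul_inv_eq_one.2 h2
  -- an element moving the characters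
  obtain ⟨μ, hμfix, hμ1⟩ : ∃ μ ∈ fixIn ρA SA Xb, μ ≠ 1 := by
    by_contra h
    push Not at h
    have hbot : fixIn ρA SA Xb = ⊥ := (Subgroup.eq_bot_iff_forall _).2 h
    rw [hbot, Subgroup.card_bot, hd] at e1
    simp at e1
    omega
  obtain ⟨x, hx, a', hav⟩ : ∃ x ∈ (X : Subgroup G), ∃ a' : Q,
      μ ⟨x⁻¹ * a' * x, by simpa using hQn.conj_mem a' a'.2 x⁻¹⟩ ≠ μ a' := by
    by_contra h
    push Not at h
    refine hμ1 (hfree μ hμfix.1 fun x hx => MonoidHom.ext fun a' => ?_)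
    rw [dualRep_apply]
    exact h x hx a'
  set W := Q ⊓ Subgroup.centralizer (C : Set G) with hW
  haveI : W.Normal := by rw [hW]; infer_instance
  have hxa : x⁻¹ * (a' : G) * x ∈ Q := by simpa using hQn.conj_mem a' a'.2 x⁻¹
  let v₀ : Q := a'⁻¹ * ⟨x⁻¹ * (a' : G) * x, hxa⟩
  have hv₀W : (v₀ : G) ∈ W := by
    refine ⟨v₀.2, Subgroup.mem_centralizer_iff.2 fun c hc => ?_⟩
    have hxK : x ∈ K := Subgroup.mem_sup_left hx
    have h2 : ⁅x⁻¹ * (a' : G) * x, c⁆ = ⁅(a' : G), c⁆ := by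
      have h3 : ⁅(a' : G), x * c * x⁻¹⁆ = ⁅(a' : G), c⁆ := by
        have h4 : x * c * x⁻¹ = ⁅x, c⁆ * c := by simp only [commutatorElement_def]; group
        rw [h4, show ⁅(a' : G), ⁅x, c⁆ * c⁆ = ⁅(a' : G), ⁅x, c⁆⁆ *
          (⁅x, c⁆ * ⁅(a' : G), c⁆ * ⁅x, c⁆⁻¹) by simp only [commutatorElement_def]; group,
          commutatorElement_eq_one_iff_mul_comm.2 (hQ.central _ (hc.2 x hxK) _ a'.2).symm, one_mul,
          hQ.central _ (hc.2 x hxK) _ (hQ.le (hQ.comm_mem _ a'.2 _ hc.1)), mul_inv_cancel_right]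
      calc ⁅x⁻¹ * (a' : G) * x, c⁆ = x⁻¹ * ⁅(a' : G), x * c * x⁻¹⁆ * x⁻¹⁻¹ := by
            simp only [commutatorElement_def]; group
        _ = ⁅(a' : G), c⁆ := by rw [h3, hcen _ (inv_mem hxK) _ (hQ.comm_mem _ a'.2 _ hc.1)]
    have h5 : ⁅(v₀ : G), c⁆ = 1 := by
      show ⁅(a' : G)⁻¹ * (x⁻¹ * (a' : G) * x), c⁆ = 1
      rw [show ⁅(a' : G)⁻¹ * (x⁻¹ * (a' : G) * x), c⁆ =
        (a' : G)⁻¹ * (⁅x⁻¹ * (a' : G) * x, c⁆ * ⁅(a' : G), c⁆⁻¹) * (a' : G) by
          simp only [commutatorElement_def]; group, h2, mul_inv_cancel, mul_one, inv_mul_cancel]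
    exact (commutatorElement_eq_one_iff_mul_comm.1 h5).symm
  -- average over the Sylow subgroup
  haveI := Fintype.ofFinite (Y₀ : Subgroup G)
  let cj : G → Q →* Q := fun g =>
    { toFun := fun z => ⟨g * z * g⁻¹, hQn.conj_mem z z.2 g⟩
      map_one' := Subtype.ext (by simp)
      map_mul' := fun z z' => Subtype.ext (by simp [mul_assoc]) }
  obtain ⟨v, hvW, hv⟩ : ∃ v : Q, (v : G) ∈ W ∧ (v : Q ⧸ N.subgroupOf Q) =
      ∏ y : (Y₀ : Subgroup G), ((cj y v₀ : Q) : Q ⧸ N.subgroupOf Q) := by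
    have hmem : (∏ y : (Y₀ : Subgroup G), ((cj y v₀ : Q) : Q ⧸ N.subgroupOf Q)) ∈
        (W.subgroupOf Q).map (QuotientGroup.mk' (N.subgroupOf Q)) := by
      refine Subgroup.prod_mem _ fun y _ => ⟨cj y v₀, ?_, rfl⟩
      exact (inferInstance : W.Normal).conj_mem _ hv₀W y
    obtain ⟨v, hvW, hv⟩ := hmem
    exact ⟨v, hvW, hv⟩
  have hvfix : ∀ y ∈ (Y₀ : Subgroup G), (cj y v)⁻¹ * v ∈ N.subgroupOf Q := by
    intro y hy
    rw [← QuotientGroup.eq]
    let Φ : (Q ⧸ N.subgroupOf Q) →* (Q ⧸ N.subgroupOf Q) :=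
      QuotientGroup.map _ _ (cj y) (fun z hz => by
        rw [Subgroup.mem_comap, Subgroup.mem_subgroupOf]
        exact hN.conj_mem _ (Subgroup.mem_subgroupOf.1 hz) y)
    have hΦ : ∀ z : Q, ((cj y z : Q) : Q ⧸ N.subgroupOf Q) = Φ z := fun z => rfl
    rw [hΦ, hv, map_prod]
    refine Fintype.prod_equiv (Equiv.mulLeft ⟨y, hy⟩) _ _ fun z => ?_
    rw [← hΦ]
    exact congrArg _ (Subtype.ext (by simp [cj, mul_assoc]))
  have hμv : μ v ≠ 1 := by
    intro h
    have h1 : μ v = μ v₀ ^ Fintype.card (Y₀ : Subgroup G) := by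
      let μb : Q ⧸ N.subgroupOf Q →* ℂˣ := QuotientGroup.lift _ μ (hkill μ hμfix.1)
      rw [show μ v = μb (v : Q ⧸ N.subgroupOf Q) from rfl, hv, map_prod, ← Finset.card_univ,
        ← Finset.prod_const]
      refine Finset.prod_congr rfl fun y _ => ?_
      show μ (cj y v₀) = μ v₀
      have h2 : dualRep Q ((y : G)⁻¹) μ = μ := hμfix.2 _ ⟨_, inv_mem y.2, rfl⟩
      conv_rhs => rw [← h2]
      rw [dualRep_apply]
      exact congrArg μ (Subtype.ext (by simp [cj]))
    obtain ⟨i, hi⟩ := Y₀.2.exists_card_eq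
    obtain ⟨j, hj⟩ := hQ.isP v₀
    have h3 : μ v₀ ^ τ ^ i = 1 := by rw [← hi, Nat.card_eq_fintype_card, ← h1]; exact h
    have h4 : μ v₀ ^ q ^ j = 1 := by rw [← map_pow, hj, map_one]
    have hτq : τ ≠ q := by
      intro e
      apply hY₀
      refine le_trans ?_ hQC
      intro y hy
      have hyN : y ∈ (Y₀ : Subgroup G) ⊔ Q := Subgroup.mem_sup_left hy
      have hQY : Q ≤ (Y₀ : Subgroup G) := le_sup_left.trans
        (Y₀.3 ((e ▸ hQ.isP : IsPGroup τ Q).to_sup_of_normal_left Y₀.2) le_sup_right).le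
      obtain ⟨m, hm⟩ := Y₀.2 ⟨y, hy⟩
      rw [← QuotientGroup.eq_one_iff]
      have h5 : (y : G ⧸ Q) ^ q ^ m = 1 := by
        rw [← QuotientGroup.mk_pow, ← e, show y ^ τ ^ m = 1 by simpa using congrArg Subtype.val hm,
          QuotientGroup.mk_one]
      have h6 : (y : G ⧸ Q) ^ Nat.card (G ⧸ Q) = 1 := pow_card_eq_one'
      have h7 := pow_gcd_eq_one.2 ⟨h5, h6⟩
      rwa [← Subgroup.index_eq_card, (q_coprime_of_not_dvd hQ.prime hQ.idx m).symm, pow_one] at h7
    have h5 := pow_gcd_eq_one.2 ⟨h3, h4⟩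
    rw [(Nat.Coprime.pow i j ((Nat.coprime_primes Fact.out hQ.prime).2 hτq)), pow_one] at h5
    apply hav
    rw [map_mul, map_inv, inv_mul_eq_one] at h5
    exact h5.symm
  -- the injection of fixed points
  have hcomm : ∀ z : Q, ⁅(z : G), (v : G)⁆ ∈ N := fun z => hQ.comm_mem _ z.2 _ v.2
  let ψ : (N →* ℂˣ) →* (Q →* ℂˣ) :=
    { toFun := fun l =>
        { toFun := fun z => l ⟨⁅(z : G), (v : G)⁆, hcomm z⟩
          map_one' := by
            rw [show (⟨⁅((1 : Q) : G), (v : G)⁆, hcomm 1⟩ : N) = 1 from Subtype.ext (by simp), map_one]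
          map_mul' := fun z z' => by
            rw [← map_mul]
            refine congrArg l (Subtype.ext ?_)
            show ⁅((z : G) * z'), (v : G)⁆ = ⁅(z : G), (v : G)⁆ * ⁅(z' : G), (v : G)⁆
            rw [show ⁅(z : G) * z', (v : G)⁆ = (z : G) * ⁅(z' : G), (v : G)⁆ * (z : G)⁻¹ *
              ⁅(z : G), (v : G)⁆ by simp only [commutatorElement_def]; group,
              ← hQ.central _ (hcomm z') _ z.2, mul_inv_cancel_right,
              hQ.central _ (hcomm z') _ (hQ.le (hcomm z))] }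
      map_one' := MonoidHom.ext fun _ => rfl
      map_mul' := fun _ _ => MonoidHom.ext fun _ => rfl }
  have hmaps : ∀ l ∈ fixIn (A := N →* ℂˣ) ρN ⊤ Xb, ψ l ∈ fixIn ρA SA Xb := by
    intro l hl
    refine ⟨fun z hz => ?_, ?_⟩
    · show l ⟨⁅(z : G), (v : G)⁆, hcomm z⟩ = 1
      rw [show (⟨⁅(z : G), (v : G)⁆, hcomm z⟩ : N) = 1 from Subtype.ext
        (commutatorElement_eq_one_iff_mul_comm.2 ((Subgroup.mem_centralizer_iff.1 hvW.2) _ hz)),
        map_one]
    · rintro _ ⟨y, hy, rfl⟩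
      show dualRep Q y (ψ l) = ψ l
      have hl' : dualRep N y l = l := hl.2 _ ⟨y, hy, rfl⟩
      refine MonoidHom.ext fun z => ?_
      rw [dualRep_apply]
      show l ⟨⁅y⁻¹ * (z : G) * y, (v : G)⁆, _⟩ = l ⟨⁅(z : G), (v : G)⁆, hcomm z⟩
      conv_rhs => rw [← hl']
      rw [dualRep_apply]
      refine congrArg l (Subtype.ext ?_)
      show ⁅y⁻¹ * (z : G) * y, (v : G)⁆ = y⁻¹ * ⁅(z : G), (v : G)⁆ * y
      have hn : (y * (v : G) * y⁻¹)⁻¹ * (v : G) ∈ N := Subgroup.mem_subgroupOf.1 (hvfix y hy)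
      set n := (y * (v : G) * y⁻¹)⁻¹ * (v : G) with hndef
      have h1 : ⁅(z : G), y * (v : G) * y⁻¹⁆ = ⁅(z : G), (v : G)⁆ := by
        rw [show y * (v : G) * y⁻¹ = (v : G) * n⁻¹ by rw [hndef]; group,
          show ⁅(z : G), (v : G) * n⁻¹⁆ = ⁅(z : G), (v : G)⁆ *
            ((v : G) * ⁅(z : G), n⁻¹⁆ * (v : G)⁻¹) by simp only [commutatorElement_def]; group,
          commutatorElement_eq_one_iff_mul_comm.2 (hQ.central _ (inv_mem hn) _ z.2).symm, mul_one,
          mul_inv_cancel, mul_one]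
      rw [← h1]
      simp only [commutatorElement_def]; group
  have hinj : ∀ l, ψ l = 1 → l = 1 := by
    intro l hl
    by_contra hl1
    apply hμv
    refine hμfix.1 v ?_
    have hrad : (v : G) ∈ radical hQ l := by
      refine ⟨v.2, fun z hz n hn => ?_⟩
      have h1 := DFunLike.congr_fun hl ⟨z, hz⟩
      rw [MonoidHom.one_apply] at h1
      have h2 : n = (⟨⁅(z : G), (v : G)⁆, hcomm ⟨z, hz⟩⟩ : N)⁻¹ := Subtype.ext (by
        rw [hn]; exact (commutatorElement_inv _ _).symm)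
      rw [h2, map_inv]
      exact inv_eq_one.2 h1
    refine ⟨v.2, fun k hk => ?_⟩
    refine radical_centralized (π := π) hQ hl1 K hKgen hqπ hk hrad ?_
    refine ⟨hQn.conj_mem _ v.2 k, fun z hz n hn => ?_⟩
    have hz' : k⁻¹ * z * k ∈ Q := by simpa using hQn.conj_mem z hz k⁻¹
    refine hrad.2 _ hz' n ?_
    rw [hn, show ⁅k * (v : G) * k⁻¹, z⁆ = k * ⁅(v : G), k⁻¹ * z * k⁆ * k⁻¹ by
      simp only [commutatorElement_def]; group, hcen k hk _ (hQ.comm_mem _ v.2 _ hz')]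
  have hlt : Nat.card (fixIn (A := N →* ℂˣ) ρN ⊤ Xb) < Nat.card (fixIn ρA SA Xb) := by
    let F : fixIn (A := N →* ℂˣ) ρN ⊤ Xb → fixIn ρA SA Xb := fun l => ⟨ψ l, hmaps _ l.2⟩
    have hF : Function.Injective F := fun l l' h => by
      have h1 : ψ ((l : N →* ℂˣ) * (l' : N →* ℂˣ)⁻¹) = 1 := by
        refine MonoidHom.ext fun z => ?_
        show ((l : N →* ℂˣ) * (l' : N →* ℂˣ)⁻¹) ⟨⁅(z : G), (v : G)⁆, hcomm z⟩ = 1
        rw [MonoidHom.mul_apply, MonoidHom.inv_apply, mul_inv_eq_one]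
        exact DFunLike.congr_fun (congrArg Subtype.val h) z
      exact Subtype.ext (mul_inv_eq_one.1 (hinj _ h1))
    haveI := Fintype.ofFinite (fixIn (A := N →* ℂˣ) ρN ⊤ Xb)
    haveI := Fintype.ofFinite (fixIn ρA SA Xb)
    rw [Nat.card_eq_fintype_card, Nat.card_eq_fintype_card]
    refine Fintype.card_lt_of_injective_not_surjective F hF fun hs => hμv ?_
    obtain ⟨l, hl⟩ := hs ⟨μ, hμfix⟩
    have h1 := DFunLike.congr_fun (congrArg Subtype.val hl) v
    rw [← h1]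
    show (l : N →* ℂˣ) ⟨⁅(v : G), (v : G)⁆, hcomm v⟩ = 1
    rw [show (⟨⁅(v : G), (v : G)⁆, hcomm v⟩ : N) = 1 from
      Subtype.ext (commutatorElement_self (v : G)), map_one]
  rw [hb, ha] at hNmove
  rw [hb, hu] at hlt
  rw [hd, hu] at e1
  rw [ha, hb] at e2
  have hq2 := hQ.prime.two_le
  have hbu : b < u := (Nat.pow_lt_pow_iff_right (by omega)).1 hlt
  have hba : b < a := (Nat.pow_lt_pow_iff_right (by omega)).1 hNmove
  have hud : u ≤ d := by
    refine (Nat.pow_le_pow_iff_right (by omega : 1 < q)).1 ?_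
    rw [← hu, ← hd]; exact Subgroup.card_le_of_le (fixIn_le _ _ _)
  have hn1 : 1 < Nat.card (Sylow τ (G ⧸ Q)) := by
    by_contra hle
    have h1 : Nat.card (Sylow τ (G ⧸ Q)) * (q ^ b - 1) ≤ 1 * (q ^ b - 1) :=
      Nat.mul_le_mul_right _ (not_lt.1 hle)
    have := Nat.one_le_pow b q hQ.prime.pos
    omega
  exact geom_false hQ.prime hn1 hbu hud (by omega) e1.symm e2.symm

end CfsgLib.Palfy
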